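import Cfsg.Agent.Lib.Asch.Adjs
import Cfsg.Agent.Lib.Linear.MaxSub
import Cfsg.Agent.Lib.Q4R.Def
import Cfsg.Agent.Lib.D3.Frob

/-!
# Quasisimple irreducible subgroups of `GL_n`: set-up, trace criteria, covers
-/

set_option autoImplicit false
set_option linter.unusedSectionVars false

namespace Cfsg.Lib.Q4

open scoped MatrixGroups Matrix commutatorElement
open Cfsg.Geo Cfsg.Lib.Asch Cfsg.Lib.Linear
open Cfsg.Lib.Q4R (Sq HasTv sc)

variable {F : Type*} [Field F] {ι : Type} [Fintype ι] [DecidableEq ι]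

/-- the trace -/
def tr (g : GL ι F) : F := g.1.trace

theorem tr_mul_comm (g h : GL ι F) : tr (g * h) = tr (h * g) := Matrix.trace_mul_comm _ _

theorem tr_conj (g h : GL ι F) : tr (h * g * h⁻¹) = tr g := by
  rw [tr_mul_comm, inv_mul_cancel_left]

theorem tr_one : tr (1 : GL ι F) = Fintype.card ι := by simp [tr]

theorem tr_of_isConj {g h : GL ι F} (e : IsConj g h) : tr g = tr h := by
  obtain ⟨t, rfl⟩ := isConj_iff.1 e
  rw [tr_conj]

/-- `P` is perfect, simple modulo scalars and absolutely irreducible. -/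
structure QS (P : Subgroup (GL ι F)) : Prop where
  perfect : ⁅P, P⁆ = P
  simple : IsSimpleGroup (Sq P)
  nonabelian : ¬ IsMulCommutative (Sq P)
  env : env P = ⊤

/-- `P` is realised over no proper subfield. -/
def NoSub (P : Subgroup (GL ι F)) : Prop :=
  ∀ k : Subfield F, k ≠ ⊤ → ¬ RealisableOver k (matrixSet P)

/-- all traces are real -/
def Real (P : Subgroup (GL ι F)) : Prop := ∀ g ∈ P, tr g⁻¹ = tr g

/-- the traces of `g` and `g⁻¹` are conjugate under Frobenius -/
def Pm (p : ℕ) (P : Subgroup (GL ι F)) : Prop := ∀ g ∈ P, tr g⁻¹ = tr g ^ p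

/-- the pairs of traces lie in every subring containing `(x, y)` and `(y, x)` -/
def TrIn (P : Subgroup (GL ι F)) (x y : F) : Prop :=
  ∀ R : Subring (F × F), (x, y) ∈ R → (y, x) ∈ R → ∀ g ∈ P, (tr g, tr g⁻¹) ∈ R

/-- `P` fixes a symplectic or a quadratic form -/
def Bil (P : Subgroup (GL ι F)) : Prop :=
  (∃ Q : (ι → F) → F, IsNondegenerateQuadraticForm Q ∧ FixesQuadForm (matrixSet P) Q) ∨
    ∃ f : (ι → F) → (ι → F) → F, IsSymplecticForm f ∧ FixesForm (matrixSet P) f

/-- `P` is a full special unitary group -/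
def FullU (P : Subgroup (GL ι F)) : Prop :=
  ∃ (σ : F →+* F) (f : (ι → F) → (ι → F) → F), (∃ a, σ a ≠ a) ∧ SForm σ 1 f ∧
    P = iso f ⊓ specialLinear ι F

theorem mem_scalars_iff' [Nonempty ι] {g : GL ι F} :
    g ∈ scalars ι F ↔ ∃ c : F, g.1 = c • (1 : Matrix ι ι F) := by
  rw [mem_scalars_iff]
  refine ⟨fun ⟨c, hc⟩ => ⟨c, hc⟩, fun ⟨c, hc⟩ => ⟨Units.mk0 c fun h0 => ?_, hc⟩⟩
  have := g.isUnit
  rw [hc, h0, zero_smul] at this
  exact not_isUnit_zero this

theorem pow_card_of_det {g : GL ι F} {c : F} (hd : g.1.det = 1)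
    (h : g.1 = c • (1 : Matrix ι ι F)) : c ^ Fintype.card ι = 1 := by
  rwa [h, Matrix.det_smul, Matrix.det_one, mul_one] at hd

theorem pow_card_of_scalar {g : GL ι F} (hd : g.1.det = 1) (h : g ∈ scalars ι F) :
    g ^ Fintype.card ι = 1 := by
  obtain ⟨c, hc⟩ := (mem_scalars_iff _).1 h
  refine Units.ext ?_
  rw [Units.val_pow_eq_pow_val, hc, smul_pow, one_pow, pow_card_of_det hd hc, one_smul,
    Units.val_one]

theorem comm_of_scalar {z : GL ι F} (h : z ∈ scalars ι F) (g : GL ι F) :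
    g * z = z * g := Subgroup.mem_center_iff.1 (scalars_le_center h) g

theorem mk_eq_one_iff {P : Subgroup (GL ι F)} {g : P} :
    (QuotientGroup.mk g : Sq P) = 1 ↔ g.1 ∈ scalars ι F := by
  rw [QuotientGroup.eq_one_iff, Subgroup.mem_subgroupOf]

theorem mk_eq_mk_iff {P : Subgroup (GL ι F)} {g g' : P} :
    (QuotientGroup.mk g : Sq P) = QuotientGroup.mk g' ↔ (g⁻¹ * g').1 ∈ scalars ι F := by
  rw [QuotientGroup.eq, Subgroup.mem_subgroupOf]

/-- An element centralising a perfect group modulo scalars centralises it. -/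
theorem comm_of_perfect {P : Subgroup (GL ι F)} (hp : ⁅P, P⁆ = P) {h : GL ι F}
    (hh : ∀ x ∈ P, h * x * h⁻¹ * x⁻¹ ∈ scalars ι F) : ∀ x ∈ P, h * x = x * h := by
  have := le_centralizer_of_commutator_le (A := P) (B := Subgroup.closure {h}) scalars_le_center (by
    rw [Subgroup.commutator_comm, Subgroup.commutator_le]
    intro g hg x hx
    induction hg using Subgroup.closure_induction_left with
    | one => simp
    | mul_left k hk g _ ih =>
      obtain rfl : h = k := hk.symm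
      have : ⁅h * g, x⁆ = h * ⁅g, x⁆ * h⁻¹ * (h * x * h⁻¹ * x⁻¹) := by group
      exact this ▸ mul_mem (scalars_normal.conj_mem _ ih h) (hh x hx)
    | inv_mul_cancel k hk g _ ih =>
      obtain rfl : h = k := hk.symm
      have : ⁅h⁻¹ * g, x⁆ = h⁻¹ * (⁅g, x⁆ * (h * x * h⁻¹ * x⁻¹)⁻¹) * h⁻¹⁻¹ := by group
      exact this ▸ scalars_normal.conj_mem _ (mul_mem ih (inv_mem (hh x hx))) _)
  rw [hp] at this
  exact fun x hx => this hx h (Subgroup.subset_closure rfl)

section trace

variable [Nonempty ι] {P : Subgroup (GL ι F)}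

theorem qs_of_core [Finite F] {H : Subgroup (GL ι F)} (h : IsResidualCore H P) : QS P :=
  ⟨h.perfect, h.simple, h.nonabelian, env_eq_top_of_absIrred h.absIrred⟩

theorem realisable_of_trace [Finite F] (h : env P = ⊤) {k : Subfield F} (ht : ∀ x ∈ P, tr x ∈ k) :
    RealisableOver k (matrixSet P) := by
  obtain ⟨B, -, hB⟩ := exists_subfield_of_trace (H := ⊥) h bot_le ht
  exact ⟨B⁻¹, fun s hs => (hB s).1 (Algebra.subset_adjoin hs)⟩

theorem NoSub.eq_top [Finite F] (h : NoSub P) (he : env P = ⊤) {k : Subfield F}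
    (ht : ∀ x ∈ P, tr x ∈ k) : k = ⊤ := by
  by_contra hk
  exact h k hk (realisable_of_trace he ht)

/-- Real traces: a symplectic or quadratic form is fixed. -/
theorem Real.bil [Finite F] (ht : Real P) (h : env P = ⊤) (hn : 2 ≤ Fintype.card ι) : Bil P := by
  obtain ⟨ε, f, hf, hs, ha⟩ := exists_sform_of_trace (σ := RingHom.id F) (fun _ => rfl)
    (H := P) h Subgroup.le_normalizer ht
  have fx : FixesForm (matrixSet P) f := by
    rintro _ ⟨x, hx, rfl⟩ u v
    exact hf.adj_eq_inv_iff.1 (ha x hx) u v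
  by_cases h2 : (2 : F) = 0
  · exact .inr ⟨f, hf.isSymplectic (hf.alt_of_irr h2 hn (irr_of_env h) hs), fx⟩
  rcases hf.eps_id with rfl | rfl
  · exact .inl ⟨fun v => f v v, hf.isQuad h2, fun s hs v => fx s hs v v⟩
  · exact .inr ⟨f, hf.isSymplectic (hf.alt_of_neg h2), fx⟩

/-- `σ`-real traces: a unitary form is fixed. -/
theorem unitary_of_trace (h : env P = ⊤) {σ : F →+* F} (hσ : ∀ a, σ (σ a) = a) (h1 : ∃ a, σ a ≠ a)
    (ht : ∀ x ∈ P, tr x⁻¹ = σ (tr x)) : ∃ f : (ι → F) → (ι → F) → F, SForm σ 1 f ∧ P ≤ iso f := by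
  obtain ⟨ε, f, hf, -, ha⟩ := exists_sform_of_trace hσ (H := P) h Subgroup.le_normalizer ht
  obtain ⟨c, -, hc⟩ := hf.exists_herm h1
  refine ⟨_, hc, fun x hx u v => ?_⟩
  rw [hf.adj_eq_inv_iff.1 (ha x hx) u v]

variable (p : ℕ) [hp : Fact p.Prime] [CharP F p] [Fintype F]

theorem TrIn.fix_top {x y : F} (hR : TrIn P x y) (he : env P = ⊤) (hs : NoSub P) {n : ℕ}
    (hx : x ^ p ^ n = x) (hy : y ^ p ^ n = y) : D3.fixF F p n = ⊤ :=
  hs.eq_top he fun g hg =>
    (hR ((D3.fixF F p n).toSubring.prod (D3.fixF F p n).toSubring) ⟨hx, hy⟩ ⟨hy, hx⟩ g hg).1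

theorem TrIn.card_one {x y : F} (hR : TrIn P x y) (he : env P = ⊤) (hs : NoSub P)
    (hx : x ^ p = x) (hy : y ^ p = y) : Fintype.card F = p :=
  D3.card_eq_of_fix_one p (hR.fix_top p he hs (by simpa using hx) (by simpa using hy))

theorem TrIn.pm {x y : F} (hR : TrIn P x y) (he : env P = ⊤) (hs : NoSub P) (hx : x ^ p = y)
    (hy : y ^ p = x) (hne : x ≠ y) : Fintype.card F = p ^ 2 ∧ Pm p P :=
  ⟨D3.card_eq_of_fix_two p (hR.fix_top p he hs (by rw [sq, pow_mul, hx, hy])
      (by rw [sq, pow_mul, hy, hx])) (t := x) (hx ▸ hne.symm),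
    fun g hg => (hR (((frobenius F p).comp (RingHom.fst F F)).eqLocus (RingHom.snd F F)) hx hy g hg).symm⟩

theorem TrIn.real {x : F} (hR : TrIn P x x) : Real P :=
  fun g hg => (hR ((RingHom.fst F F).eqLocus (RingHom.snd F F)) rfl rfl g hg).symm

/-- `Pm`: real traces over the prime field or the field of order `p²`. -/
theorem Pm.real_or (h : Pm p P) (he : env P = ⊤) (hs : NoSub P) : Real P ∨ Fintype.card F = p ^ 2 := by
  have h2 : D3.fixF F p 2 = ⊤ := hs.eq_top he fun g hg => by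
    rw [D3.mem_fixF, sq, pow_mul, ← h g hg, ← h _ (inv_mem hg), inv_inv]
  by_cases h1 : ∃ t : F, t ^ p ≠ t
  · exact .inr (D3.card_eq_of_fix_two p h2 h1.choose_spec)
  · push Not at h1
    exact .inl fun g hg => (h g hg).trans (h1 _)

end trace

namespace QS

variable {P : Subgroup (GL ι F)} (h : QS P)
include h

theorem irr : Irr P := irr_of_env h.env

theorem le_sl : P ≤ specialLinear ι F := by
  rw [← h.perfect]
  refine Subgroup.commutator_le.2 fun a _ b _ => ?_
  change Matrix.GeneralLinearGroup.det ⁅a, b⁆ = 1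
  rw [map_commutatorElement, commutatorElement_eq_one_iff_mul_comm, mul_comm]

theorem det {g : GL ι F} (hg : g ∈ P) : g.1.det = 1 := mem_specialLinear.1 (h.le_sl hg)

/-- A non-scalar subgroup of `P` normalised by `P` is `P`. -/
theorem le_of_normal {N : Subgroup (GL ι F)} (hN : N ≤ P)
    (hn : ∀ g ∈ P, ∀ x ∈ N, g * x * g⁻¹ ∈ N) (h1 : ¬ N ≤ scalars ι F) : P ≤ N := by
  have := h.simple
  let π : P →* Sq P := QuotientGroup.mk' _
  have : (N.subgroupOf P).Normal := ⟨fun x hx g => hn g g.2 x hx⟩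
  have hm : ((N.subgroupOf P).map π).Normal :=
    Subgroup.Normal.map inferInstance π (QuotientGroup.mk'_surjective _)
  have hle : P ≤ N ⊔ scalars ι F := by
    rcases hm.eq_bot_or_eq_top with e | e
    · refine absurd (fun x hx => ?_) h1
      have : π ⟨x, hN hx⟩ ∈ (N.subgroupOf P).map π := ⟨⟨x, hN hx⟩, hx, rfl⟩
      rw [e, Subgroup.mem_bot] at this
      exact mk_eq_one_iff.1 this
    · intro x hx
      have : π ⟨x, hx⟩ ∈ (N.subgroupOf P).map π := e ▸ Subgroup.mem_top _
      obtain ⟨y, hy, hxy⟩ := this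
      have h2 : (y⁻¹ * ⟨x, hx⟩ : P).1 ∈ scalars ι F := mk_eq_mk_iff.1 hxy
      have h3 : x = y.1 * (y⁻¹ * ⟨x, hx⟩ : P).1 := by simp
      rw [h3]
      exact mul_mem (Subgroup.mem_sup_left hy) (Subgroup.mem_sup_right h2)
  rw [← h.perfect, commutator_eq_of_le_sup scalars_le_center hN hle]
  exact Subgroup.commutator_le.2 fun a ha b hb =>
    mul_mem (mul_mem (mul_mem ha hb) (inv_mem ha)) (inv_mem hb)

end QS

/-! ### Lifts of projective representations -/

/-- `ρ : Y → SL_n(K)` is faithful and `π` identifies `Y` modulo scalars with `X`. -/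
structure PR {Y X K : Type*} [Group Y] [Group X] [Field K] (π : Y →* X) (ρ : Y →* GL ι K) : Prop where
  surj : Function.Surjective π
  inj : Function.Injective ρ
  ker : ∀ y, π y = 1 ↔ ρ y ∈ scalars ι K
  det : ∀ y, (ρ y).1.det = 1

/-- `N` has the shape of a transvection minus one -/
def IsTv {K : Type*} [Field K] (g : GL ι K) : Prop :=
  ∃ v φ : ι → K, v ≠ 0 ∧ φ ≠ 0 ∧ φ ⬝ᵥ v = 0 ∧ g.1 = 1 + Matrix.vecMulVec v φ

theorem hasTv_iff {P : Subgroup (GL ι F)} : HasTv P ↔ ∃ g ∈ P, IsTv g := Iff.rfl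

theorem scal_map_iff [Nonempty ι] {K : Type*} [Field K] (f : F →+* K) (g : GL ι F) :
    Matrix.GeneralLinearGroup.map f g ∈ scalars ι K ↔ g ∈ scalars ι F := by
  rw [mem_scalars_iff', mem_scalars_iff']
  obtain ⟨o⟩ := ‹Nonempty ι›
  constructor
  · rintro ⟨c, hc⟩
    have k : ∀ i j, f (g.1 i j) = if i = j then (c : K) else 0 := fun i j => by
      simpa [Matrix.one_apply] using congrFun (congrFun hc i) j
    refine ⟨g.1 o o, Matrix.ext fun i j => f.injective ?_⟩
    rw [k]
    by_cases e : i = j <;> simp [e, k]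
  · rintro ⟨c, hc⟩
    refine ⟨f c, Matrix.ext fun i j => ?_⟩
    rw [show (Matrix.GeneralLinearGroup.map f g).1 i j = f (g.1 i j) from rfl, hc]
    by_cases e : i = j <;> simp [e]

theorem tr_map {K : Type*} [Field K] (f : F →+* K) (g : GL ι F) :
    tr (Matrix.GeneralLinearGroup.map f g) = f (tr g) := by
  simp only [tr, Matrix.trace, map_sum]; rfl

theorem IsTv.of_map {K : Type*} [Field K] (f : F →+* K) {g : GL ι F}
    (h : IsTv (Matrix.GeneralLinearGroup.map f g)) : IsTv g := by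
  obtain ⟨v, φ, hv, hφ, h0, e⟩ := h
  set N : Matrix ι ι F := g.1 - 1 with hN
  have k : ∀ i j, f (N i j) = v i * φ j := fun i j => by
    have := congrFun (congrFun e i) j
    rw [show (Matrix.GeneralLinearGroup.map f g).1 i j = f (g.1 i j) from rfl] at this
    rw [hN, Matrix.sub_apply, map_sub, this]
    by_cases q : i = j <;> simp [q, Matrix.vecMulVec_apply, Matrix.one_apply]
  obtain ⟨a, ha⟩ := Function.ne_iff.1 hv
  obtain ⟨b, hb⟩ := Function.ne_iff.1 hφ
  have ha : v a ≠ 0 := ha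
  have hb : φ b ≠ 0 := hb
  have n0 : N a b ≠ 0 := fun h => mul_ne_zero ha hb (by rw [← k, h, map_zero])
  refine ⟨fun i => N i b, fun j => N a j / N a b, fun h => n0 (congrFun h a),
    fun h => one_ne_zero ((div_self n0).symm.trans (congrFun h b)), f.injective ?_, ?_⟩
  · rw [dotProduct, map_sum, map_zero]
    have : ∀ i, f (N a i / N a b * N i b) = φ i * v i := fun i => by
      rw [map_mul, map_div₀, k, k, k]; field_simp
    simp only [this]
    exact h0
  · rw [← sub_eq_iff_eq_add']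
    refine Matrix.ext fun i j => f.injective ?_
    rw [← hN, Matrix.vecMulVec_apply, map_mul, map_div₀, k, k, k, k]; field_simp

namespace PR

variable {Y X K : Type*} [Group Y] [Group X] [Field K] {π : Y →* X} {ρ : Y →* GL ι K} (h : PR π ρ)
include h

/-- extension of scalars -/
theorem map [Nonempty ι] {L : Type*} [Field L] (f : K →+* L) :
    PR π ((Matrix.GeneralLinearGroup.map f).comp ρ) where
  surj := h.surj
  inj a b e := h.inj (Units.ext (Matrix.ext fun i j => f.injective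
    (congrArg (fun g : GL ι L => g.1 i j) e)))
  ker y := (h.ker y).trans (scal_map_iff f _).symm
  det y := by
    rw [show (((Matrix.GeneralLinearGroup.map f).comp ρ) y).1 = f.mapMatrix (ρ y).1 from rfl,
      ← RingHom.map_det, h.det, map_one]

theorem equiv {X' : Type*} [Group X'] (e : X ≃* X') : PR (e.toMonoidHom.comp π) ρ :=
  ⟨e.surjective.comp h.surj, h.inj, fun y => e.map_eq_one_iff.trans (h.ker y), h.det⟩

theorem comm {z : Y} (hz : π z = 1) (y : Y) : y * z = z * y :=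
  h.inj (by rw [map_mul, map_mul, comm_of_scalar ((h.ker z).1 hz)])

theorem pow_card {z : Y} (hz : π z = 1) : z ^ Fintype.card ι = 1 :=
  h.inj (by rw [map_pow, map_one, pow_card_of_scalar (h.det z) ((h.ker z).1 hz)])

theorem exists_smul {g g' : Y} (e : π g = π g') :
    ∃ c : K, c ^ Fintype.card ι = 1 ∧ (ρ g').1 = c • (ρ g).1 := by
  obtain ⟨c, hc⟩ := (mem_scalars_iff _).1 ((h.ker (g⁻¹ * g')).1 (by rw [map_mul, map_inv, e, inv_mul_cancel]))
  refine ⟨c, pow_card_of_det (h.det _) hc, ?_⟩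
  rw [← Matrix.mul_one (ρ g).1, ← Matrix.mul_smul, ← hc, ← Units.val_mul, ← map_mul, mul_inv_cancel_left]

/-- Two lifts of the same order prime to the degree agree. -/
theorem lift_unique {g g' : Y} (e : π g = π g') {n : ℕ} (hg : g ^ n = 1) (hg' : g' ^ n = 1)
    (hn : Nat.Coprime n (Fintype.card ι)) : g = g' := by
  have hz : π (g⁻¹ * g') = 1 := by rw [map_mul, map_inv, e, inv_mul_cancel]
  have hzn : (g⁻¹ * g') ^ n = 1 := by
    have := (show Commute g (g⁻¹ * g') from h.comm hz g).mul_pow n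
    rwa [mul_inv_cancel_left, hg, hg', one_mul, eq_comm] at this
  have := pow_gcd_eq_one.2 ⟨hzn, h.pow_card hz⟩
  rw [hn, pow_one] at this
  exact inv_mul_eq_one.1 this

/-- An element of order prime to the degree lifts to an element of the same order. -/
theorem exists_lift {s : X} {n : ℕ} (hs : s ^ n = 1) (hn : Nat.Coprime n (Fintype.card ι)) :
    ∃ g : Y, π g = s ∧ g ^ n = 1 := by
  obtain ⟨g, rfl⟩ := h.surj s
  have hz : π (g ^ n) = 1 := by rw [map_pow, hs]
  have hb := Nat.gcd_eq_gcd_ab n (Fintype.card ι)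
  rw [hn] at hb
  refine ⟨g * (g ^ n) ^ (-Nat.gcdA n (Fintype.card ι)), by rw [map_mul, map_zpow, hz, one_zpow, mul_one], ?_⟩
  have hc : Commute g ((g ^ n) ^ (-Nat.gcdA n (Fintype.card ι))) :=
    ((Commute.refl g).pow_right _).zpow_right _
  rw [hc.mul_pow, ← zpow_natCast ((g ^ n) ^ _), ← zpow_mul, ← zpow_one_add,
    show 1 + -Nat.gcdA n (Fintype.card ι) * n = (Fintype.card ι : ℕ) * Nat.gcdB n (Fintype.card ι) by
      push_cast at hb; linear_combination hb,
    zpow_mul, zpow_natCast, h.pow_card hz, one_zpow]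

theorem isConj {g g' : Y} {n : ℕ} (hg : g ^ n = 1) (hg' : g' ^ n = 1)
    (hn : Nat.Coprime n (Fintype.card ι)) (e : IsConj (π g) (π g')) : IsConj g g' := by
  obtain ⟨t, ht⟩ := isConj_iff.1 e
  obtain ⟨t, rfl⟩ := h.surj t
  refine isConj_iff.2 ⟨t, h.lift_unique (by simpa using ht) ?_ hg' hn⟩
  rw [conj_pow, hg, mul_one, mul_inv_cancel]

theorem tr_eq {g g' : Y} {n : ℕ} (hg : g ^ n = 1) (hg' : g' ^ n = 1)
    (hn : Nat.Coprime n (Fintype.card ι)) (e : IsConj (π g) (π g')) : tr (ρ g) = tr (ρ g') :=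
  tr_of_isConj (ρ.map_isConj (h.isConj hg hg' hn e))

/-- commuting elements of order prime to the degree have commuting lifts -/
theorem commute {g g' : Y} {n : ℕ} (hg : g ^ n = 1) (hn : Nat.Coprime n (Fintype.card ι))
    (e : Commute (π g) (π g')) : Commute g g' := by
  have := h.lift_unique (g := g' * g * g'⁻¹) (g' := g) (by rw [map_mul, map_mul, map_inv, ← e.eq]; simp)
    (by rw [conj_pow, hg]; simp) hg hn
  exact (mul_inv_eq_iff_eq_mul.1 this).symm

end PR

/-- `π` identifies `P` modulo scalars with `T`. -/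
structure Cov {T : Type*} [Group T] (P : Subgroup (GL ι F)) (π : P →* T) : Prop where
  qs : QS P
  surj : Function.Surjective π
  ker : ∀ g : P, π g = 1 ↔ g.1 ∈ scalars ι F

variable {P : Subgroup (GL ι F)} {T : Type*} [Group T]

theorem QS.cov (h : QS P) : Cov P (QuotientGroup.mk' _ : P →* Sq P) :=
  ⟨h, QuotientGroup.mk'_surjective _, fun _ => mk_eq_one_iff⟩

namespace Cov

variable {π : P →* T} (h : Cov P π)
include h

theorem pr : PR π P.subtype := ⟨h.surj, Subtype.val_injective, h.ker, fun g => h.qs.det g.2⟩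

theorem comp {T' : Type*} [Group T'] (e : T ≃* T') : Cov P (e.toMonoidHom.comp π) :=
  ⟨h.qs, e.surjective.comp h.surj, fun g => e.map_eq_one_iff.trans (h.ker g)⟩

theorem equiv : Nonempty (Sq P ≃* T) :=
  ⟨(QuotientGroup.quotientMulEquivOfEq (by ext g; exact (h.ker g).symm)).trans
    (QuotientGroup.quotientKerEquivOfSurjective π h.surj)⟩

theorem simple : IsSimpleGroup T := h.equiv.some.isSimpleGroup_congr.1 h.qs.simple

theorem nonabelian : ¬ IsMulCommutative T := fun k => h.qs.nonabelian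
  ⟨⟨fun a b => h.equiv.some.injective (by rw [map_mul, map_mul, k.1.1])⟩⟩

theorem det (g : P) : g.1.1.det = 1 := h.qs.det g.2

theorem not_scalar {g : P} (hg : π g ≠ 1) : g.1 ∉ scalars ι F := fun e => hg ((h.ker g).2 e)

/-- lifts of a generating set generate `P` -/
theorem closure_eq {s : Set P} (e : Subgroup.closure (π '' s) = ⊤) :
    Subgroup.closure (Subtype.val '' s) = P := by
  have h1 : Subgroup.closure (Subtype.val '' s) ≤ P := (Subgroup.closure_le _).2 (by
    rintro _ ⟨a, -, rfl⟩; exact a.2)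
  have h2 : P ≤ Subgroup.closure (Subtype.val '' s) ⊔ scalars ι F := fun x hx => by
    have : π ⟨x, hx⟩ ∈ (Subgroup.closure s).map π := by
      rw [MonoidHom.map_closure, e]; trivial
    obtain ⟨y, hy, e1⟩ := this
    have h3 : y.1 ∈ Subgroup.closure (Subtype.val '' s) := by
      have := Subgroup.mem_map_of_mem P.subtype hy
      rwa [MonoidHom.map_closure] at this
    rw [show x = y.1 * (y⁻¹ * ⟨x, hx⟩ : P).1 by simp]
    exact mul_mem (Subgroup.mem_sup_left h3) (Subgroup.mem_sup_right ((h.ker _).1 (by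
      rw [map_mul, map_inv, e1, inv_mul_cancel])))
  refine le_antisymm h1 (h.qs.perfect.ge.trans ?_)
  rw [commutator_eq_of_le_sup scalars_le_center h1 h2]
  exact Subgroup.commutator_le.2 fun a ha b hb =>
    mul_mem (mul_mem (mul_mem ha hb) (inv_mem ha)) (inv_mem hb)

theorem exists_aut {n : GL ι F} (hn : n ∈ Subgroup.normalizer (P : Set (GL ι F))) :
    ∃ (ψ : MulAut P) (φ : MulAut T), (∀ g, (ψ g).1 = n * g.1 * n⁻¹) ∧ ∀ g, φ (π g) = π (ψ g) := by
  let ψ : MulAut P := P.normalizerMonoidHom ⟨n, hn⟩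
  have h1 : ∀ g, (ψ g).1 = n * g.1 * n⁻¹ := fun g => rfl
  have hk : π.ker.map ψ.toMonoidHom = π.ker := by
    ext x
    rw [Subgroup.mem_map_equiv, MonoidHom.mem_ker, MonoidHom.mem_ker, h.ker, h.ker]
    conv_rhs => rw [← ψ.apply_symm_apply x, h1]
    exact ⟨fun e => scalars_normal.conj_mem _ e n, fun e => by
      simpa [mul_assoc] using scalars_normal.conj_mem _ e n⁻¹⟩
  let e := QuotientGroup.quotientKerEquivOfSurjective π h.surj
  refine ⟨ψ, e.symm.trans ((QuotientGroup.congr _ _ ψ hk).trans e), h1, fun g => ?_⟩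
  have : e.symm (π g) = QuotientGroup.mk g := e.symm_apply_eq.2 rfl
  simp only [MulEquiv.trans_apply, this]
  rfl

theorem mem_sup [Nonempty ι] {n : GL ι F} {ψ : MulAut P} {φ : MulAut T}
    (h1 : ∀ g, (ψ g).1 = n * g.1 * n⁻¹) (h2 : ∀ g, φ (π g) = π (ψ g))
    (hi : ∃ t, ∀ x, φ x = t * x * t⁻¹) : n ∈ P ⊔ scalars ι F := by
  obtain ⟨t, ht⟩ := hi
  obtain ⟨t, rfl⟩ := h.surj t
  have := mem_scalars_of_commute h.qs.env (g := t.1⁻¹ * n) (comm_of_perfect h.qs.perfect fun x hx => by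
    have := (h.ker (t⁻¹ * ψ ⟨x, hx⟩ * t * ⟨x, hx⟩⁻¹)).1 (by simp [← h2, ht, mul_assoc])
    simpa [h1, mul_assoc] using this)
  rw [show n = t.1 * (t.1⁻¹ * n) by simp]
  exact mul_mem (Subgroup.mem_sup_left t.2) (Subgroup.mem_sup_right this)

end Cov

end Cfsg.Lib.Q4
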