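import Cfsg.Agent.Lib.Q4.Basic

/-!
# Linear algebra: diagonal and unitriangular forms, weights, traces (any degree)
-/

set_option autoImplicit false
set_option linter.unusedSectionVars false

namespace Cfsg.Lib.Q4

open scoped MatrixGroups Matrix commutatorElement
open Cfsg.Geo Equiv
open Cfsg.Lib.Q4R (dg sc)

variable {K : Type*} [Field K] {ι : Type} [Fintype ι] [DecidableEq ι]

/-- `ρ(Y)` contains no transvection -/
def NT {Y : Type*} [Group Y] (ρ : Y →* GL ι K) : Prop := ∀ y, ¬ IsTv (ρ y)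

/-- upper unitriangular -/
def Ut {n : ℕ} (g : GL (Fin n) K) : Prop := ∀ i j, j ≤ i → g.1 i j = if i = j then 1 else 0

theorem IsTv.cj {g : GL ι K} (h : IsTv g) (B : GL ι K) : IsTv (B * g * B⁻¹) := by
  obtain ⟨v, φ, hv, hφ, h0, e⟩ := h
  refine ⟨B.1 *ᵥ v, φ ᵥ* (B⁻¹).1, fun h => hv ?_, fun h => hφ ?_, ?_, ?_⟩
  · simpa [Matrix.mulVec_mulVec] using congrArg ((B⁻¹).1 *ᵥ ·) h
  · simpa [Matrix.vecMul_vecMul] using congrArg (· ᵥ* B.1) h
  · rw [← Matrix.dotProduct_mulVec, Matrix.mulVec_mulVec]; simpa using h0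
  · simp only [Units.val_mul, e, mul_add, add_mul, mul_one, Units.mul_inv, Matrix.mul_vecMulVec,
      Matrix.vecMulVec_mul]

section

variable {Y X : Type*} [Group Y] [Group X] {π : Y →* X} {ρ : Y →* GL ι K}

/-- the conjugate representation -/
def cjr (B : GL ι K) (ρ : Y →* GL ι K) : Y →* GL ι K := (MulAut.conj B).toMonoidHom.comp ρ

theorem cjr_apply (B : GL ι K) (y : Y) : cjr B ρ y = B * ρ y * B⁻¹ := rfl

theorem PR.cj (h : PR π ρ) (B : GL ι K) : PR π (cjr B ρ) where
  surj := h.surj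
  inj := (MulAut.conj B).injective.comp h.inj
  ker y := (h.ker y).trans ⟨fun e => scalars_normal.conj_mem _ e B, fun e => by
    simpa [cjr_apply, mul_assoc] using scalars_normal.conj_mem _ e B⁻¹⟩
  det y := by
    rw [cjr_apply, Units.val_mul, Units.val_mul, Matrix.det_mul, Matrix.det_mul, h.det, mul_one,
      ← Matrix.det_mul, Units.mul_inv, Matrix.det_one]

theorem NT.cj (h : NT ρ) (B : GL ι K) : NT (cjr B ρ) := fun y k =>
  h y (by simpa [cjr_apply, mul_assoc] using k.cj B⁻¹)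

theorem NT.map (h : NT ρ) {L : Type*} [Field L] (f : K →+* L) :
    NT ((Matrix.GeneralLinearGroup.map f).comp ρ) := fun y k => h y (k.of_map f)

theorem nt_of {P : Subgroup (GL ι K)} (h : ¬ Q4R.HasTv P) : NT P.subtype := fun y k => h ⟨y, y.2, k⟩

end

theorem lin_cols {S : Set (ι → K)} (hS : Submodule.span K S = ⊤) :
    ∃ h : GL ι K, ∀ j, h.1.col j ∈ S := by
  obtain ⟨f, hf, -, hli⟩ := Submodule.exists_fun_fin_finrank_span_eq K S
  have hc : Fintype.card ι = Module.finrank K (Submodule.span K S) := by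
    rw [hS, finrank_top, Module.finrank_fintype_fun_eq_card]
  let e := Fintype.equivFinOfCardEq hc
  obtain ⟨h, hh⟩ : IsUnit (Matrix.of fun i j => f (e j) i) :=
    Matrix.linearIndependent_cols_iff_isUnit.1 (hli.comp e e.injective)
  exact ⟨h, fun j => by rw [hh]; exact hf (e j)⟩

open Polynomial Module in
/-- Simultaneous diagonalisation: port of `Dim3.exists_diag` (`Dim3/Diag.lean`) to any index type. -/
theorem exists_dg [IsAlgClosed K] {J : Type*} (A : J → GL ι K) (hc : ∀ i j, Commute (A i) (A j))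
    (h : ∀ i, ∃ n : ℕ, (n : K) ≠ 0 ∧ A i ^ n = 1) : ∃ B : GL ι K, ∀ i, ∃ a, B * A i * B⁻¹ = dg a := by
  let f : J → End K (ι → K) := fun i => Matrix.toLin' (A i).1
  have hs : ∀ i, (f i).IsSemisimple := fun i => by
    obtain ⟨n, hn, e⟩ := h i
    refine End.isSemisimple_of_squarefree_aeval_eq_zero
      (X_pow_sub_one_separable_iff.2 hn).squarefree ?_
    rw [map_sub, map_pow, aeval_X, map_one, sub_eq_zero]
    change (Matrix.toLinAlgEquiv' (A i).1) ^ n = 1
    rw [← map_pow, ← Units.val_pow_eq_pow_val, e, Units.val_one, map_one]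
  have h1 := fun i (μ : K) => (hs i).isFinitelySemisimple.maxGenEigenspace_eq_eigenspace μ
  have h2 := End.iSup_iInf_maxGenEigenspace_eq_top_of_iSup_maxGenEigenspace_eq_top_of_commute f
    (fun i j _ => by
      change Matrix.toLin' (A i).1 ∘ₗ Matrix.toLin' (A j).1 = Matrix.toLin' (A j).1 ∘ₗ Matrix.toLin' (A i).1
      rw [← Matrix.toLin'_mul, ← Units.val_mul, (hc i j).eq, Units.val_mul, Matrix.toLin'_mul])
    fun i => End.iSup_maxGenEigenspace_eq_top _
  obtain ⟨B, hB⟩ := lin_cols (S := {v | ∀ i, ∃ c : K, (A i).1 *ᵥ v = c • v}) (by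
    rw [eq_top_iff, ← h2]
    exact iSup_le fun χ v hv => Submodule.subset_span fun i =>
      ⟨χ i, End.mem_eigenspace_iff.1 (h1 i _ ▸ (Submodule.mem_iInf _).1 hv i)⟩)
  refine ⟨B⁻¹, fun i => ?_⟩
  choose χ hχ using fun j => hB j i
  have e : (A i).1 * B.1 = B.1 * Matrix.diagonal χ := by
    ext j k
    simpa [Matrix.mul_apply, Matrix.mulVec, dotProduct, Matrix.diagonal_apply, mul_comm]
      using congrFun (hχ k) j
  have e' : (B⁻¹ * A i * B⁻¹⁻¹).1 = Matrix.diagonal χ := by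
    rw [inv_inv, mul_assoc, Units.val_mul, Units.val_mul, e, ← mul_assoc, Units.inv_mul, one_mul]
  have hd := (B⁻¹ * A i * B⁻¹⁻¹).det_ne_zero
  rw [e', Matrix.det_diagonal, Finset.prod_ne_zero_iff] at hd
  exact ⟨fun j => Units.mk0 (χ j) (hd j (Finset.mem_univ j)), Units.ext e'⟩

/-- Conjugation permutes the weights: take `σ` with `t (σ j) j ≠ 0` for all `j` (a non-zero term of `det t`) and
compare the entries `(σ j, j)` of `t * dg a = dg b * t`.  The same `σ` serves for all pairs `a, b`. -/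
theorem exists_wt (t : GL ι K) : ∃ σ : Perm ι, (∀ j, t.1 (σ j) j ≠ 0) ∧
    ∀ a b : ι → Kˣ, t * dg a * t⁻¹ = dg b → ∀ j, b (σ j) = a j := by
  obtain ⟨σ, hσ⟩ : ∃ σ : Perm ι, ∀ j, t.1 (σ j) j ≠ 0 := by
    by_contra hn
    push Not at hn
    refine t.det_ne_zero ?_
    rw [Matrix.det_apply]
    refine Finset.sum_eq_zero fun σ _ => ?_
    obtain ⟨j, hj⟩ := hn σ
    rw [Finset.prod_eq_zero (f := fun i => t.1 (σ i) i) (Finset.mem_univ j) hj, smul_zero]
  refine ⟨σ, hσ, fun a b e j => ?_⟩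
  have := congrArg (fun g : GL ι K => g.1 (σ j) j) (mul_inv_eq_iff_eq_mul.1 e)
  simp only [Units.val_mul, Q4R.dg_val, Matrix.mul_diagonal, Matrix.diagonal_mul] at this
  exact Units.ext (mul_right_cancel₀ (hσ j) (this.symm.trans (mul_comm _ _)))

/-- an entry of a matrix commuting with a diagonal matrix -/
theorem wt_of_comm {s : GL ι K} {a : ι → Kˣ} (h : Commute s (dg a)) {i j : ι} (h0 : s.1 i j ≠ 0) : a i = a j := by
  have := congrArg (fun g : GL ι K => g.1 i j) h.eq
  simp only [Units.val_mul, Q4R.dg_val, Matrix.mul_diagonal, Matrix.diagonal_mul] at this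
  exact Units.ext (mul_right_cancel₀ h0 (this.symm.trans (mul_comm _ _)))

theorem comm_of_wt {s : GL ι K} {a : ι → Kˣ} (h : ∀ i j, s.1 i j ≠ 0 → a i = a j) : Commute s (dg a) := by
  refine Units.ext (Matrix.ext fun i j => ?_)
  simp only [Units.val_mul, Q4R.dg_val, Matrix.mul_diagonal, Matrix.diagonal_mul]
  by_cases e : s.1 i j = 0
  · rw [e, zero_mul, mul_zero]
  · rw [h i j e, mul_comm]

/-- **Weight lemma.**  Diagonalise `ρ(A)`, take `σ` from `exists_wt`; the weight `σᵐ j` of `gᵐ a g⁻ᵐ` is the weight `j`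
of `a`. -/
theorem wtY [IsAlgClosed K] {Y : Type*} [Group Y] {ρ : Y →* GL ι K} (hρ : Function.Injective ρ) (A : Set Y)
    (hc : ∀ a ∈ A, ∀ b ∈ A, Commute a b) (hn : ∀ a ∈ A, ∃ n : ℕ, (n : K) ≠ 0 ∧ a ^ n = 1) {g : Y}
    (hg : ∀ a ∈ A, g * a * g⁻¹ ∈ A) : ∃ σ : Perm ι, ∀ m : ℕ, σ ^ m = 1 → ∀ a ∈ A, Commute (g ^ m) a := by
  obtain ⟨B, hB⟩ := exists_dg (J := A) (fun a => ρ a) (fun a b => (hc _ a.2 _ b.2).map ρ) fun a => by
    obtain ⟨n, h1, h2⟩ := hn _ a.2
    exact ⟨n, h1, by rw [← map_pow, h2, map_one]⟩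
  choose! d hd using fun a (ha : a ∈ A) => hB ⟨a, ha⟩
  obtain ⟨σ, -, hσ⟩ := exists_wt (B * ρ g * B⁻¹)
  have key : ∀ m : ℕ, ∀ a ∈ A, g ^ m * a * (g ^ m)⁻¹ ∈ A ∧
      ∀ j, d (g ^ m * a * (g ^ m)⁻¹) ((σ ^ m) j) = d a j := fun m a ha => by
    induction m with
    | zero => simpa using ha
    | succ m ih =>
      rw [show g ^ (m + 1) * a * (g ^ (m + 1))⁻¹ = g * (g ^ m * a * (g ^ m)⁻¹) * g⁻¹ by group]
      refine ⟨hg _ ih.1, fun j => ?_⟩
      rw [pow_succ' σ, Perm.mul_apply]
      refine (hσ _ _ ?_ _).trans (ih.2 j)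
      rw [← hd _ ih.1, ← hd _ (hg _ ih.1)]
      simp only [map_mul, map_inv]
      group
  refine ⟨σ, fun m hm a ha => ?_⟩
  obtain ⟨k1, k2⟩ := key m a ha
  have e := (hd _ k1).trans ((congrArg dg (funext fun j => by simpa [hm] using k2 j)).trans (hd a ha).symm)
  exact mul_inv_eq_iff_eq_mul.1 (hρ (mul_left_cancel (mul_right_cancel e)))

theorem lin_fix {P V : Type*} {p : ℕ} [Fact p.Prime] [CharP K p] [Group P] [Finite P] (hP : IsPGroup p P)
    [AddCommGroup V] [Module K V] [Nontrivial V] (ρ : Representation K P V) :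
    ∃ v, v ≠ 0 ∧ ∀ g, ρ g v = v := by
  obtain ⟨v, hv0⟩ := exists_ne (0 : V)
  let _ : Algebra (ZMod p) K := ZMod.algebra K p
  let _ : Module (ZMod p) V := Module.compHom V (algebraMap (ZMod p) K)
  have smul_def : ∀ (c : ZMod p) (x : V), c • x = algebraMap (ZMod p) K c • x := fun _ _ => rfl
  let U : Submodule (ZMod p) V := Submodule.span (ZMod p) (Set.range fun g : P => ρ g v)
  have hU : ∀ g, ∀ u ∈ U, ρ g u ∈ U := by
    intro g u hu
    induction hu using Submodule.span_induction with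
    | mem x hx =>
      obtain ⟨h, rfl⟩ := hx
      exact Submodule.subset_span ⟨g * h, by simp⟩
    | zero => simp
    | add x y _ _ hx hy => rw [map_add]; exact U.add_mem hx hy
    | smul c x _ hx => rw [smul_def, map_smul]; exact U.smul_mem c hx
  have : Module.Finite (ZMod p) U := Module.Finite.span_of_finite _ (Set.finite_range _)
  have : Finite U := Module.finite_of_finite (ZMod p)
  let _ : MulAction P U :=
    { smul := fun g u => ⟨ρ g u, hU g u u.2⟩
      one_smul := fun u => Subtype.ext (by change ρ 1 u = u; simp)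
      mul_smul := fun g h u => Subtype.ext (by change ρ (g * h) u = ρ g (ρ h u); simp) }
  have hvU : v ∈ U := Submodule.subset_span ⟨1, by simp⟩
  have hd : p ∣ Nat.card U := by
    have : Nontrivial U := ⟨⟨v, hvU⟩, 0, fun e => hv0 (congrArg Subtype.val e)⟩
    rw [Module.natCard_eq_pow_finrank (K := ZMod p), Nat.card_zmod]
    exact dvd_pow_self _ Module.finrank_pos.ne'
  obtain ⟨u, hu, hu0⟩ := hP.exists_fixed_point_of_prime_dvd_card_of_fixed_point U hd (a := 0)
    (fun g => Subtype.ext (map_zero (ρ g)))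
  exact ⟨u, fun e => hu0 (Subtype.ext e.symm), fun g => congrArg Subtype.val (hu g)⟩

theorem lin_flag {P V : Type*} {p : ℕ} [Fact p.Prime] [CharP K p] [Group P] [Finite P] (hP : IsPGroup p P)
    [AddCommGroup V] [Module K V] [FiniteDimensional K V] (ρ : Representation K P V) (m : ℕ)
    (hm : m ≤ Module.finrank K V) : ∃ v : Fin m → V, LinearIndependent K v ∧
      ∀ g i, ρ g (v i) - v i ∈ Submodule.span K (v '' Set.Iio i) := by
  induction m with
  | zero => exact ⟨Fin.elim0, linearIndependent_empty_type, fun _ i => i.elim0⟩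
  | succ m ih =>
    obtain ⟨v, hv, hf⟩ := ih (by omega)
    have hW : ∀ g, Submodule.span K (Set.range v) ≤ (Submodule.span K (Set.range v)).comap (ρ g) :=
      fun g => Submodule.span_le.2 (by
        rintro _ ⟨i, rfl⟩
        have := add_mem (Submodule.span_mono (Set.image_subset_range _ _) (hf g i))
          (Submodule.subset_span (s := Set.range v) ⟨i, rfl⟩)
        rwa [sub_add_cancel] at this)
    have : Nontrivial (V ⧸ Submodule.span K (Set.range v)) := Submodule.Quotient.nontrivial_iff.2 fun e => by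
      have := finrank_span_eq_card hv
      rw [e, finrank_top, Fintype.card_fin] at this
      omega
    obtain ⟨w, w0, hw⟩ := lin_fix hP (ρ.quotient _ hW)
    obtain ⟨w, rfl⟩ := Submodule.Quotient.mk_surjective _ w
    refine ⟨Fin.snoc v w, linearIndependent_finSnoc.2
      ⟨hv, fun e => w0 ((Submodule.Quotient.mk_eq_zero _).2 e)⟩, fun g i => ?_⟩
    induction i using Fin.lastCases with
    | last =>
      rw [Fin.snoc_last]
      refine Submodule.span_mono ?_ ((Submodule.Quotient.eq _).1 (hw g))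
      rintro _ ⟨j, rfl⟩
      exact ⟨j.castSucc, Fin.castSucc_lt_last j, Fin.snoc_castSucc ..⟩
    | cast i =>
      rw [Fin.snoc_castSucc]
      refine Submodule.span_mono ?_ (hf g i)
      rintro _ ⟨j, hj, rfl⟩
      exact ⟨j.castSucc, Fin.castSucc_lt_castSucc_iff.2 hj, Fin.snoc_castSucc ..⟩

/-- A finite `p`-group in characteristic `p` is unitriangular.  It fixes a non-zero vector of every non-zero module
(act on the finite additive span of an orbit, `IsPGroup.exists_fixed_point_of_prime_dvd_card_of_fixed_point`);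
build an invariant flag by induction and take a basis through it. -/
theorem exists_ut (p : ℕ) [Fact p.Prime] [CharP K p] {n : ℕ} (U : Subgroup (GL (Fin n) K)) [Finite U]
    (hU : IsPGroup p U) : ∃ B : GL (Fin n) K, ∀ u ∈ U, Ut (B * u * B⁻¹) := by
  obtain ⟨v, hv, hf⟩ := lin_flag hU (V := Fin n → K) ((Matrix.toLinAlgEquiv' (R := K) (n := Fin n)).toMonoidHom.comp
    ((Units.coeHom _).comp U.subtype)) n (by simp)
  obtain ⟨B, hB⟩ : IsUnit (Matrix.of fun i j => v j i) := Matrix.linearIndependent_cols_iff_isUnit.1 hv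
  have e1 : ∀ j, B.1 *ᵥ Pi.single j 1 = v j := fun j => by rw [Matrix.mulVec_single_one, hB]; rfl
  have e2 : ∀ j, (B⁻¹).1 *ᵥ v j = Pi.single j 1 := fun j => by rw [← e1, Linear.GL_inv_mulVec_mulVec]
  refine ⟨B⁻¹, fun u hu i j hij => ?_⟩
  have key : ∀ w ∈ Submodule.span K (v '' Set.Iio j), ((B⁻¹).1 *ᵥ w) i = 0 := fun w hw => by
    induction hw using Submodule.span_induction with
    | mem x hx =>
      obtain ⟨k, hk, rfl⟩ := hx
      rw [e2, Pi.single_eq_of_ne (lt_of_lt_of_le hk hij).ne']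
    | zero => simp
    | add x y _ _ a b => rw [Matrix.mulVec_add, Pi.add_apply, a, b, add_zero]
    | smul c x _ a => rw [Matrix.mulVec_smul, Pi.smul_apply, a, smul_zero]
  have := key (u.1 *ᵥ v j - v j) (hf ⟨u, hu⟩ j)
  rw [Matrix.mulVec_sub, e2, ← e1, Matrix.mulVec_mulVec, Matrix.mulVec_mulVec, Matrix.mulVec_single_one,
    Pi.sub_apply, sub_eq_zero, Pi.single_apply] at this
  exact this

open Polynomial Matrix in
/-- port of `Sp4O.trace_pow_char` (`Sp4O/A7.lean`) -/
theorem tr_pow_char (p : ℕ) [Fact p.Prime] [CharP K p] (g : GL ι K) : tr (g ^ p) = tr g ^ p := by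
  rcases isEmpty_or_nonempty ι with hι | hι
  · simp [tr, Matrix.trace, (Fact.out : p.Prime).ne_zero]
  rw [tr, tr, Units.val_pow_eq_pow_val]
  generalize g.1 = M
  have h : (M ^ p).charpoly = M.charpoly.map (frobenius K p) := by
    apply expand_injective (Fact.out : p.Prime).pos
    rw [← map_expand, map_frobenius_expand]
    unfold charpoly
    rw [AlgHom.map_det, ← coe_detMonoidHom, ← (detMonoidHom : Matrix ι ι K[X] →* K[X]).map_pow]
    congr 1
    refine matPolyEquiv.injective ?_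
    rw [map_pow, matPolyEquiv_charmatrix, sub_pow_char_of_commute, ← C_pow]
    · exact (id (matPolyEquiv_eq_X_pow_sub_C p M) :)
    · exact (C M).commute_X
  rw [trace_eq_neg_charpoly_coeff, trace_eq_neg_charpoly_coeff, h, coeff_map, frobenius_def,
    neg_pow, neg_one_pow_char, neg_one_mul]

theorem tr_pow_char_pow (p : ℕ) [Fact p.Prime] [CharP K p] (g : GL ι K) (n : ℕ) :
    tr (g ^ p ^ n) = tr g ^ p ^ n := by
  induction n with
  | zero => simp
  | succ n ih => rw [pow_succ, pow_mul, pow_mul, tr_pow_char, ih]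

/-- `(tr g - d)^(pⁿ) = tr 1 - d = 0` -/
theorem tr_unip (p : ℕ) [Fact p.Prime] [CharP K p] {g : GL ι K} {n : ℕ} (h : g ^ p ^ n = 1) :
    tr g = Fintype.card ι := by
  have := tr_pow_char_pow p g n
  rw [h, tr_one] at this
  refine sub_eq_zero.1 (eq_zero_of_pow_eq_zero (n := p ^ n) ?_)
  rw [sub_pow_char_pow, ← this, ← iterateFrobenius_def, map_natCast, sub_self]

theorem tr_dg (a : ι → Kˣ) : tr (dg a : GL ι K) = ∑ i, (a i : K) := by
  rw [tr, Q4R.dg_val, Matrix.trace_diagonal]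

theorem det_dg (a : ι → Kˣ) : (dg a : GL ι K).1.det = ∏ i, (a i : K) := by
  rw [Q4R.dg_val, Matrix.det_diagonal]

/-- `t g t⁻¹ = c g` with `c ≠ 1` -/
theorem tr_eq_zero {g t : GL ι K} {c : K} (h : (t * g * t⁻¹).1 = c • g.1) (hc : c ≠ 1) : tr g = 0 := by
  have := tr_conj g t
  rw [tr, h, Matrix.trace_smul, smul_eq_mul] at this
  refine (mul_eq_zero.1 (show (c - 1) * tr g = 0 from ?_)).resolve_left (sub_ne_zero.2 hc)
  rw [sub_mul, one_mul, sub_eq_zero]
  exact this

/-- absolute irreducibility survives extension of scalars: the matrix units are combinations of elements of `P` -/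
theorem env_map {L : Type*} [Field L] (f : K →+* L) {P : Subgroup (GL ι K)} (h : Asch.env P = ⊤) :
    Asch.env (P.map (Matrix.GeneralLinearGroup.map f)) = ⊤ := by
  have key : ∀ X ∈ Submodule.span K (matrixSet P),
      X.map f ∈ Asch.env (P.map (Matrix.GeneralLinearGroup.map f)) := fun X hX => by
    induction hX using Submodule.span_induction with
    | mem x hx => obtain ⟨g, hg, rfl⟩ := hx; exact Algebra.subset_adjoin ⟨_, ⟨g, hg, rfl⟩, rfl⟩
    | zero => rw [Matrix.map_zero _ (map_zero f)]; exact zero_mem _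
    | add x y _ _ a b => rw [Matrix.map_add _ (map_add f)]; exact add_mem a b
    | smul c x _ a =>
      rw [show (c • x).map f = f c • x.map f from Matrix.ext fun i j => map_mul f c (x i j)]
      exact Subalgebra.smul_mem _ a _
  refine eq_top_iff.2 fun X _ => ?_
  rw [Matrix.matrix_eq_sum_single X]
  refine sum_mem fun i _ => sum_mem fun j _ => ?_
  have := Subalgebra.smul_mem _ (key (Matrix.single i j 1) (by rw [Asch.span_eq_top_of_adjoin h]; trivial)) (X i j)
  rwa [Matrix.map_single i j (1 : K) f, map_one, Matrix.smul_single, smul_eq_mul, mul_one] at this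

/-- A matrix that has rank one over an extension field has rank one (see the proof of `IsTv.of_map`). -/
theorem rank_one_of_map {L : Type*} [Field L] (f : K →+* L) {N : Matrix ι ι K} {v φ : ι → L}
    (h : N.map f = Matrix.vecMulVec v φ) :
    ∃ w ψ : ι → K, N = Matrix.vecMulVec w ψ ∧ f (ψ ⬝ᵥ w) = φ ⬝ᵥ v := by
  have k : ∀ i j, f (N i j) = v i * φ j := fun i j => congrFun (congrFun h i) j
  by_cases n : ∀ a b, N a b = 0
  · refine ⟨0, 0, Matrix.ext fun i j => by simp [n], ?_⟩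
    rw [dotProduct_zero, map_zero, dotProduct]
    exact (Finset.sum_eq_zero fun i _ => by rw [mul_comm, ← k, n, map_zero]).symm
  push Not at n
  obtain ⟨a, b, n0⟩ := n
  obtain ⟨ha, hb⟩ : v a ≠ 0 ∧ φ b ≠ 0 := mul_ne_zero_iff.1 (by rw [← k]; exact (map_ne_zero f).2 n0)
  refine ⟨fun i => N i b, fun j => N a j / N a b, Matrix.ext fun i j => f.injective ?_, ?_⟩
  · rw [Matrix.vecMulVec_apply, map_mul, map_div₀, k, k, k, k]; field_simp
  · rw [dotProduct, map_sum]
    refine Finset.sum_congr rfl fun i _ => ?_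
    rw [map_mul, map_div₀, k, k, k]; field_simp

/-- **Cyclic products.**  By induction on `g` prove together `(ψ i g (u j), ψ j g⁻¹ (u i)) ∈ R` for all `i, j` and
`(tr g, tr g⁻¹) ∈ R`; for `s = c (1 + l u_k ψ_k)`:
`ψ_i s g u_j = c (ψ_i g u_j + l (ψ_i u_k) (ψ_k g u_j))`, `ψ_j g⁻¹ s⁻¹ u_i = c' (ψ_j g⁻¹ u_i + l' (ψ_k u_i) (ψ_j g⁻¹ u_k))`,
`tr (s g) = c (tr g + l ψ_k g u_k)`. -/
theorem cyc {J : Type*} (u ψ : J → ι → K) (R : Subring (K × K))
    (hG : ∀ i j, (ψ i ⬝ᵥ u j, ψ j ⬝ᵥ u i) ∈ R) {S : Set (GL ι K)}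
    (hS : ∀ s ∈ S, ∃ (k : J) (c c' l l' : K), (c, c') ∈ R ∧ (c', c) ∈ R ∧ (l, l') ∈ R ∧ (l', l) ∈ R ∧
      s.1 = c • (1 + l • Matrix.vecMulVec (u k) (ψ k)) ∧
      (s⁻¹).1 = c' • (1 + l' • Matrix.vecMulVec (u k) (ψ k))) :
    ∀ g ∈ Subgroup.closure S, (tr g, tr g⁻¹) ∈ R := by
  let Q : GL ι K → Prop := fun g =>
    (∀ i j, (ψ i ⬝ᵥ (g.1 *ᵥ u j), ψ j ⬝ᵥ ((g⁻¹).1 *ᵥ u i)) ∈ R) ∧ (tr g, tr g⁻¹) ∈ R
  have step : ∀ {s g : GL ι K} {k : J} {c c' l l' : K}, (c, c') ∈ R → (l, l') ∈ R →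
      s.1 = c • (1 + l • Matrix.vecMulVec (u k) (ψ k)) →
      (s⁻¹).1 = c' • (1 + l' • Matrix.vecMulVec (u k) (ψ k)) → Q g → Q (s * g) :=
    fun {s g k c c' l l'} hc hl e e' q => ⟨fun i j => by
      convert R.mul_mem hc (R.add_mem (q.1 i j) (R.mul_mem hl (R.mul_mem (hG i k) (q.1 k j)))) using 1
      rw [mul_inv_rev, Units.val_mul, Units.val_mul, e, e', ← Matrix.mulVec_mulVec, ← Matrix.mulVec_mulVec]
      simp only [Matrix.smul_mulVec, Matrix.add_mulVec, Matrix.one_mulVec, Matrix.vecMulVec_mulVec,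
        Matrix.mulVec_smul, Matrix.mulVec_add, dotProduct_smul, dotProduct_add, op_smul_eq_smul, smul_eq_mul,
        Prod.mk_mul_mk, Prod.mk_add_mk]
      congr 1
      ring, by
      convert R.mul_mem hc (R.add_mem q.2 (R.mul_mem hl (q.1 k k))) using 1
      rw [mul_inv_rev, tr_mul_comm s, tr, tr, tr, tr, Units.val_mul, Units.val_mul, e, e']
      simp only [Matrix.mul_smul, Matrix.mul_add, Matrix.mul_one, Matrix.mul_vecMulVec, Matrix.trace_smul,
        Matrix.trace_add, Matrix.trace_vecMulVec, smul_eq_mul, Prod.mk_mul_mk, Prod.mk_add_mk,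
        dotProduct_comm (ψ k)]⟩
  intro g hg
  refine And.right (?_ : Q g)
  induction hg using Subgroup.closure_induction_left with
  | one => exact ⟨fun i j => by simpa using hG i j, by
      rw [inv_one, tr_one]; exact natCast_mem R (Fintype.card ι)⟩
  | mul_left s hs g _ ih =>
    obtain ⟨k, c, c', l, l', h1, -, h3, -, e, e'⟩ := hS s hs
    exact step h1 h3 e e' ih
  | inv_mul_cancel s hs g _ ih =>
    obtain ⟨k, c, c', l, l', -, h2, -, h4, e, e'⟩ := hS s hs
    exact step h2 h4 e' (by rwa [inv_inv]) ih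

end Cfsg.Lib.Q4
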