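import Cfsg.Agent.Lib.Q4.Lin

/-!
# Obstructions from the weights of abelian `p'`-subgroups
-/

set_option autoImplicit false
set_option linter.unusedSectionVars false

namespace Cfsg.Lib.Q4

open scoped MatrixGroups Matrix commutatorElement
open Cfsg.Geo Equiv
open Cfsg.Lib.Q4R (dg sc)

variable {K Y X : Type*} [Field K] [IsAlgClosed K] [Group Y] [Group X] {π : Y →* X} {ρ : Y →* GL (Fin 4) K}
  (p : ℕ) [hp : Fact p.Prime] [CharP K p]

theorem perm_four (σ : Perm (Fin 4)) : σ ^ 3 = 1 ∨ σ ^ 4 = 1 := by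
  revert σ; decide +kernel

theorem oa_cop {n : ℕ} (ho : Odd n) : Nat.Coprime n (Fintype.card (Fin 4)) :=
  (Nat.coprime_two_right.2 ho).pow_right 2

theorem oa_dec : ∀ x0 x1 x2 x3 y0 y1 y2 y3 : ZMod 3, x0 + x1 + x2 + x3 = 0 →
    5 ^ (-x0).val + 5 ^ (-x1).val + 5 ^ (-x2).val + 5 ^ (-x3).val =
      5 ^ x0.val + 5 ^ x1.val + 5 ^ x2.val + 5 ^ x3.val →
    5 ^ y0.val + 5 ^ y1.val + 5 ^ y2.val + 5 ^ y3.val = 5 ^ x0.val + 5 ^ x1.val + 5 ^ x2.val + 5 ^ x3.val →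
    5 ^ (x0 + y0).val + 5 ^ (x1 + y1).val + 5 ^ (x2 + y2).val + 5 ^ (x3 + y3).val =
      5 ^ x0.val + 5 ^ x1.val + 5 ^ x2.val + 5 ^ x3.val →
    5 ^ (x0 + -y0).val + 5 ^ (x1 + -y1).val + 5 ^ (x2 + -y2).val + 5 ^ (x3 + -y3).val =
      5 ^ x0.val + 5 ^ x1.val + 5 ^ x2.val + 5 ^ x3.val → x0 = 0 ∧ x1 = 0 ∧ x2 = 0 ∧ x3 = 0 := by
  decide +kernel

theorem oa_comm {G : Type*} [Group G] {a g : G} (hc : ∀ i : ℕ, Commute a (g ^ i * a * (g ^ i)⁻¹)) (i j : ℕ) :
    Commute (g ^ i * a * (g ^ i)⁻¹) (g ^ j * a * (g ^ j)⁻¹) := by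
  wlog l : i ≤ j generalizing i j
  · exact (this j i (by omega)).symm
  obtain ⟨k, rfl⟩ := Nat.exists_eq_add_of_le l
  have := (hc k).map (MulAut.conj (g ^ i))
  rw [MulAut.conj_apply, MulAut.conj_apply] at this
  convert this using 1
  group

/-- the commutators of the lifts of commuting conjugates -/
theorem PR.oa_beta (h : PR π ρ) {x g : Y} (hc : ∀ i : ℕ, Commute (π x) (π g ^ i * π x * (π g ^ i)⁻¹)) {r : ℕ}
    (e : π g ^ r * π x * (π g ^ r)⁻¹ = π x * (π g * π x * (π g)⁻¹)) : ∃ β : ℕ → ℕ → Y,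
      (∀ i, β 0 i = ⁅x, g ^ i * x * (g ^ i)⁻¹⁆) ∧ (∀ i, β i i = 1) ∧ (∀ i j, β i j = (β j i)⁻¹) ∧
      (∀ i j, β (i + 1) (j + 1) = β i j) ∧ ∀ i j, β i (j + r) = β i j * β i (j + 1) := by
  let y : ℕ → Y := fun i => g ^ i * x * (g ^ i)⁻¹
  have k : ∀ i j, π ⁅y i, y j⁆ = 1 := fun i j => by
    rw [map_commutatorElement, commutatorElement_eq_one_iff_commute]
    simpa only [y, map_mul, map_inv, map_pow] using oa_comm hc i j
  refine ⟨fun i j => ⁅y i, y j⁆, fun i => by simp [y], fun i => by simp, fun i j => by simp, fun i j => ?_,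
    fun i j => ?_⟩
  · show ⁅y (i + 1), y (j + 1)⁆ = ⁅y i, y j⁆
    rw [show ⁅y (i + 1), y (j + 1)⁆ = g * ⁅y i, y j⁆ * g⁻¹ by simp only [y, commutatorElement_def]; group,
      h.comm (k i j), mul_inv_cancel_right]
  · have hz : π ((y j * y (j + 1))⁻¹ * y (j + r)) = 1 := by
      rw [map_mul, map_inv, inv_mul_eq_one, show y (j + r) = g ^ j * y r * (g ^ j)⁻¹ by simp only [y]; group]
      simp only [y, map_mul, map_inv, map_pow, e]
      group
    show ⁅y i, y (j + r)⁆ = ⁅y i, y j⁆ * ⁅y i, y (j + 1)⁆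
    rw [← mul_inv_cancel_left (y j * y (j + 1)) (y (j + r))]
    generalize (y j * y (j + 1))⁻¹ * y (j + r) = z at hz
    have k1 := k i (j + 1)
    generalize y i = u at k1
    generalize y (j + 1) = w at k1
    generalize y j = v
    calc ⁅u, v * w * z⁆ = u * v * w * (z * u⁻¹) * z⁻¹ * w⁻¹ * v⁻¹ := by rw [commutatorElement_def]; group
      _ = ⁅u, v⁆ * (v * ⁅u, w⁆) * v⁻¹ := by rw [← h.comm hz]; simp only [commutatorElement_def]; group
      _ = _ := by rw [h.comm k1]; group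

namespace PR

variable (h : PR π ρ)
include h hp

/-- Apply `wtY` to `{y | π y ∈ A ∧ y ^ n = 1}` (`exists_lift`, `commute`; `n` is prime to `4`) and a lift of `g`. -/
theorem wt (A : Set X) (n : ℕ) (g : X) (hc : ∀ a ∈ A, ∀ b ∈ A, Commute a b) (ho : Odd n) (hd : ¬ p ∣ n)
    (hn : ∀ a ∈ A, a ^ n = 1) (hg : ∀ a ∈ A, g * a * g⁻¹ ∈ A) :
    (∀ a ∈ A, Commute (g ^ 3) a) ∨ ∀ a ∈ A, Commute (g ^ 4) a := by
  obtain ⟨g, rfl⟩ := h.surj g
  obtain ⟨σ, hσ⟩ := wtY h.inj {y | π y ∈ A ∧ y ^ n = 1}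
    (fun a ha b hb => h.commute ha.2 (oa_cop ho) (hc _ ha.1 _ hb.1))
    (fun a ha => ⟨n, (CharP.cast_eq_zero_iff K p n).not.2 hd, ha.2⟩) (g := g)
    fun a ha => ⟨by simpa using hg _ ha.1, by rw [conj_pow, ha.2]; simp⟩
  have key : ∀ m, σ ^ m = 1 → ∀ a ∈ A, Commute (π g ^ m) a := fun m hm a ha => by
    obtain ⟨y, rfl, hy⟩ := h.exists_lift (hn a ha) (oa_cop ho)
    simpa using (hσ m hm y ⟨ha, hy⟩).map π
  exact (perm_four σ).imp (key 3) (key 4)

/-- Diagonalise the lifts of order `l`.  `a ↦ (first three weights)` is an injective map to `μ_l ^ 3` (the fourth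
weight is fixed by the determinant), and `|μ_l| ≤ l` (`card_rootsOfUnity`). -/
theorem rk (l : ℕ) (A : Subgroup X) (hl : l.Prime) (h2 : l ≠ 2) (hlp : l ≠ p)
    (hc : ∀ a ∈ A, ∀ b ∈ A, Commute a b) (hn : ∀ a ∈ A, a ^ l = 1) : Nat.card A ≤ l ^ 3 := by
  have ho := oa_cop (hl.odd_of_ne_two h2)
  haveI : NeZero l := ⟨hl.ne_zero⟩
  choose L h1 h3 using fun a : A => h.exists_lift (hn a a.2) ho
  obtain ⟨B, hB⟩ := exists_dg (fun a => ρ (L a))
    (fun a b => (h.commute (h3 a) ho (by rw [h1, h1]; exact hc _ a.2 _ b.2)).map ρ) fun a =>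
      ⟨l, (CharP.cast_eq_zero_iff K p l).not.2 fun d => hlp ((Nat.prime_dvd_prime_iff_eq hp.out hl).1 d).symm,
        by rw [← map_pow, h3, map_one]⟩
  choose d hd using hB
  have e1 : ∀ a i, d a i ^ l = 1 := fun a i => congrFun (Q4R.dg_inj (show dg (d a ^ l) = dg 1 by
    rw [map_pow, ← hd, conj_pow, ← map_pow, h3, map_one, map_one, mul_one, mul_inv_cancel])) i
  have e2 : ∀ a, ∏ i, (d a i : K) = 1 := fun a => by rw [← det_dg, ← hd]; exact (h.cj B).det _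
  let f : A → Fin 3 → rootsOfUnity l K := fun a i => ⟨d a i.castSucc, e1 a _⟩
  have inj : Function.Injective f := fun a b e => by
    have t : ∀ i : Fin 3, d a i.castSucc = d b i.castSucc := fun i => congrArg Subtype.val (congrFun e i)
    have t2 := (e2 a).trans (e2 b).symm
    rw [Fin.prod_univ_castSucc (n := 3), Fin.prod_univ_castSucc (n := 3)] at t2
    simp only [t] at t2
    have : d a = d b := funext fun i => Fin.lastCases (Units.ext (mul_left_cancel₀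
      (Finset.prod_ne_zero_iff.2 fun i _ => Units.ne_zero _) t2)) t i
    exact Subtype.ext (by rw [← h1, ← h1, (h.cj B).inj ((hd a).trans (this ▸ (hd b).symm))])
  refine (Nat.card_le_card_of_injective f inj).trans ?_
  rw [Nat.card_fun, Nat.card_fin]
  exact Nat.pow_le_pow_left (card_rootsOfUnity K l) 3

/-- Let `p ≠ 3`, `ω² + ω + 1 = 0`.  Lift `a, b` to commuting elements of order three, diagonal with entries
`ω ^ (x i)`, `ω ^ (y i)`, `x y : Fin 4 → ZMod 3`, `∑ x = ∑ y = 0`.  The eight non-identity elements `aⁱ bʲ` have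
non-trivial images, and are conjugate (`PR.isConj`).  By `exists_wt` their exponent vectors `i x + j y` are
permutations of `x`; also `x ≠ 0`.  A finite check (`decide`; it is enough to compare the numbers of zeros, of ones and
of twos) shows that no such `x, y` exist: the type of `x` is `(0,0,1,2)` or `(1,1,2,2)` as `x ~ -x`; counting the pairs
(weight, element) with value `0` gives `8 m = 8 + 6 k` with `m ∈ {0, 2}`. -/
theorem o9 (a b : X) (ha : a ^ 3 = 1) (hb : b ^ 3 = 1) (hc : Commute a b) (h1 : a ≠ 1) (c1 : IsConj a a⁻¹)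
    (c2 : IsConj a b) (c3 : IsConj a (a * b)) (c4 : IsConj a (a * b⁻¹)) : p = 3 := by
  by_contra h3
  haveI : NeZero ((3 : ℕ) : K) := ⟨(CharP.cast_eq_zero_iff K p 3).not.2 fun d =>
    h3 ((Nat.prime_dvd_prime_iff_eq hp.out Nat.prime_three).1 d)⟩
  have ho := oa_cop (n := 3) (by decide)
  obtain ⟨a, rfl, ha'⟩ := h.exists_lift ha ho
  obtain ⟨b, rfl, hb'⟩ := h.exists_lift hb ho
  replace ha := ha'
  replace hb := hb'
  have c := h.commute ha ho hc
  obtain ⟨B, hB⟩ := exists_dg ![ρ a, ρ b] (fun i j => by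
    fin_cases i <;> fin_cases j
    exacts [Commute.refl _, c.map ρ, c.symm.map ρ, Commute.refl _]) fun i => ⟨3, NeZero.ne _, by
    fin_cases i
    exacts [(map_pow ρ a 3).symm.trans (by rw [ha, map_one]), (map_pow ρ b 3).symm.trans (by rw [hb, map_one])]⟩
  obtain ⟨ζ, hζ⟩ := HasEnoughRootsOfUnity.exists_primitiveRoot K 3
  obtain ⟨ζ, rfl⟩ := hζ.isUnit (by decide)
  rw [IsPrimitiveRoot.coe_units_iff] at hζ
  let e : ZMod 3 → Kˣ := fun k => ζ ^ k.val
  have ea : ∀ j k, e (j + k) = e j * e k := fun j k => by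
    simp only [e]
    rw [ZMod.val_add, ← pow_add, ← pow_eq_pow_mod _ hζ.pow_eq_one]
  have e0 : e 0 = 1 := pow_zero _
  have en : ∀ j, e (-j) = (e j)⁻¹ := fun j => eq_inv_of_mul_eq_one_left (by rw [← ea, neg_add_cancel, e0])
  have ei : Function.Injective e := fun j k t =>
    ZMod.val_injective 3 (hζ.pow_inj (ZMod.val_lt j) (ZMod.val_lt k) t)
  have ex : ∀ {y : Y}, y ^ 3 = 1 → (∃ d, cjr B ρ y = dg d) → ∃ x : Fin 4 → ZMod 3, cjr B ρ y = dg (e ∘ x) := by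
    rintro y hy ⟨d, hd⟩
    have : ∀ i, ∃ k, e k = d i := fun i => by
      obtain ⟨k, hk, t⟩ := hζ.eq_pow_of_mem_rootsOfUnity (ξ := d i) (congrFun (Q4R.dg_inj
        (show dg (d ^ 3) = dg 1 by rw [map_pow, ← hd, ← map_pow, hy, map_one, map_one])) i)
      exact ⟨k, by simp only [e]; rw [ZMod.val_cast_of_lt hk, t]⟩
    choose x hx using this
    exact ⟨x, hd.trans (congrArg dg (funext hx).symm)⟩
  obtain ⟨x, hx⟩ := ex ha (hB 0)
  obtain ⟨y, hy⟩ := ex hb (hB 1)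
  have key : ∀ {w : Y} {z : Fin 4 → ZMod 3}, w ^ 3 = 1 → IsConj (π a) (π w) → cjr B ρ w = dg (e ∘ z) →
      ∑ i, 5 ^ (z i).val = ∑ i, 5 ^ (x i).val := fun {w z} hw cw hz => by
    obtain ⟨t, ht⟩ := isConj_iff.1 ((cjr B ρ).map_isConj (h.isConj ha hw ho cw))
    obtain ⟨σ, -, hσ⟩ := exists_wt t
    rw [← Equiv.sum_comp σ]
    exact Finset.sum_congr rfl fun i _ => by
      rw [show z (σ i) = x i from ei (hσ (e ∘ x) (e ∘ z) (by rw [← hx, ht, hz]) i)]
  have hi : ∀ {w : Y} {z : Fin 4 → ZMod 3}, cjr B ρ w = dg (e ∘ z) → cjr B ρ w⁻¹ = dg (e ∘ (-z)) :=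
    fun t => by rw [map_inv, t, ← map_inv]; exact congrArg dg (funext fun i => (en _).symm)
  have hm : ∀ {w : Y} {z : Fin 4 → ZMod 3}, cjr B ρ w = dg (e ∘ z) → cjr B ρ (a * w) = dg (e ∘ (x + z)) :=
    fun t => by rw [map_mul, t, hx, ← map_mul]; exact congrArg dg (funext fun i => (ea _ _).symm)
  have k1 := key (by rw [inv_pow, ha, inv_one]) (by rwa [map_inv]) (hi hx)
  have k2 := key hb c2 hy
  have k3 := key (by rw [c.mul_pow, ha, hb, one_mul]) (by rwa [map_mul]) (hm hy)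
  have k4 := key (by rw [c.inv_right.mul_pow, ha, inv_pow, hb, inv_one, one_mul]) (by rwa [map_mul, map_inv])
    (hm (hi hy))
  have k0 : x 0 + x 1 + x 2 + x 3 = 0 := ei (Units.ext (by
    have := (h.cj B).det a
    rw [hx, det_dg, Fin.prod_univ_four] at this
    rw [ea, ea, ea, e0]
    exact this))
  simp only [Fin.sum_univ_four, Pi.add_apply, Pi.neg_apply] at k1 k2 k3 k4
  obtain ⟨z0, z1, z2, z3⟩ := oa_dec _ _ _ _ _ _ _ _ k0 k1 k2 k3 k4
  have : e ∘ x = 1 := funext fun i => by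
    fin_cases i
    exacts [(congrArg e z0).trans e0, (congrArg e z1).trans e0, (congrArg e z2).trans e0, (congrArg e z3).trans e0]
  rw [this, map_one, ← map_one (cjr B ρ)] at hx
  exact h1 (by rw [(h.cj B).inj hx, map_one])

/-- If `π x, π y` commute then `⁅x, y⁆` is central, bimultiplicative and invariant under conjugation.
Common part of `e8`, `e16`: if the lifts `gⁱ x g⁻ⁱ` commute pairwise, `wtY` for
`{y | ∃ i, π y = π (gⁱ x g⁻ⁱ)}` (elements of order dividing `8`) shows that `g³` or `g⁴` commutes with `x`. -/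
theorem comm_pow (h2 : p ≠ 2) {x g : Y} (hx : π x ^ 2 = 1) (hc : ∀ i : ℕ, Commute x (g ^ i * x * (g ^ i)⁻¹)) :
    Commute (g ^ 3) x ∨ Commute (g ^ 4) x := by
  obtain ⟨σ, hσ⟩ := wtY h.inj (Set.range fun i : ℕ => g ^ i * x * (g ^ i)⁻¹)
    (by rintro _ ⟨i, rfl⟩ _ ⟨j, rfl⟩; exact oa_comm hc i j)
    (by
      rintro _ ⟨i, rfl⟩
      refine ⟨2 ^ 3, (CharP.cast_eq_zero_iff K p _).not.2 fun d => h2
        ((Nat.prime_dvd_prime_iff_eq hp.out Nat.prime_two).1 (hp.out.dvd_of_dvd_pow d)), ?_⟩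
      have := h.pow_card (z := x ^ 2) (by rwa [map_pow])
      rw [← pow_mul] at this
      simp only
      rw [conj_pow, show x ^ 2 ^ 3 = 1 from this, mul_one, mul_inv_cancel]) (g := g)
    (by rintro _ ⟨i, rfl⟩; exact ⟨i + 1, by simp only; group⟩)
  exact (perm_four σ).imp (fun e => hσ 3 e x ⟨0, by simp⟩) fun e => hσ 4 e x ⟨0, by simp⟩

/-- Let `x, g` be lifts, `x i = gⁱ x g⁻ⁱ`, `β (i, j) = ⁅x i, x j⁆` (central, `β² = 1`, `β (i+1, j+1) = β (i, j)`),
`s = β(0,1)`, `t = β(0,2)`.  From `x 3 = x 0 * x 1 * z`: `t = β(1,3) = β(1,0) = s`, `s = β(2,3) = β(2,0) β(2,1) = t s`;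
so `s = t = 1`.  By induction every `x i` lies in the abelian group generated by `x 0, x 1, x 2` and `ker π`
(`x (i+3) = x i * x (i+1) * z`), or show `β(0,i) = 1` by strong induction.  `comm_pow`: `a₃ = a₀` gives `a₁ = 1`;
`a₄ = a₀` gives `a₀ = a₁ a₂`, `a₁ = a₂ a₃ = a₂ a₀ a₁`, so `a₂ = a₀`, `a₁ = 1`. -/
theorem e8 (h2 : p ≠ 2) (a g : X) (h1 : a ≠ 1) (ha : a ^ 2 = 1)
    (hc : ∀ i : ℕ, Commute a (g ^ i * a * (g ^ i)⁻¹)) : g ^ 3 * a * (g ^ 3)⁻¹ ≠ a * (g * a * g⁻¹) := by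
  intro e
  obtain ⟨x, rfl⟩ := h.surj a
  obtain ⟨g, rfl⟩ := h.surj g
  obtain ⟨β, b0, b1, b2, b3, b4⟩ := h.oa_beta hc e
  have s2 : β 0 2 = (β 0 1)⁻¹ := by rw [← b3, b4 1 0, b1, mul_one, b2]
  have s1 : β 0 1 = 1 := by
    have := b4 2 0
    rw [b3, b3, b3, b2 2 0, s2, b2 1 0] at this
    simpa using this
  have all : ∀ i, β 0 i = 1 ∧ β 0 (i + 1) = 1 ∧ β 0 (i + 2) = 1 := fun i => by
    induction i with
    | zero => exact ⟨b1 0, s1, by rw [s2, s1, inv_one]⟩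
    | succ i ih => exact ⟨ih.2.1, ih.2.2, by rw [b4 0 i, ih.1, ih.2.1, one_mul]⟩
  have k := h.comm_pow p h2 ha fun i => commutatorElement_eq_one_iff_commute.1 ((b0 i).symm.trans (all i).1)
  replace k := k.imp (fun c => c.map π) fun c => c.map π
  rw [map_pow, map_pow] at k
  generalize π x = a at *
  generalize π g = t at *
  have fin : t * a * t⁻¹ ≠ 1 := by simpa using h1
  rcases k with k | k
  · rw [k.eq, mul_inv_cancel_right, left_eq_mul] at e
    exact fin e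
  · have e4 : a = t * a * t⁻¹ * (t ^ 2 * a * (t ^ 2)⁻¹) := by
      calc a = t * (t ^ 3 * a * (t ^ 3)⁻¹) * t⁻¹ := by
            rw [← mul_inv_cancel_right a (t ^ 4), ← k.eq]
            conv_rhs => rw [k.eq, mul_inv_cancel_right]
            group
        _ = _ := by rw [e]; group
    have e5 : t * a * t⁻¹ = t ^ 2 * a * (t ^ 2)⁻¹ * (a * (t * a * t⁻¹)) := by
      rw [← e]
      conv_lhs => rw [e4]
      simp only [pow_succ, pow_zero, one_mul, mul_inv_rev]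
      group
    rw [← mul_assoc, right_eq_mul] at e5
    refine fin ?_
    rw [← ha, pow_two]
    conv_rhs => enter [1]; rw [e4]
    rw [mul_assoc _ _ a, e5, mul_one]

/-- As `e8` with `s_i = β(0,i)` and `x 4 = x 0 * x 1 * z`: `s₃ = β(1,4) = s₁`, `s₂ = β(2,4) = s₂ s₁`, so `s₁ = 1`;
`s₁ = β(3,4) = s₃ s₂`, so `s₂ = 1`.  `a₄ = a₀` gives `a₁ = 1`; `a₃ = a₀` gives `a₄ = a₁`, `a₀ = 1`. -/
theorem e16 (h2 : p ≠ 2) (a g : X) (h1 : a ≠ 1) (ha : a ^ 2 = 1)
    (hc : ∀ i : ℕ, Commute a (g ^ i * a * (g ^ i)⁻¹)) : g ^ 4 * a * (g ^ 4)⁻¹ ≠ a * (g * a * g⁻¹) := by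
  intro e
  obtain ⟨x, rfl⟩ := h.surj a
  obtain ⟨g, rfl⟩ := h.surj g
  obtain ⟨β, b0, b1, b2, b3, b4⟩ := h.oa_beta hc e
  have s3 : β 0 3 = (β 0 1)⁻¹ := by rw [← b3, b4 1 0, b1, mul_one, b2]
  have s2 : β 0 2 = 1 := by
    have := b4 3 0
    rw [b3, b3, b3, b3, b2 3 0, s3, b2 2 0] at this
    simpa using this
  have s1 : β 0 1 = 1 := by
    have := b4 2 0
    rw [b3, b3, b3, b2 2 0, s2, b2 1 0] at this
    simpa using this
  have all : ∀ i, β 0 i = 1 ∧ β 0 (i + 1) = 1 ∧ β 0 (i + 2) = 1 ∧ β 0 (i + 3) = 1 := fun i => by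
    induction i with
    | zero => exact ⟨b1 0, s1, s2, by rw [s3, s1, inv_one]⟩
    | succ i ih => exact ⟨ih.2.1, ih.2.2.1, ih.2.2.2, by rw [b4 0 i, ih.1, ih.2.1, one_mul]⟩
  have k := h.comm_pow p h2 ha fun i => commutatorElement_eq_one_iff_commute.1 ((b0 i).symm.trans (all i).1)
  replace k := k.imp (fun c => c.map π) fun c => c.map π
  rw [map_pow, map_pow] at k
  generalize π x = a at *
  generalize π g = t at *
  rcases k with k | k
  · rw [show t ^ 4 * a * (t ^ 4)⁻¹ = t * (t ^ 3 * a * (t ^ 3)⁻¹) * t⁻¹ by group, k.eq, mul_inv_cancel_right,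
      right_eq_mul] at e
    exact h1 e
  · rw [k.eq, mul_inv_cancel_right, left_eq_mul] at e
    exact h1 (by simpa using e)

end PR

end Cfsg.Lib.Q4
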