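import Cfsg.Agent.Lib.Q4.Lin

/-!
# Heisenberg subgroups of odd order in `SL₄`
-/

set_option autoImplicit false
set_option linter.unusedSectionVars false

namespace Cfsg.Lib.Q4

open scoped MatrixGroups Matrix commutatorElement
open Cfsg.Geo Equiv
open Cfsg.Lib.Q4R (dg sc)

variable {K Y X : Type*} [Field K] [Group Y] [Group X] {π : Y →* X} {ρ : Y →* GL (Fin 4) K}

theorem ut_iff {n : ℕ} {g : GL (Fin n) K} : Ut g ↔ g ∈ Linear.unipGL (Fin.val : Fin n → ℕ) := by
  refine forall₂_congr fun i j => ?_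
  rw [Matrix.sub_apply, sub_eq_zero, Matrix.one_apply, Nat.lt_succ_iff]
  rfl

theorem Ut.eq {g : GL (Fin 4) K} (h : Ut g) :
    ∃ a b c d e f, g.1 = !![1, a, d, f; 0, 1, b, e; 0, 0, 1, c; 0, 0, 0, 1] :=
  ⟨g.1 0 1, g.1 1 2, g.1 2 3, g.1 0 2, g.1 1 3, g.1 0 3, by
    ext i j
    fin_cases i <;> fin_cases j <;> first | rfl | exact h _ _ (by decide)⟩

theorem ob_cop {n : ℕ} (ho : Odd n) : Nat.Coprime n (Fintype.card (Fin 4)) :=
  (Nat.coprime_two_right.2 ho).pow_right 2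

theorem ob_pow {G : Type*} [Group G] {x y : G} (c : Commute x ⁅x, y⁆) (n : ℕ) :
    x ^ n * y * (x ^ n)⁻¹ = ⁅x, y⁆ ^ n * y := by
  induction n with
  | zero => simp
  | succ n ih =>
    rw [show x ^ (n + 1) * y * (x ^ (n + 1))⁻¹ = x * (x ^ n * y * (x ^ n)⁻¹) * x⁻¹ by group, ih, ← mul_assoc,
      (c.pow_right n).eq, pow_succ, commutatorElement_def]
    group

/-- the determinant of a commutator on one of its eigenspaces -/
theorem ob_mult {ι : Type} [Fintype ι] [DecidableEq ι] [DecidableEq K] {x y : GL ι K} {a : ι → Kˣ}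
    (e : ⁅x, y⁆ = dg a) (c1 : Commute x (dg a)) (c2 : Commute y (dg a)) (i : ι) :
    a i ^ Fintype.card {j // a j = a i} = 1 := by
  let b : GL ι K → Matrix {j // a j = a i} {j // a j = a i} K := fun s =>
    s.1.toBlock (fun j => a j = a i) fun j => a j = a i
  have bm : ∀ {s : GL ι K}, Commute s (dg a) → ∀ t, (b (s * t)).det = (b s).det * (b t).det := fun {s} c t => by
    have : s.1.toBlock (fun j => a j = a i) (fun j => ¬ a j = a i) = 0 := Matrix.ext fun j k =>
      by_contra fun n => k.2 ((wt_of_comm c n).symm.trans j.2)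
    simp only [b]
    rw [Units.val_mul, Matrix.toBlock_mul_eq_add _ (fun j => a j = a i), this, Matrix.zero_mul, add_zero,
      Matrix.det_mul]
  have b0 : ∀ {s : GL ι K}, Commute s (dg a) → (b s).det ≠ 0 := fun {s} c e0 => by
    have := bm c s⁻¹
    rw [e0, zero_mul, mul_inv_cancel] at this
    simp only [b, Units.val_one, Matrix.toBlock_one_self, Matrix.det_one] at this
    exact one_ne_zero this
  have bz : (b (dg a)).det = (a i : K) ^ Fintype.card {j // a j = a i} := by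
    simp only [b]
    rw [Q4R.dg_val, Matrix.toBlock_diagonal_self, Matrix.det_diagonal, ← Finset.card_univ, ← Finset.prod_const]
    exact Finset.prod_congr rfl fun j _ => by rw [j.2]
  have := bm (Commute.refl _) (y * x)
  rw [show dg a * (y * x) = x * y by rw [← e, commutatorElement_def]; group, bm c1, bm c2, bz,
    mul_comm (b y).det] at this
  exact Units.ext (by simpa using (mul_eq_right₀ (mul_ne_zero (b0 c1) (b0 c2))).1 this.symm)

/-- `x, y` unitriangular with superdiagonals `x₁ x₂ x₃`, `y₁ y₂ y₃`; `z = ⁅x, y⁆ = 1 + a e₀₂ + b e₁₃ + c e₀₃` with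
`a = x₁ y₂ - y₁ x₂`, `b = x₂ y₃ - y₂ x₃`.  Commuting with `z` says `x₁ b = a x₃`, `y₁ b = a y₃`; hence
`a b = -a b`, so `a = 0` or `b = 0`, and `z - 1` has rank one: `e₀ ⊗ (a e₂ + c e₃)` or `(b e₁ + c e₀) ⊗ e₃`. -/
theorem Ut.isTv (h2 : (2 : K) ≠ 0) {x y : GL (Fin 4) K} (hx : Ut x) (hy : Ut y) (c1 : Commute x ⁅x, y⁆)
    (c2 : Commute y ⁅x, y⁆) (h1 : ⁅x, y⁆ ≠ 1) : IsTv ⁅x, y⁆ := by
  obtain ⟨z1, z2, z3, a, b, c, hz⟩ : _ := Ut.eq (g := ⁅x, y⁆) (ut_iff.2 (mul_mem (mul_mem (mul_mem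
    (ut_iff.1 hx) (ut_iff.1 hy)) (inv_mem (ut_iff.1 hx))) (inv_mem (ut_iff.1 hy))))
  obtain ⟨x1, x2, x3, x4, x5, x6, ex⟩ := hx.eq
  obtain ⟨y1, y2, y3, y4, y5, y6, ey⟩ := hy.eq
  have e0 := congrArg Units.val (show ⁅x, y⁆ * (y * x) = x * y by rw [commutatorElement_def]; group)
  have e1 := congrArg Units.val c1.eq
  have e2 := congrArg Units.val c2.eq
  simp only [Units.val_mul, hz, ex, ey] at e0 e1 e2
  have t1 := congrFun (congrFun e0 0) 1
  have t2 := congrFun (congrFun e0 1) 2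
  have t3 := congrFun (congrFun e0 2) 3
  have t4 := congrFun (congrFun e0 0) 2
  have t5 := congrFun (congrFun e0 1) 3
  have t6 := congrFun (congrFun e1 0) 3
  have t7 := congrFun (congrFun e2 0) 3
  simp [Matrix.mul_apply, Fin.sum_univ_four] at t1 t2 t3 t4 t5 t6 t7
  obtain rfl : z1 = 0 := by linear_combination t1
  obtain rfl : z2 = 0 := by linear_combination t2
  obtain rfl : z3 = 0 := by linear_combination t3
  have ha : a = x1 * y2 - y1 * x2 := by linear_combination t4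
  have hb : b = x2 * y3 - y2 * x3 := by linear_combination t5
  have hab : 2 * (a * b) = 0 := by linear_combination b * ha + a * hb + y2 * t6 - x2 * t7
  have fin : ∀ v φ : Fin 4 → K, φ ⬝ᵥ v = 0 → (⁅x, y⁆ : GL (Fin 4) K).1 = 1 + Matrix.vecMulVec v φ → IsTv ⁅x, y⁆ :=
    fun v φ h0 e => ⟨v, φ, fun k => h1 (Units.ext (by simpa [k] using e)),
      fun k => h1 (Units.ext (by simpa [k] using e)), h0, e⟩
  rcases mul_eq_zero.1 ((mul_eq_zero.1 hab).resolve_left h2) with rfl | rfl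
  · refine fin ![c, b, 0, 0] ![0, 0, 0, 1] (by simp [dotProduct, Fin.sum_univ_four]) ?_
    rw [hz]
    ext i j
    fin_cases i <;> fin_cases j <;> simp [Matrix.vecMulVec_apply]
  · refine fin ![1, 0, 0, 0] ![0, 0, a, c] (by simp [dotProduct, Fin.sum_univ_four]) ?_
    rw [hz]
    ext i j
    fin_cases i <;> fin_cases j <;> simp [Matrix.vecMulVec_apply]

/-- Over the algebraic closure diagonalise `z = ⁅x, y⁆ = dg a` (`z ^ m = 1`).  For a weight `λ` of multiplicity `d`,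
`x` and `y` are block diagonal (`wt_of_comm`) and the determinant of `x y = z y x` on the block gives `λ ^ d = 1`
(one way: `e` = the diagonal idempotent of the block commutes with `x, y`; replace `x` by `e x + (1 - e)`, same for
`y, z`, and take determinants).  As `λ ^ m = 1` with `m` odd, `λ ≠ 1` forces `d = 3`, `λ = ω`; the last weight is
`1`.  Descent: `ω = (tr z - 1) / 3` (`3 ≠ 0` as `ω ≠ 1`), `rank_one_of_map` for `(z - ω) / (1 - ω)`. -/
theorem heis_shape {x y : GL (Fin 4) K} {m : ℕ} (ho : Odd m) (hm : (m : K) ≠ 0) (hz : ⁅x, y⁆ ^ m = 1)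
    (c1 : Commute x ⁅x, y⁆) (c2 : Commute y ⁅x, y⁆) (h1 : ⁅x, y⁆ ≠ 1) :
    (3 : K) ≠ 0 ∧ ∃ (ω : K) (u ψ : Fin 4 → K), ω ^ 2 + ω + 1 = 0 ∧ ψ ⬝ᵥ u = 1 ∧
      (⁅x, y⁆ : GL (Fin 4) K).1 = ω • 1 + (1 - ω) • Matrix.vecMulVec u ψ := by
  classical
  let f := algebraMap K (AlgebraicClosure K)
  let φ : GL (Fin 4) K →* GL (Fin 4) (AlgebraicClosure K) := Matrix.GeneralLinearGroup.map f
  obtain ⟨B, hB⟩ := exists_dg (fun _ : Unit => φ ⁅x, y⁆) (fun _ _ => Commute.refl _) fun _ =>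
    ⟨m, by rw [← map_natCast f]; exact (map_ne_zero f).2 hm, by rw [← map_pow, hz, map_one]⟩
  obtain ⟨a, ha⟩ := hB ()
  replace ha : cjr B φ ⁅x, y⁆ = dg a := ha
  have mu := ob_mult ((map_commutatorElement _ x y).symm.trans ha) (ha ▸ c1.map _) (ha ▸ c2.map _)
  have pm : ∀ i, a i ^ m = 1 := fun i => congrFun (Q4R.dg_inj (show dg (a ^ m) = dg 1 by
    rw [map_pow, ← ha, ← map_pow, hz, map_one, map_one])) i
  have three : ∀ i, a i ≠ 1 → Fintype.card {j // a j = a i} = 3 := fun i n => by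
    have l1 : 0 < Fintype.card {j // a j = a i} := Fintype.card_pos_iff.2 ⟨⟨i, rfl⟩⟩
    have l2 : Fintype.card {j // a j = a i} ≤ 4 := (Fintype.card_subtype_le _).trans (by simp)
    have := mu i
    generalize Fintype.card {j // a j = a i} = d at l1 l2 this
    by_contra n3
    have h4 : a i ^ 4 = 1 := by
      obtain ⟨c, hc⟩ : d ∣ 4 := by interval_cases d <;> simp at n3 ⊢
      rw [hc, pow_mul, this, one_pow]
    have := pow_gcd_eq_one.2 ⟨pm i, h4⟩
    rw [show m.gcd 4 = 1 from ob_cop ho, pow_one] at this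
    exact n this
  obtain ⟨i, hi⟩ : ∃ i, a i ≠ 1 := by
    by_contra n
    push Not at n
    rw [show a = 1 from funext n, map_one, cjr_apply, conj_eq_one_iff] at ha
    exact h1 (Units.ext (Matrix.map_injective f.injective ((congrArg Units.val ha).trans
      (Matrix.map_one _ (map_zero f) (map_one f)).symm)))
  obtain ⟨k, hk⟩ : ∃ k : {j // ¬ a j = a i}, ∀ j, j = k := Fintype.card_eq_one_iff.1 (by
    rw [Fintype.card_subtype_compl, three i hi]; rfl)
  have hj : ∀ j, j ≠ k.1 → a j = a i := fun j n => by_contra fun e => n (congrArg Subtype.val (hk ⟨j, e⟩))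
  have k1 : a k = 1 := by_contra fun n => by
    have : Fintype.card {j // a j = a k} ≤ 1 := Fintype.card_le_one_iff.2 fun s t => Subtype.ext
      ((by_contra fun e => k.2 (s.2.symm.trans (hj _ e))).trans
        (by_contra fun e => k.2 (t.2.symm.trans (hj _ e)) : t.1 = k.1).symm)
    rw [three _ n] at this
    omega
  have w1 : (a i : AlgebraicClosure K) - 1 ≠ 0 := sub_ne_zero.2 fun e => hi (Units.ext e)
  have w3 : (a i : AlgebraicClosure K) ^ 2 + a i + 1 = 0 := by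
    have := congrArg Units.val (three i hi ▸ mu i)
    rw [Units.val_pow_eq_pow_val, Units.val_one] at this
    exact mul_left_cancel₀ w1 (by linear_combination this)
  have h3 : (3 : K) ≠ 0 := fun e => w1 (pow_eq_zero_iff two_ne_zero |>.1 (by
    have : (3 : AlgebraicClosure K) = 0 := by rw [← map_ofNat f 3, e, map_zero]
    linear_combination w3 - (a i : AlgebraicClosure K) * this))
  have hd : (dg a : GL (Fin 4) _).1 = (a i : AlgebraicClosure K) • 1 +
      (1 - a i : AlgebraicClosure K) • Matrix.vecMulVec (Pi.single k.1 1) (Pi.single k.1 1) := by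
    rw [Q4R.dg_val]
    ext r s
    by_cases e : r = s
    · subst e
      by_cases e' : r = k.1
      · simp [Matrix.vecMulVec_apply, e', k1]
      · simp [Matrix.vecMulVec_apply, e', hj r e']
    · by_cases e' : r = k.1
      · subst e'
        simp [Matrix.vecMulVec_apply, e, Pi.single_apply, Ne.symm e]
      · simp [Matrix.vecMulVec_apply, e', e]
  have hw : f ((tr ⁅x, y⁆ - 1) / 3) = a i := by
    have := tr_conj (φ ⁅x, y⁆) B
    rw [← cjr_apply, ha, tr_map, tr, hd] at this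
    simp only [Matrix.trace_add, Matrix.trace_smul, Matrix.trace_one, Matrix.trace_vecMulVec, Fintype.card_fin,
      single_dotProduct, Pi.single_eq_same, smul_eq_mul] at this
    rw [map_div₀, map_sub, map_one, map_ofNat, ← this, div_eq_iff (by
      rw [← map_ofNat f 3]; exact (map_ne_zero f).2 h3)]
    push_cast
    ring
  generalize (tr ⁅x, y⁆ - 1) / 3 = ω at hw
  rw [← hw] at w1 w3 hd
  have w2 : 1 - ω ≠ 0 := fun e => w1 (by rw [← sub_eq_zero.1 e, map_one, sub_self])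
  have hN : ((1 - ω)⁻¹ • ((⁅x, y⁆ : GL (Fin 4) K).1 - ω • 1)).map f =
      Matrix.vecMulVec ((B⁻¹).1 *ᵥ Pi.single k.1 1) (Pi.single k.1 1 ᵥ* B.1) := by
    have e1 : (φ ⁅x, y⁆).1 = (B⁻¹).1 * (dg a : GL (Fin 4) _).1 * B.1 := by
      rw [← ha, cjr_apply, ← Units.val_mul, ← Units.val_mul]; congr 1; group
    rw [hd, Matrix.mul_add, Matrix.add_mul, Matrix.mul_smul, Matrix.mul_smul, Matrix.smul_mul, Matrix.smul_mul,
      Matrix.mul_one, Units.inv_mul, Matrix.mul_vecMulVec, Matrix.vecMulVec_mul] at e1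
    ext r s
    have := congrFun (congrFun e1 r) s
    rw [show (φ ⁅x, y⁆).1 r s = f ((⁅x, y⁆ : GL (Fin 4) K).1 r s) from rfl] at this
    have w4 : 1 - f ω ≠ 0 := fun e => w1 (by linear_combination -e)
    rw [Matrix.map_apply, Matrix.smul_apply, Matrix.sub_apply, smul_eq_mul, map_mul, map_inv₀, map_sub, map_sub,
      map_one, this, inv_mul_eq_iff_eq_mul₀ w4]
    by_cases e : r = s <;> simp [e]
  obtain ⟨u, ψ, e1, e2⟩ := rank_one_of_map f hN
  refine ⟨h3, ω, u, ψ, f.injective (by simpa using w3), f.injective ?_, ?_⟩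
  · rw [e2, map_one, ← Matrix.dotProduct_mulVec, Linear.GL_mulVec_inv_mulVec]; simp
  · rw [← e1, smul_inv_smul₀ w2, add_sub_cancel]

/-- Lift `x, y` to elements of order dividing `l ^ n`.  `x' z' x'⁻¹ = c z'` for `z' = ⁅x', y'⁆` and a central `c` with
`c ^ 4 = 1`.  In the group `⟨x', y', ker π⟩`, nilpotent of class at most three: `⁅x', z'⁆ = c` central gives
`c ^ (l ^ n) = ⁅x' ^ (l ^ n), z'⁆ = 1`, so `c = 1`.  Then `z' ^ (l ^ n) = ⁅x' ^ (l ^ n), y'⁆ = 1`. -/
theorem PR.heis_lift (h : PR π ρ) {m : ℕ} (ho : Odd m) {x y : X} (hx : x ^ m = 1) (hy : y ^ m = 1)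
    (c1 : Commute x ⁅x, y⁆) (c2 : Commute y ⁅x, y⁆) : ∃ x' y' : Y, π x' = x ∧ π y' = y ∧ x' ^ m = 1 ∧ y' ^ m = 1 ∧
      ⁅x', y'⁆ ^ m = 1 ∧ Commute x' ⁅x', y'⁆ ∧ Commute y' ⁅x', y'⁆ := by
  obtain ⟨x, rfl, hx'⟩ := h.exists_lift hx (ob_cop ho)
  obtain ⟨y, rfl, hy'⟩ := h.exists_lift hy (ob_cop ho)
  rw [← map_commutatorElement] at c1 c2
  have k := h.commute hx' (ob_cop ho) c1
  refine ⟨x, y, rfl, rfl, hx', hy', ?_, k, h.commute hy' (ob_cop ho) c2⟩
  simpa [hx'] using (ob_pow k m).symm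

/-- `heis_lift`.  If `l = p`, the elements `xⁱ yʲ zᵏ` form a finite `p`-group (or: `closure {x', y'}` is nilpotent
and generated by `p`-elements), `exists_ut` and `Ut.isTv` contradict `NT`.  Otherwise `heis_shape`: `z'` has order
three, so `l = 3`; if `z` were real, `tr_eq` gives `3 ω + 1 = 3 ω² + 1`. -/
theorem PR.heis [Finite Y] (p : ℕ) [Fact p.Prime] [CharP K p] (h : PR π ρ) (nt : NT ρ) (l : ℕ) (x y : X)
    (hl : l.Prime) (h2 : l ≠ 2) (hx : ∃ n, x ^ l ^ n = 1) (hy : ∃ n, y ^ l ^ n = 1) (c1 : Commute x ⁅x, y⁆)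
    (c2 : Commute y ⁅x, y⁆) (h1 : ⁅x, y⁆ ≠ 1) : l = 3 ∧ p ≠ 3 ∧ ¬ IsConj ⁅x, y⁆ ⁅x, y⁆⁻¹ := by
  obtain ⟨n, hx⟩ := hx
  obtain ⟨n', hy⟩ := hy
  have ho : Odd (l ^ (n + n')) := (hl.odd_of_ne_two h2).pow
  obtain ⟨x, y, rfl, rfl, k1, k2, k3, k4, k5⟩ := h.heis_lift ho (x := x) (y := y)
    (by rw [pow_add, pow_mul, hx, one_pow]) (by rw [add_comm, pow_add, pow_mul, hy, one_pow]) c1 c2
  rw [← map_commutatorElement] at h1 ⊢
  have z1 : ⁅x, y⁆ ≠ 1 := fun e => h1 (by rw [e, map_one])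
  by_cases hp : l = p
  · exfalso
    subst hp
    have zp : ∀ {g : Y}, g ^ l ^ (n + n') = 1 → IsPGroup l (Subgroup.zpowers g) := fun e =>
      IsPGroup.of_card_dvd_pow (by rw [Nat.card_zpowers]; exact orderOf_dvd_of_pow_eq_one e)
    have nm : ∀ {g : Y} {H : Subgroup Y}, H.map (MulAut.conj g).toMonoidHom ≤ H →
        Subgroup.zpowers g ≤ Subgroup.normalizer (H : Set Y) := fun e =>
      Subgroup.zpowers_le_of_mem (Subgroup.mem_normalizer_fintype fun a ha => e ⟨a, ha, rfl⟩)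
    have fx : ∀ {g : Y}, Commute g ⁅x, y⁆ →
        (Subgroup.zpowers ⁅x, y⁆).map (MulAut.conj g).toMonoidHom = Subgroup.zpowers ⁅x, y⁆ := fun {g} c => by
      rw [MonoidHom.map_zpowers]
      exact congrArg _ (mul_inv_eq_iff_eq_mul.2 c.eq)
    have p1 := (zp k1).to_sup_of_normal_right' (zp k3) (nm (fx k4).le)
    have p2 := (zp k2).to_sup_of_normal_right' p1 (nm (by
      rw [Subgroup.map_sup, fx k5, MonoidHom.map_zpowers]
      refine sup_le (Subgroup.zpowers_le_of_mem ?_) le_sup_right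
      rw [show (MulAut.conj y).toMonoidHom x = ⁅x, y⁆⁻¹ * x by
        rw [commutatorElement_inv, commutatorElement_def]; simp]
      exact mul_mem (inv_mem (Subgroup.mem_sup_right (Subgroup.mem_zpowers _)))
        (Subgroup.mem_sup_left (Subgroup.mem_zpowers _))))
    generalize hH : Subgroup.zpowers y ⊔ (Subgroup.zpowers x ⊔ Subgroup.zpowers ⁅x, y⁆) = H at p2
    haveI : Finite (H.map ρ) := ((Set.toFinite (H : Set Y)).image ρ).to_subtype
    obtain ⟨B, hB⟩ := exists_ut l (H.map ρ) (p2.map ρ)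
    refine nt.cj B ⁅x, y⁆ ?_
    rw [map_commutatorElement]
    refine Ut.isTv (fun e => h2 ((Nat.prime_dvd_prime_iff_eq hl Nat.prime_two).1
      ((CharP.cast_eq_zero_iff K l 2).1 (by exact_mod_cast e))))
      (hB _ ⟨x, hH ▸ Subgroup.mem_sup_right (Subgroup.mem_sup_left (Subgroup.mem_zpowers _)), rfl⟩)
      (hB _ ⟨y, hH ▸ Subgroup.mem_sup_left (Subgroup.mem_zpowers _), rfl⟩) ?_ ?_ ?_ <;>
      rw [← map_commutatorElement]
    exacts [k4.map _, k5.map _, (map_ne_one_iff _ (h.cj B).inj).2 z1]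
  obtain ⟨h3, ω, u, ψ, w, e, hz⟩ := heis_shape (x := ρ x) (y := ρ y) ho ((CharP.cast_eq_zero_iff K p _).not.2
      fun d => hp ((Nat.prime_dvd_prime_iff_eq Fact.out hl).1 ((Fact.out : p.Prime).dvd_of_dvd_pow d)).symm)
    (by rw [← map_commutatorElement, ← map_pow, k3, map_one]) (map_commutatorElement ρ x y ▸ k4.map ρ)
    (map_commutatorElement ρ x y ▸ k5.map ρ) (map_commutatorElement ρ x y ▸ (map_ne_one_iff _ h.inj).2 z1)
  rw [← map_commutatorElement] at hz
  have tE : (Matrix.vecMulVec u ψ).trace = 1 := by rw [Matrix.trace_vecMulVec, dotProduct_comm, e]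
  have EE : Matrix.vecMulVec u ψ * Matrix.vecMulVec u ψ = Matrix.vecMulVec u ψ := by
    rw [Matrix.vecMulVec_mul_vecMulVec, e, one_smul]
  generalize Matrix.vecMulVec u ψ = E at hz tE EE
  generalize ⁅x, y⁆ = z at *
  have z2 : (ρ (z * z)).1 = (ω ^ 2) • 1 + (1 - ω ^ 2) • E := by
    rw [map_mul, Units.val_mul, hz]
    simp only [add_mul, mul_add, smul_mul_assoc, mul_smul_comm, one_mul, mul_one, EE]
    module
  have z3 : z * z * z = 1 := h.inj (Units.ext (by
    rw [map_mul, Units.val_mul, hz, z2, map_one, Units.val_one]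
    simp only [add_mul, mul_add, smul_mul_assoc, mul_smul_comm, one_mul, mul_one, EE]
    match_scalars
    · linear_combination (ω - 1) * w
    · linear_combination (1 - ω) * w))
  have z4 : z ^ 3 = 1 := by rw [← z3, pow_three']
  refine ⟨by_contra fun n3 => z1 ?_, fun e3 => h3 (by subst e3; exact_mod_cast CharP.cast_eq_zero K 3), fun c => ?_⟩
  · have := pow_gcd_eq_one.2 ⟨k3, z4⟩
    rwa [((Nat.coprime_primes hl Nat.prime_three).2 n3).pow_left _, pow_one] at this
  · have := h.tr_eq z4 (g' := z⁻¹) (by rw [inv_pow, z4, inv_one]) (by decide) (by rwa [map_inv])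
    rw [inv_eq_of_mul_eq_one_left z3, tr, tr, hz, z2] at this
    simp only [Matrix.trace_add, Matrix.trace_smul, Matrix.trace_one, tE, Fintype.card_fin, smul_eq_mul] at this
    push_cast at this
    refine h3 (mul_left_cancel₀ h3 ?_)
    linear_combination (3 + 6 * (1 - ω) ^ 2) * w + (1 + 2 * ω ^ 2) * this

end Cfsg.Lib.Q4
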