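import Cfsg.Agent.Lib.Q4.Lin
import Cfsg.Agent.Lib.Core.Solvable

/-!
# Elements of order at least five acting on 2-subgroups
-/

set_option autoImplicit false
set_option linter.unusedSectionVars false

namespace Cfsg.Lib.Q4

open scoped MatrixGroups Matrix commutatorElement
open Cfsg.Geo Equiv
open Cfsg.Lib.Q4R (dg sc)

/-- Pure group theory.  Take `R ≤ Q` minimal among the `g`-invariant subgroups not centralised by `g`.
(1) `R₀ = closure {⁅r, g ^ i⁆}` is a `g`-invariant subgroup of `R` not centralised by `g` (if `c = ⁅g, r⁆` commutes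
with `g` then `gᵏ r g⁻ᵏ = cᵏ r`, so `c ^ l = 1` and `c = 1`), hence `R₀ = R`.
(2) `⁅R, R⁆ < R` is centralised by `g`, and by all `r g r⁻¹`, hence by the generators of `R`. -/
theorem exists_min {Y : Type*} [Group Y] [Finite Y] {l : ℕ} (hl : Odd l) {Q : Subgroup Y} (hQ : IsPGroup 2 Q)
    {g : Y} (hg : g ^ l = 1) (hn : ∀ a ∈ Q, g * a * g⁻¹ ∈ Q) (hc : ∃ a ∈ Q, ¬ Commute g a) :
    ∃ R ≤ Q, (∀ a ∈ R, g * a * g⁻¹ ∈ R) ∧ (∃ a ∈ R, ¬ Commute g a) ∧
      R = Subgroup.closure {c | ∃ r ∈ R, ∃ i : ℕ, c = ⁅r, g ^ i⁆} ∧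
      ∀ a ∈ R, ∀ b ∈ R, Commute g ⁅a, b⁆ ∧ ∀ c ∈ R, Commute c ⁅a, b⁆ := by
  obtain ⟨R, ⟨h1, h2, a, ha, n⟩, min⟩ := exists_minimal_of_wellFoundedLT
    (fun R : Subgroup Y => R ≤ Q ∧ (∀ a ∈ R, g * a * g⁻¹ ∈ R) ∧ ∃ a ∈ R, ¬ Commute g a) ⟨Q, le_rfl, hn, hc⟩
  have hp : ∀ i : ℕ, ∀ a ∈ R, g ^ i * a * (g ^ i)⁻¹ ∈ R := fun i => by
    induction i with
    | zero => simp
    | succ i ih => exact fun a ha => by simpa [pow_succ', mul_assoc] using h2 _ (ih a ha)
  have inv : ∀ S : Set Y, (∀ a ∈ S, g * a * g⁻¹ ∈ S) → ∀ a ∈ Subgroup.closure S, g * a * g⁻¹ ∈ Subgroup.closure S :=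
    fun S h a ha => (Subgroup.closure_le ((Subgroup.closure S).comap (MulAut.conj g).toMonoidHom)).2
      (fun b hb => Subgroup.subset_closure (h b hb)) ha
  have l0 : Subgroup.closure {c | ∃ r ∈ R, ∃ i : ℕ, c = ⁅r, g ^ i⁆} ≤ R := (Subgroup.closure_le _).2 (by
    rintro _ ⟨r, hr, i, rfl⟩
    simpa [commutatorElement_def, mul_assoc] using mul_mem hr (hp i _ (inv_mem hr)))
  have m : ⁅a, g⁆ ∈ Subgroup.closure {c | ∃ r ∈ R, ∃ i : ℕ, c = ⁅r, g ^ i⁆} :=
    Subgroup.subset_closure ⟨a, ha, 1, by rw [pow_one]⟩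
  have e0 := le_antisymm (min ⟨l0.trans h1, inv _ (by
    rintro _ ⟨r, hr, i, rfl⟩
    exact ⟨_, h2 r hr, i, by group⟩), _, m, fun c => n ?_⟩ l0) l0
  · have sol : Group.IsSolvable R := by
      have := (hQ.to_le h1).isNilpotent
      infer_instance
    have lt : ⁅R, R⁆ < R := Core.commutator_lt_of_isSolvable sol fun e => n (by
      rw [Subgroup.mem_bot.1 (e.le ha)]; exact Commute.one_right g)
    have cg : ∀ d ∈ ⁅R, R⁆, Commute g d := fun d hd => by_contra fun c => lt.not_ge (min ⟨lt.le.trans h1, inv _ (by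
      rintro _ ⟨r, hr, s, hs, rfl⟩
      exact ⟨_, h2 r hr, _, h2 s hs, by group⟩), d, hd, c⟩ lt.le)
    refine ⟨R, h1, h2, ⟨a, ha, n⟩, e0, fun b hb c hc => ⟨cg _ (Subgroup.commutator_mem_commutator hb hc),
      fun r hr => ?_⟩⟩
    refine Subgroup.mem_centralizer_singleton_iff.1 ((e0.le.trans ((Subgroup.closure_le _).2 ?_)) hr)
    rintro _ ⟨r, hr, i, rfl⟩
    have k1 := (cg _ (Subgroup.commutator_mem_commutator hb hc)).pow_left i
    have k2 := (cg _ (Subgroup.commutator_mem_commutator (mul_mem (mul_mem (inv_mem hr) hb) hr)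
      (mul_mem (mul_mem (inv_mem hr) hc) hr))).pow_left i
    have k3 : Commute (r * g ^ i * r⁻¹) ⁅b, c⁆ := by
      rw [show ⁅b, c⁆ = r * ⁅r⁻¹ * b * r, r⁻¹ * c * r⁆ * r⁻¹ by group]
      exact k2.conj r
    exact Subgroup.mem_centralizer_singleton_iff.2 (k3.mul_left k1.inv_left)
  · obtain ⟨k, hk⟩ := hQ ⟨_, h1 (l0 m)⟩
    have e1 : ⁅a, g⁆ ^ l = 1 := by
      have := c.symm.mul_pow l
      rwa [show ⁅a, g⁆ * g = a * g * a⁻¹ by group, conj_pow, hg, mul_one, mul_one, mul_inv_cancel, eq_comm] at this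
    have := pow_gcd_eq_one.2 ⟨e1, congrArg Subtype.val hk⟩
    rw [(Nat.coprime_two_right.2 hl).pow_right k, pow_one] at this
    exact (commutatorElement_eq_one_iff_commute.1 this).symm

variable {K : Type*} [Field K] [IsAlgClosed K]

omit [IsAlgClosed K] in
theorem oc_cent {m x y : GL (Fin 2) K} (hm : m ∉ scalars (Fin 2) K) (hx : Commute m x) (hy : Commute m y) :
    Commute x y := by
  have key : ∀ x : GL (Fin 2) K, Commute m x → ∃ s t : K, x.1 = s • 1 + t • m.1 := fun x hx => by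
    have e : ∀ i j, (m.1 * x.1) i j = (x.1 * m.1) i j := fun i j => congrArg (fun g : GL (Fin 2) K => g.1 i j) hx
    have e0 := e 0 0
    have e1 := e 0 1
    have e2 := e 1 0
    simp only [Matrix.mul_apply, Fin.sum_univ_two] at e0 e1 e2
    obtain ⟨t, t0, t1, t2⟩ : ∃ t, x.1 0 0 - x.1 1 1 = t * (m.1 0 0 - m.1 1 1) ∧ x.1 0 1 = t * m.1 0 1 ∧
        x.1 1 0 = t * m.1 1 0 := by
      by_cases a : m.1 0 1 = 0
      · by_cases b : m.1 1 0 = 0
        · have c : m.1 0 0 - m.1 1 1 ≠ 0 := fun c => hm (mem_scalars_iff'.2 ⟨m.1 0 0, by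
            ext i j
            fin_cases i <;> fin_cases j <;> simp [a, b, sub_eq_zero.1 c]⟩)
          exact ⟨(x.1 0 0 - x.1 1 1) / (m.1 0 0 - m.1 1 1), by field_simp, by field_simp; linear_combination e1,
            by field_simp; linear_combination -e2⟩
        · exact ⟨x.1 1 0 / m.1 1 0, by field_simp; linear_combination e2, by field_simp; linear_combination -e0,
            by field_simp⟩
      · exact ⟨x.1 0 1 / m.1 0 1, by field_simp; linear_combination -e1, by field_simp,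
          by field_simp; linear_combination e0⟩
    refine ⟨x.1 1 1 - t * m.1 1 1, t, ?_⟩
    ext i j
    fin_cases i <;> fin_cases j <;> simp [t1, t2]
    linear_combination t0
  obtain ⟨s, t, e⟩ := key x hx
  refine Units.ext ?_
  have := congrArg Units.val hy.eq
  simp only [Units.val_mul] at this
  simp [e, add_mul, mul_add, this]

omit [IsAlgClosed K] in
theorem oc_anti (h2 : (2 : K) ≠ 0) {x y : GL (Fin 2) K} (e : x * y = -(y * x)) : ¬ Commute x y := fun c => by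
  rw [c.eq] at e
  have := congrArg (fun g : GL (Fin 2) K => tr (g * (y * x)⁻¹)) e
  simp only [neg_mul, mul_inv_cancel, tr, Units.val_neg, Units.val_one, Matrix.trace_neg, Matrix.trace_one,
    Fintype.card_fin, Nat.cast_ofNat] at this
  exact mul_ne_zero h2 h2 (by linear_combination this)

omit [IsAlgClosed K] in
theorem oc_two (h2 : (2 : K) ≠ 0) {l : ℕ} (hl : l.Prime) (h5 : 5 ≤ l) {Y : Type*} [Group Y] (ψ : Y →* GL (Fin 2) K)
    {R : Subgroup Y} {g x y : Y} (hg : g ^ l = 1) (hn : ∀ a ∈ R, g * a * g⁻¹ ∈ R)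
    (hc : ∀ a ∈ R, ∀ b ∈ R, ∀ c ∈ R, Commute c ⁅a, b⁆) (hx : x ∈ R) (hy : y ∈ R) (e : ψ x * ψ y = -(ψ y * ψ x))
    {r : Y} (hr : r ∈ R) (i : ℕ) : ψ ⁅r, g ^ i⁆ ∈ scalars (Fin 2) K := by
  have sc : ∀ m : Y, Commute (ψ m) (ψ x) → Commute (ψ m) (ψ y) → ψ m ∈ scalars (Fin 2) K := fun m a b =>
    by_contra fun n => oc_anti h2 e (oc_cent n a b)
  have pm : ∀ a ∈ R, ∀ b ∈ R, ¬ Commute (ψ a) (ψ b) → ⁅ψ a, ψ b⁆ = -1 := fun a ha b hb n => by
    obtain ⟨c, hc⟩ := mem_scalars_iff'.1 (sc _ ((hc a ha b hb x hx).symm.map ψ) ((hc a ha b hb y hy).symm.map ψ))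
    rw [map_commutatorElement] at hc
    have d : (⁅ψ a, ψ b⁆).1.det = 1 := by
      change ((Matrix.GeneralLinearGroup.det ⁅ψ a, ψ b⁆ : Kˣ) : K) = 1
      rw [map_commutatorElement, commutatorElement_eq_one_iff_mul_comm.2 (mul_comm _ _), Units.val_one]
    rcases (mul_self_eq_one_iff (a := c)).1 (by simpa [sq] using pow_card_of_det d hc) with rfl | rfl
    · exact absurd (commutatorElement_eq_one_iff_commute.1 (Units.ext (by simpa using hc))) n
    · exact Units.ext (by simpa using hc)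
  have eq : ∀ a ∈ R, ∀ b ∈ R, ∀ c ∈ R, (Commute (ψ a) (ψ c) = Commute (ψ b) (ψ c)) →
      Commute (ψ (a⁻¹ * b)) (ψ c) := fun a ha b hb c hc k => by
    rw [map_mul, map_inv]
    by_cases n : Commute (ψ a) (ψ c)
    · exact n.inv_left.mul_left (k ▸ n)
    have := (pm a ha c hc n).trans (pm b hb c hc (k ▸ n)).symm
    rw [← commutatorElement_eq_one_iff_commute]
    calc _ = (ψ a)⁻¹ * ⁅ψ b, ψ c⁆ * ψ c * ψ a * (ψ c)⁻¹ := by group
      _ = _ := by rw [← this]; group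
  have hp : ∀ i : ℕ, g ^ i * r * (g ^ i)⁻¹ ∈ R := fun i => by
    induction i with
    | zero => simpa using hr
    | succ i ih => simpa [pow_succ', mul_assoc] using hn _ ih
  have := scalars_normal (ι := Fin 2) (F := K)
  let q : Y →* GL (Fin 2) K ⧸ scalars (Fin 2) K := (QuotientGroup.mk' _).comp ψ
  have key : ∀ a b : Fin 5, a < b → (Commute (ψ (g ^ a.1 * r * (g ^ a.1)⁻¹)) (ψ x),
      Commute (ψ (g ^ a.1 * r * (g ^ a.1)⁻¹)) (ψ y)) = (Commute (ψ (g ^ b.1 * r * (g ^ b.1)⁻¹)) (ψ x),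
      Commute (ψ (g ^ b.1 * r * (g ^ b.1)⁻¹)) (ψ y)) → Commute (q g) (q r) := fun a b ab k => by
    have k1 : q ((g ^ a.1 * r * (g ^ a.1)⁻¹)⁻¹ * (g ^ b.1 * r * (g ^ b.1)⁻¹)) = 1 := (QuotientGroup.eq_one_iff _).2
      (sc _ (eq _ (hp _) _ (hp _) x hx (congrArg Prod.fst k)) (eq _ (hp _) _ (hp _) y hy (congrArg Prod.snd k)))
    obtain ⟨m, hm⟩ := Nat.exists_eq_add_of_lt (show a.1 < b.1 from ab)
    have k2 : Commute (q g ^ (m + 1)) (q r) := by
      rw [hm, add_assoc, pow_add, map_mul, map_inv, inv_mul_eq_one] at k1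
      simp only [map_mul, map_inv, map_pow, mul_inv_rev, mul_assoc, mul_right_inj] at k1
      rw [← mul_assoc, ← mul_assoc, mul_left_inj, eq_mul_inv_iff_mul_eq] at k1
      exact k1.symm
    obtain ⟨n, hn⟩ := exists_pow_eq_self_of_coprime (x := q g) (n := m + 1) (Nat.Coprime.coprime_dvd_right
      (orderOf_dvd_of_pow_eq_one (by rw [← map_pow, hg, map_one]))
      (Nat.coprime_of_lt_prime (by omega) (by omega) hl).symm)
    exact hn ▸ k2.pow_left n
  obtain ⟨a, b, ab, k⟩ := Fintype.exists_ne_map_eq_of_card_lt (fun a : Fin 5 =>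
    (Commute (ψ (g ^ a.1 * r * (g ^ a.1)⁻¹)) (ψ x), Commute (ψ (g ^ a.1 * r * (g ^ a.1)⁻¹)) (ψ y))) (by simp)
  have c : Commute (q g) (q r) := (lt_or_gt_of_ne ab).elim (key a b · k) (key b a · k.symm)
  refine (QuotientGroup.eq_one_iff _).1 (show q _ = 1 from ?_)
  rw [map_commutatorElement, map_pow, commutatorElement_eq_one_iff_commute]
  exact c.symm.pow_right i

/-- Degree two.  `x, y` anticommute, so `1, x, y, x y` is a basis of `M₂(K)`; the commutators in `R` commute with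
`x, y`, so they are scalars, of determinant one: `±1`.  So `r ↦ (⁅r, x⁆, ⁅r, y⁆)` maps `R` to `{±1}²` with scalar
kernel, and `g` permutes the (at most four) classes of `R` modulo scalars, fixing the class of `1`.  As `g ^ l = 1`
with `l ≥ 5` prime, it fixes every class: all `⁅r, g ^ i⁆` are scalars, so `R` is scalar, against `x y = - y x`. -/
theorem not_two (h2 : (2 : K) ≠ 0) {l : ℕ} (hl : l.Prime) (h5 : 5 ≤ l) {R : Subgroup (GL (Fin 2) K)}
    {g x y : GL (Fin 2) K} (hg : g ^ l = 1) (hn : ∀ a ∈ R, g * a * g⁻¹ ∈ R)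
    (hR : R = Subgroup.closure {c | ∃ r ∈ R, ∃ i : ℕ, c = ⁅r, g ^ i⁆})
    (hc : ∀ a ∈ R, ∀ b ∈ R, ∀ c ∈ R, Commute c ⁅a, b⁆) (hx : x ∈ R) (hy : y ∈ R) (e : x * y = -(y * x)) : False := by
  have : R ≤ scalars (Fin 2) K := hR.le.trans ((Subgroup.closure_le _).2 (by
    rintro _ ⟨r, hr, i, rfl⟩
    exact oc_two h2 hl h5 (MonoidHom.id _) hg hn hc hx hy e hr i))
  exact oc_anti h2 e (comm_of_scalar (this hy) x)

omit [IsAlgClosed K] in
/-- Restriction to a block. -/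
def resH {Y ι κ : Type*} [Group Y] [Fintype ι] [DecidableEq ι] [Fintype κ] [DecidableEq κ] (φ : Y →* GL ι K)
    (f : κ ↪ ι) (h : ∀ y k i, i ∉ Set.range f → (φ y).1 (f k) i = 0) : Y →* GL κ K :=
  MonoidHom.toHomUnits
    { toFun := fun y => (φ y).1.submatrix f f
      map_one' := by rw [map_one, Units.val_one, Matrix.submatrix_one_embedding]
      map_mul' := fun a b => Matrix.ext fun i j => by
        rw [map_mul, Units.val_mul, Matrix.submatrix_apply, Matrix.mul_apply, Matrix.mul_apply]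
        exact (Fintype.sum_of_injective f f.injective _ _ (fun k hk => by rw [h a i k hk, zero_mul])
          fun _ => rfl).symm }

/-- Let `g'` be the lift of order `l` and `R` as in `exists_min` for `Q.comap π` (a 2-group: `ker π` has exponent
dividing four).  `A = R.map π` is not centralised by `g` (`PR.commute`).  Suppose `z = ⁅x, y⁆` is not scalar for some
`x, y ∈ R`.  Diagonalise `z`; it commutes with `R` and `g'`.  A weight `λ ≠ 1` of multiplicity `d ≤ 3` has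
`λ ^ d = 1` (determinant of `x y = z y x` on the block) and 2-power order, so `d = 2`, `λ = -1`, and the other two
weights are `1`.  After a permutation of the basis `z = diag(-1, -1, 1, 1)`; restriction to the first block is a
homomorphism from the centraliser of `z` to `GL₂(K)`; apply `not_two` to the images. -/
theorem PR.ab {Y X : Type*} [Group Y] [Finite Y] [Group X] {π : Y →* X} {ρ : Y →* GL (Fin 4) K} (h : PR π ρ)
    (h2 : (2 : K) ≠ 0) (l : ℕ) (Q : Subgroup X) (g : X) (hl : l.Prime) (h5 : 5 ≤ l) (hQ : IsPGroup 2 Q)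
    (hg : g ^ l = 1) (hn : ∀ a ∈ Q, g * a * g⁻¹ ∈ Q) (hc : ∃ a ∈ Q, ¬ Commute g a) :
    ∃ A ≤ Q, (∀ a ∈ A, ∀ b ∈ A, Commute a b) ∧ (∀ a ∈ A, g * a * g⁻¹ ∈ A) ∧ ∃ a ∈ A, ¬ Commute g a := by
  classical
  have o : Odd l := hl.odd_of_ne_two (by omega)
  have cop : Nat.Coprime l (Fintype.card (Fin 4)) := (Nat.coprime_two_right.2 o).pow_right 2
  obtain ⟨g, rfl, hg'⟩ := h.exists_lift hg cop
  replace hg := hg'
  have pQ : IsPGroup 2 (Q.comap π) := fun y => by
    obtain ⟨k, hk⟩ := hQ ⟨_, y.2⟩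
    exact ⟨k + 2, Subtype.ext (by
      simpa [pow_add, pow_mul] using h.pow_card (z := y.1 ^ 2 ^ k) (by simpa using congrArg Subtype.val hk))⟩
  obtain ⟨R, le, inv, ⟨a, ha, n⟩, hR, cm⟩ := exists_min o pQ hg (fun a ha => by simpa using hn _ ha) (by
    obtain ⟨a, ha, n⟩ := hc
    obtain ⟨a, rfl⟩ := h.surj a
    exact ⟨a, ha, fun c => n (c.map π)⟩)
  refine ⟨R.map π, Subgroup.map_le_iff_le_comap.2 le, ?_, ?_, _, ⟨a, ha, rfl⟩, fun c => n (h.commute hg cop c)⟩
  swap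
  · rintro _ ⟨a, ha, rfl⟩
    exact ⟨_, inv a ha, by simp⟩
  rintro _ ⟨x, hx, rfl⟩ _ ⟨y, hy, rfl⟩
  rw [← commutatorElement_eq_one_iff_commute, ← map_commutatorElement]
  by_contra ns
  obtain ⟨k, hk⟩ := pQ ⟨_, le (mul_mem (mul_mem (mul_mem hx hy) (inv_mem hx)) (inv_mem hy))⟩
  replace hk : ⁅x, y⁆ ^ 2 ^ k = 1 := congrArg Subtype.val hk
  obtain ⟨B, hB⟩ := exists_dg (fun _ : Unit => ρ ⁅x, y⁆) (fun _ _ => rfl) fun _ =>
    ⟨2 ^ k, by simpa using fun e => absurd e h2, by rw [← map_pow, hk, map_one]⟩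
  obtain ⟨w, hw⟩ := hB ()
  rw [← cjr_apply] at hw
  rw [(h.cj B).ker, hw] at ns
  obtain ⟨i, j, ij, i1⟩ : ∃ i j, w j ≠ w i ∧ w i ≠ 1 := by
    by_contra hn
    push Not at hn
    refine ns (Q4R.mem_scal.2 ⟨w 0, congrArg dg (funext fun i => by_contra fun e => ?_)⟩)
    exact e ((hn i 0 (Ne.symm e)).trans (hn 0 i e).symm)
  let s : Finset (Fin 4) := Finset.univ.filter (w · = w i)
  obtain ⟨d, hd⟩ : ∃ d, s.card = d := ⟨_, rfl⟩
  let f : Fin d ↪ Fin 4 := (s.orderEmbOfFin hd).toEmbedding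
  have rf : ∀ m, m ∈ Set.range f ↔ w m = w i := fun m =>
    (Set.ext_iff.1 (s.range_orderEmbOfFin hd) m).trans (by simp [s])
  let C := Subgroup.centralizer {⁅x, y⁆}
  let ψ := resH ((cjr B ρ).comp C.subtype) f fun c k m hm => by_contra fun e => hm ((rf m).2 (by
    have := Commute.map (Subgroup.mem_centralizer_singleton_iff.1 c.2) (cjr B ρ)
    rw [hw] at this
    rw [← wt_of_comm this e, (rf _).1 ⟨k, rfl⟩]))
  have RC : R ≤ C := fun c hc => Subgroup.mem_centralizer_singleton_iff.2 ((cm x hx y hy).2 c hc)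
  have gC : g ∈ C := Subgroup.mem_centralizer_singleton_iff.2 (cm x hx y hy).1
  have ez : (⁅ψ ⟨x, RC hx⟩, ψ ⟨y, RC hy⟩⁆).1 = (w i : K) • (1 : Matrix (Fin d) (Fin d) K) := by
    rw [← map_commutatorElement]
    change (cjr B ρ ⁅x, y⁆).1.submatrix f f = _
    rw [hw, Q4R.dg_val, Matrix.submatrix_diagonal_embedding, Matrix.smul_one_eq_diagonal]
    exact congrArg _ (funext fun m => congrArg Units.val ((rf _).1 ⟨m, rfl⟩))
  have wd : w i ^ d = 1 := Units.ext (by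
    simpa using pow_card_of_det (show ((Matrix.GeneralLinearGroup.det _ : Kˣ) : K) = 1 by
      rw [map_commutatorElement, commutatorElement_eq_one_iff_mul_comm.2 (mul_comm _ _), Units.val_one]) ez)
  have wk : w i ^ 2 ^ k = 1 := congrFun (Q4R.dg_inj (a₁ := w ^ 2 ^ k) (a₂ := 1) (by
    rw [map_pow, ← hw, ← map_pow, hk, map_one, map_one])) i
  have d1 : 0 < d := hd ▸ Finset.card_pos.2 ⟨i, by simp [s]⟩
  have d4 : d < 4 := hd ▸ (Finset.card_lt_iff_ne_univ s).2 fun e => ij (by simpa [s] using e.ge (Finset.mem_univ j))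
  obtain rfl : d = 2 := by
    by_contra e
    have := pow_gcd_eq_one.2 ⟨wd, wk⟩
    rw [(Nat.coprime_two_right.2 (Nat.odd_iff.2 (by omega))).pow_right k, pow_one] at this
    exact i1 this
  have wi : (w i : K) = -1 := ((mul_self_eq_one_iff (a := (w i : K))).1 (by
    simpa [sq] using congrArg Units.val wd)).resolve_left fun e => i1 (Units.ext e)
  have e : ψ ⟨x, RC hx⟩ * ψ ⟨y, RC hy⟩ = -(ψ ⟨y, RC hy⟩ * ψ ⟨x, RC hx⟩) := by
    rw [← neg_one_mul, ← show ⁅ψ ⟨x, RC hx⟩, ψ ⟨y, RC hy⟩⁆ = -1 from Units.ext (by rw [ez, wi]; simp)]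
    group
  have : R ≤ ((scalars (Fin 2) K).comap ψ).map C.subtype := hR.le.trans ((Subgroup.closure_le _).2 (by
    rintro _ ⟨r, hr, m, rfl⟩
    exact ⟨⁅⟨r, RC hr⟩, ⟨g, gC⟩ ^ m⁆, oc_two h2 hl h5 ψ (R := R.subgroupOf C) (Subtype.ext hg)
      (fun a ha => inv a ha) (fun a ha b hb c hc => Subtype.ext ((cm a ha b hb).2 c hc)) hx hy e hr m, rfl⟩))
  obtain ⟨y', hy', ey⟩ := this hy
  rw [show y' = ⟨y, RC hy⟩ from Subtype.ext ey] at hy'
  exact oc_anti h2 e (comm_of_scalar hy' _)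

end Cfsg.Lib.Q4
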