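import Cfsg.Agent.Lib.Q4.Lin

/-!
# Characteristic two, no transvections: the groups `E t`

For an involution `t`, `N = ρ t - 1` has `N² = 0` and rank two (rank one is a transvection), so
`W = im N = ker N` is a plane; `En ρ t` consists of the elements acting trivially on `W` and on `V / W`.
-/

set_option autoImplicit false
set_option linter.unusedSectionVars false

namespace Cfsg.Lib.Q4

open scoped MatrixGroups Matrix commutatorElement
open Cfsg.Geo Equiv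
open Cfsg.Lib.Q4R (dg sc)

variable {K Y : Type*} [Field K] [Group Y]

/-- the elements `g` with `g N = N = N g`, `N = ρ t - 1` -/
def En (ρ : Y →* GL (Fin 4) K) (t : Y) : Subgroup Y where
  carrier := {g | (ρ g).1 * ((ρ t).1 - 1) = (ρ t).1 - 1 ∧ ((ρ t).1 - 1) * (ρ g).1 = (ρ t).1 - 1}
  one_mem' := by simp
  mul_mem' := fun {a b} ha hb => ⟨by rw [map_mul, Units.val_mul, mul_assoc, hb.1, ha.1],
    by rw [map_mul, Units.val_mul, ← mul_assoc, ha.2, hb.2]⟩
  inv_mem' := fun {a} ha => ⟨by rw [map_inv, Units.inv_mul_eq_iff_eq_mul, ha.1],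
    by rw [map_inv, Units.mul_inv_eq_iff_eq_mul, ha.2]⟩

theorem mem_En {ρ : Y →* GL (Fin 4) K} {t g : Y} : g ∈ En ρ t ↔
    (ρ g).1 * ((ρ t).1 - 1) = (ρ t).1 - 1 ∧ ((ρ t).1 - 1) * (ρ g).1 = (ρ t).1 - 1 := Iff.rfl

theorem oe_cj (B a b : GL (Fin 4) K) :
    ((B * a * B⁻¹).1 * ((B * b * B⁻¹).1 - 1) = (B * b * B⁻¹).1 - 1 ∧
      ((B * b * B⁻¹).1 - 1) * (B * a * B⁻¹).1 = (B * b * B⁻¹).1 - 1) ↔
      (a.1 * (b.1 - 1) = b.1 - 1 ∧ (b.1 - 1) * a.1 = b.1 - 1) := by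
  have e : (B * b * B⁻¹).1 - 1 = B.1 * (b.1 - 1) * (B⁻¹).1 := by simp [mul_sub, sub_mul]
  have k : ∀ X Z : Matrix (Fin 4) (Fin 4) K, B.1 * X * (B⁻¹).1 * (B.1 * Z * (B⁻¹).1) = B.1 * (X * Z) * (B⁻¹).1 :=
    fun X Z => by simp only [mul_assoc, Units.inv_mul_cancel_left]
  rw [e]
  simp only [Units.val_mul, k, Units.mul_left_inj, Units.mul_right_inj]

theorem En_cjr (B : GL (Fin 4) K) (ρ : Y →* GL (Fin 4) K) (t : Y) : En (cjr B ρ) t = En ρ t :=
  Subgroup.ext fun _ => oe_cj B _ _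

theorem En_conj {ρ : Y →* GL (Fin 4) K} (t e g : Y) (h : e ∈ En ρ t) : g * e * g⁻¹ ∈ En ρ (g * t * g⁻¹) := by
  rw [mem_En]
  simp only [map_mul, map_inv]
  exact (oe_cj _ _ _).2 h

/-- the matrix `[[1, A], [0, 1]]` -/
def blkE (a b c d : K) : Matrix (Fin 4) (Fin 4) K := !![1, 0, a, b; 0, 1, c, d; 0, 0, 1, 0; 0, 0, 0, 1]

/-- a unitriangular matrix -/
def ut4 (α β a b c d : K) : Matrix (Fin 4) (Fin 4) K := !![1, α, a, b; 0, 1, c, d; 0, 0, 1, β; 0, 0, 0, 1]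

theorem blkE_eq (a b c d : K) : blkE a b c d = ut4 0 0 a b c d := rfl

theorem ut4_mul (α β a b c d α' β' a' b' c' d' : K) : ut4 α β a b c d * ut4 α' β' a' b' c' d' =
    ut4 (α + α') (β + β') (a + a' + α * c') (b + b' + α * d' + a * β') (c + c') (d + d' + c * β') := by
  ext i j
  fin_cases i <;> fin_cases j <;> simp [ut4, Matrix.mul_apply, Fin.sum_univ_four] <;> ring

theorem ut4_inj {α β a b c d α' β' a' b' c' d' : K} : ut4 α β a b c d = ut4 α' β' a' b' c' d' ↔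
    α = α' ∧ β = β' ∧ a = a' ∧ b = b' ∧ c = c' ∧ d = d' :=
  ⟨fun e => ⟨congrFun (congrFun e 0) 1, congrFun (congrFun e 2) 3, congrFun (congrFun e 0) 2,
    congrFun (congrFun e 0) 3, congrFun (congrFun e 1) 2, congrFun (congrFun e 1) 3⟩,
    by rintro ⟨rfl, rfl, rfl, rfl, rfl, rfl⟩; rfl⟩

theorem ut4_one : ut4 (0 : K) 0 0 0 0 0 = 1 := by
  ext i j
  fin_cases i <;> fin_cases j <;> rfl

theorem Ut.ex {g : GL (Fin 4) K} (h : Ut g) : ∃ α β a b c d, g.1 = ut4 α β a b c d :=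
  ⟨g.1 0 1, g.1 2 3, g.1 0 2, g.1 0 3, g.1 1 2, g.1 1 3, by
    ext i j
    fin_cases i <;> fin_cases j <;> first | rfl | exact h _ _ (by decide)⟩

/-- the first two and the last two indices -/
def i0 : Fin 2 → Fin 4 := ![0, 1]

/-- the last two indices -/
def i1 : Fin 2 → Fin 4 := ![2, 3]

/-- block diagonal matrices -/
def bd (X Z : Matrix (Fin 2) (Fin 2) K) : Matrix (Fin 4) (Fin 4) K :=
  !![X 0 0, X 0 1, 0, 0; X 1 0, X 1 1, 0, 0; 0, 0, Z 0 0, Z 0 1; 0, 0, Z 1 0, Z 1 1]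

theorem sub_mul' (M N : Matrix (Fin 4) (Fin 4) K) (e f : Fin 2 → Fin 4) : (M * N).submatrix e f =
    M.submatrix e i0 * N.submatrix i0 f + M.submatrix e i1 * N.submatrix i1 f := by
  ext i j
  simp only [Matrix.add_apply, Matrix.submatrix_apply, Matrix.mul_apply, Fin.sum_univ_four, Fin.sum_univ_two,
    add_assoc]
  rfl

theorem bd_sub (X Z : Matrix (Fin 2) (Fin 2) K) : (bd X Z).submatrix i0 i0 = X ∧ (bd X Z).submatrix i0 i1 = 0 ∧
    (bd X Z).submatrix i1 i0 = 0 ∧ (bd X Z).submatrix i1 i1 = Z := by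
  refine ⟨?_, ?_, ?_, ?_⟩ <;> ext i j <;> fin_cases i <;> fin_cases j <;> rfl

theorem blk_ext {M N : Matrix (Fin 4) (Fin 4) K} (h00 : M.submatrix i0 i0 = N.submatrix i0 i0)
    (h01 : M.submatrix i0 i1 = N.submatrix i0 i1) (h10 : M.submatrix i1 i0 = N.submatrix i1 i0)
    (h11 : M.submatrix i1 i1 = N.submatrix i1 i1) : M = N := by
  have k : ∀ i : Fin 4, ∃ a, i = i0 a ∨ i = i1 a := by decide
  ext i j
  obtain ⟨a, rfl | rfl⟩ := k i <;> obtain ⟨b, rfl | rfl⟩ := k j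
  exacts [congrFun (congrFun h00 a) b, congrFun (congrFun h01 a) b, congrFun (congrFun h10 a) b,
    congrFun (congrFun h11 a) b]

theorem bd_mul (X Z X' Z' : Matrix (Fin 2) (Fin 2) K) : bd X Z * bd X' Z' = bd (X * X') (Z * Z') := by
  apply blk_ext <;> simp [sub_mul', bd_sub]

theorem bd_one : bd (1 : Matrix (Fin 2) (Fin 2) K) 1 = 1 := by
  ext i j
  fin_cases i <;> fin_cases j <;> rfl

/-- block diagonal matrices -/
def bdG (X Z : GL (Fin 2) K) : GL (Fin 4) K :=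
  ⟨bd X.1 Z.1, bd (X⁻¹).1 (Z⁻¹).1, by simp [bd_mul, bd_one], by simp [bd_mul, bd_one]⟩

theorem bdG_sub (X Z : GL (Fin 2) K) (g : GL (Fin 4) K) :
    (bdG X Z * g * (bdG X Z)⁻¹).1.submatrix i0 i0 = X.1 * g.1.submatrix i0 i0 * (X⁻¹).1 ∧
    (bdG X Z * g * (bdG X Z)⁻¹).1.submatrix i0 i1 = X.1 * g.1.submatrix i0 i1 * (Z⁻¹).1 ∧
    (bdG X Z * g * (bdG X Z)⁻¹).1.submatrix i1 i0 = Z.1 * g.1.submatrix i1 i0 * (X⁻¹).1 ∧
    (bdG X Z * g * (bdG X Z)⁻¹).1.submatrix i1 i1 = Z.1 * g.1.submatrix i1 i1 * (Z⁻¹).1 := by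
  rw [show (bdG X Z * g * (bdG X Z)⁻¹).1 = bd X.1 Z.1 * g.1 * bd (X⁻¹).1 (Z⁻¹).1 from rfl]
  simp only [sub_mul', bd_sub, zero_mul, mul_zero, add_zero, zero_add, and_self]

theorem blkE_sub (a b c d : K) : (blkE a b c d).submatrix i0 i0 = 1 ∧ (blkE a b c d).submatrix i0 i1 = !![a, b; c, d] ∧
    (blkE a b c d).submatrix i1 i0 = 0 ∧ (blkE a b c d).submatrix i1 i1 = 1 := by
  refine ⟨?_, ?_, ?_, ?_⟩ <;> ext i j <;> fin_cases i <;> fin_cases j <;> rfl

theorem ex_blkE {M : Matrix (Fin 4) (Fin 4) K} (h0 : M.submatrix i0 i0 = 1) (h1 : M.submatrix i1 i0 = 0)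
    (h2 : M.submatrix i1 i1 = 1) : ∃ a b c d, M = blkE a b c d :=
  ⟨M 0 2, M 0 3, M 1 2, M 1 3, blk_ext (by rw [h0, (blkE_sub ..).1])
    (by ext i j; fin_cases i <;> fin_cases j <;> rfl) (by rw [h1, (blkE_sub ..).2.2.1])
    (by rw [h2, (blkE_sub ..).2.2.2])⟩

/-- the first diagonal block -/
def upH (φ : Y →* GL (Fin 4) K) (h : ∀ y, (φ y).1.submatrix i1 i0 = 0) : Y →* GL (Fin 2) K :=
  MonoidHom.toHomUnits
    { toFun := fun y => (φ y).1.submatrix i0 i0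
      map_one' := by rw [map_one, Units.val_one, ← bd_one, (bd_sub ..).1]
      map_mul' := fun a b => by rw [map_mul, Units.val_mul, sub_mul', h, mul_zero, add_zero] }

/-- the second diagonal block -/
def dnH (φ : Y →* GL (Fin 4) K) (h : ∀ y, (φ y).1.submatrix i1 i0 = 0) : Y →* GL (Fin 2) K :=
  MonoidHom.toHomUnits
    { toFun := fun y => (φ y).1.submatrix i1 i1
      map_one' := by rw [map_one, Units.val_one, ← bd_one, (bd_sub ..).2.2.2]
      map_mul' := fun a b => by rw [map_mul, Units.val_mul, sub_mul', h, zero_mul, zero_add] }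

theorem ut_of_blk {g : GL (Fin 4) K} {X Z : GL (Fin 2) K} (hX : Ut X) (hZ : Ut Z) (h0 : g.1.submatrix i0 i0 = X.1)
    (h1 : g.1.submatrix i1 i0 = 0) (h2 : g.1.submatrix i1 i1 = Z.1) : Ut g := by
  have k : ∀ i j : Fin 4, j ≤ i → ∃ a b, (i = i0 a ∧ j = i0 b ∨ i = i1 a ∧ j = i1 b) ∧ b ≤ a ∧ (i = j ↔ a = b) ∨
      i = i1 a ∧ j = i0 b ∧ i ≠ j := by decide
  intro i j ij
  obtain ⟨a, b, ⟨⟨rfl, rfl⟩ | ⟨rfl, rfl⟩, l, e⟩ | ⟨rfl, rfl, e⟩⟩ := k i j ij
  · exact ((congrFun (congrFun h0 a) b).trans (hX a b l)).trans (by simp only [e])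
  · exact ((congrFun (congrFun h2 a) b).trans (hZ a b l)).trans (by simp only [e])
  · rw [if_neg e]
    exact congrFun (congrFun h1 a) b

theorem upH_val (φ : Y →* GL (Fin 4) K) (h : ∀ y, (φ y).1.submatrix i1 i0 = 0) (y : Y) :
    (upH φ h y).1 = (φ y).1.submatrix i0 i0 := rfl

theorem dnH_val (φ : Y →* GL (Fin 4) K) (h : ∀ y, (φ y).1.submatrix i1 i0 = 0) (y : Y) :
    (dnH φ h y).1 = (φ y).1.submatrix i1 i1 := rfl

theorem ut_bdG {φ : Y →* GL (Fin 4) K} {h : ∀ y, (φ y).1.submatrix i1 i0 = 0} {y : Y} {X Z : GL (Fin 2) K}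
    (hX : Ut (X * upH φ h y * X⁻¹)) (hZ : Ut (Z * dnH φ h y * Z⁻¹)) : Ut (bdG X Z * φ y * (bdG X Z)⁻¹) :=
  ut_of_blk hX hZ (by rw [(bdG_sub ..).1, Units.val_mul, Units.val_mul, upH_val])
    (by rw [(bdG_sub ..).2.2.1, h, mul_zero, zero_mul])
    (by rw [(bdG_sub ..).2.2.2, Units.val_mul, Units.val_mul, dnH_val])

theorem cjr_mul (A B : GL (Fin 4) K) (φ : Y →* GL (Fin 4) K) (y : Y) : cjr (A * B) φ y = A * cjr B φ y * A⁻¹ := by
  simp only [cjr_apply, mul_inv_rev, mul_assoc]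

theorem ex_ut [CharP K 2] [Finite Y] (hY : IsPGroup 2 Y) (φ : Y →* GL (Fin 2) K) :
    ∃ B : GL (Fin 2) K, ∀ y, Ut (B * φ y * B⁻¹) :=
  have : Finite φ.range := Finite.of_surjective _ φ.rangeRestrict_surjective
  (exists_ut 2 φ.range (hY.of_surjective _ φ.rangeRestrict_surjective)).imp fun _ h y => h _ ⟨y, rfl⟩

/-- faithful, determinant one, no transvections -/
structure Nt (ρ : Y →* GL (Fin 4) K) : Prop where
  inj : Function.Injective ρ
  det : ∀ y, (ρ y).1.det = 1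
  nt : NT ρ

variable [CharP K 2] {ρ : Y →* GL (Fin 4) K}

theorem En_self {t : Y} (h : t ^ 2 = 1) : t ∈ En ρ t := by
  have e : (ρ t).1 * (ρ t).1 = 1 := by rw [← Units.val_mul, ← map_mul, ← sq, h, map_one, Units.val_one]
  rw [mem_En, mul_sub, sub_mul, e, mul_one, one_mul, and_self, CharTwo.sub_eq_add, CharTwo.sub_eq_add, add_comm]

theorem comm_val {x e : Y} {α β a₀ b₀ c₀ d₀ a b c d : K} (hx : (ρ x).1 = ut4 α β a₀ b₀ c₀ d₀)
    (he : (ρ e).1 = blkE a b c d) :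
    (ρ ⁅x, e⁆).1 = blkE (α * c) (α * d + β * a + α * β * c) 0 (β * c) := by
  have h2 : (2 : K) = 0 := CharTwo.two_eq_zero
  rw [← (ρ (e * x)).mul_left_inj, ← Units.val_mul, ← map_mul, show ⁅x, e⁆ * (e * x) = x * e by group]
  simp only [map_mul, Units.val_mul, hx, he, blkE_eq, ut4_mul, ut4_inj]
  refine ⟨by ring, by ring, by ring, ?_, by ring, ?_⟩
  · linear_combination (-β * a - α * β * c) * h2
  · linear_combination (-β * c) * h2

omit [CharP K 2] in
theorem oe_pg {x : Y} (hx : ∃ n, x ^ 2 ^ n = 1) : IsPGroup 2 (Subgroup.zpowers x) := fun ⟨_, i, rfl⟩ =>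
  hx.imp fun n e => Subtype.ext (by
    change (x ^ i) ^ 2 ^ n = 1
    rw [← zpow_natCast, ← zpow_mul, mul_comm, zpow_mul, zpow_natCast, e, one_zpow])

namespace Nt

variable (h : Nt ρ)
include h

theorem cj (B : GL (Fin 4) K) : Nt (cjr B ρ) where
  inj := (MulAut.conj B).injective.comp h.inj
  det y := by
    rw [cjr_apply, Units.val_mul, Units.val_mul, Matrix.det_mul, Matrix.det_mul, h.det, mul_one,
      ← Matrix.det_mul, Units.mul_inv, Matrix.det_one]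
  nt := h.nt.cj B

/-- if `a d = b c` then `blkE a b c d - 1` has rank at most one -/
theorem eq_one {g : Y} {a b c d : K} (e : (ρ g).1 = blkE a b c d) (h0 : a * d = b * c) : g = 1 := by
  obtain ⟨x, y, z, w, rfl, rfl, rfl, rfl⟩ : ∃ x y z w, a = x * z ∧ b = x * w ∧ c = y * z ∧ d = y * w := by
    by_cases ha : a = 0
    · rcases mul_eq_zero.1 (show b * c = 0 by rw [← h0, ha, zero_mul]) with hb | hc
      · exact ⟨0, 1, c, d, by simp [ha, hb]⟩
      · exact ⟨b, d, 0, 1, by simp [ha, hc]⟩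
    · exact ⟨a, c, 1, b / a, by simp, by field_simp, by simp, by field_simp; linear_combination h0⟩
  have k : (ρ g).1 = 1 + Matrix.vecMulVec ![x, y, 0, 0] ![0, 0, z, w] := by
    rw [e]
    ext i j
    fin_cases i <;> fin_cases j <;> simp [blkE]
  by_contra n
  refine h.nt g ⟨_, _, fun e => n (h.inj (Units.ext ?_)), fun e => n (h.inj (Units.ext ?_)), by simp, k⟩ <;>
    simp [k, e]

/-- Choose `u₀, u₁` with `N u₀, N u₁` independent (`N ≠ 0`; if all columns of `N` were proportional, `ρ t` would be a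
transvection).  Then `N u₀, N u₁, u₀, u₁` is a basis. -/
theorem exists_std {t : Y} (h1 : t ≠ 1) (h2 : t ^ 2 = 1) : ∃ B, (cjr B ρ t).1 = blkE 1 0 0 1 := by
  obtain ⟨N, hN⟩ : ∃ N, (ρ t).1 = 1 + N := ⟨(ρ t).1 - 1, by simp⟩
  have NN : N * N = 0 := by simpa [hN, add_mul] using (En_self (ρ := ρ) h2).1
  obtain ⟨i, j, i', j', m⟩ : ∃ i j i' j', N i j * N i' j' - N i j' * N i' j ≠ 0 := by
    by_contra hn
    push Not at hn
    obtain ⟨a, b, n⟩ : ∃ a b, N a b ≠ 0 := by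
      by_contra hn
      push Not at hn
      exact h1 (h.inj (Units.ext (by rw [hN, show N = 0 from Matrix.ext hn]; simp)))
    refine h.nt t ⟨fun i => N i b, fun j => N a j / N a b, fun e => n (congrFun e a),
      fun e => one_ne_zero ((div_self n).symm.trans (congrFun e b)), ?_, ?_⟩
    · have := congrFun (congrFun NN a) b
      simp only [Matrix.mul_apply, Matrix.zero_apply] at this
      simp only [dotProduct, div_mul_eq_mul_div, ← Finset.sum_div, this, zero_div]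
    · rw [hN]
      congr 1
      ext i j
      rw [Matrix.vecMulVec_apply]
      field_simp
      linear_combination hn i j a b
  let C : Matrix (Fin 4) (Fin 4) K := (Matrix.of ![Nᵀ j, Nᵀ j', Pi.single j 1, Pi.single j' 1])ᵀ
  have NC : N * C = C * (blkE 1 0 0 1 - 1) := by
    ext a b
    have k : ∀ j, ∑ x, N a x * N x j = 0 := fun j => congrFun (congrFun NN a) j
    rw [Matrix.mul_apply, Matrix.mul_apply]
    fin_cases b <;> simp [C, k, Pi.single_apply] <;> simp [blkE, Fin.sum_univ_four]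
  have sol : ∀ x y : K, (∀ a, N a j * x + N a j' * y = 0) → x = 0 ∧ y = 0 := fun x y e =>
    ⟨(mul_eq_zero.1 (by linear_combination N i' j' * e i - N i j' * e i')).resolve_left m,
      (mul_eq_zero.1 (by linear_combination N i j * e i' - N i' j * e i)).resolve_left m⟩
  have hC : C.det ≠ 0 := fun e => by
    obtain ⟨x, x0, hx⟩ := Matrix.exists_mulVec_eq_zero_iff.2 e
    have k := congrArg (N *ᵥ ·) hx
    simp only [Matrix.mulVec_mulVec, NC, Matrix.mulVec_zero] at k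
    rw [← Matrix.mulVec_mulVec] at k
    obtain ⟨x2, x3⟩ := sol (x 2) (x 3) fun a => by
      simpa [C, blkE, Matrix.mulVec, dotProduct, Fin.sum_univ_four] using congrFun k a
    obtain ⟨x0', x1⟩ := sol (x 0) (x 1) fun a => by
      simpa [C, Matrix.mulVec, dotProduct, Fin.sum_univ_four, x2, x3] using congrFun hx a
    exact x0 (funext fun a => by fin_cases a <;> assumption)
  refine ⟨(Matrix.GeneralLinearGroup.mkOfDetNeZero C hC)⁻¹, ?_⟩
  rw [cjr_apply, inv_inv, mul_assoc, Units.val_mul, Units.inv_mul_eq_iff_eq_mul, Units.val_mul, hN, add_mul,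
    one_mul]
  change C + N * C = C * _
  rw [NC, mul_sub, mul_one, add_sub_cancel]

omit h in
/-- entries -/
theorem mem_iff {t : Y} {a b c d : K} (e : (ρ t).1 = blkE a b c d) (h0 : a * d ≠ b * c) {g : Y} :
    g ∈ En ρ t ↔ ∃ a b c d, (ρ g).1 = blkE a b c d := by
  rw [mem_En, e]
  refine ⟨fun ⟨h1, h2⟩ => ?_, ?_⟩
  · have hA : IsUnit !![a, b; c, d] := (Matrix.isUnit_iff_isUnit_det _).2 (by simpa [sub_eq_zero] using h0)
    have k : ∀ e f : Fin 2 → Fin 4, (blkE a b c d - 1).submatrix e f = (blkE a b c d).submatrix e f - (bd 1 1).submatrix e f :=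
      fun e f => by rw [bd_one]; rfl
    have e1 := congrArg (Matrix.submatrix · i0 i1) h1
    have e2 := congrArg (Matrix.submatrix · i1 i1) h1
    have e3 := congrArg (Matrix.submatrix · i0 i1) h2
    simp only [sub_mul', k, blkE_sub, bd_sub, sub_self, sub_zero, mul_zero, zero_mul, add_zero, zero_add] at e1 e2 e3
    exact ex_blkE (hA.mul_right_cancel (e1.trans (one_mul _).symm)) (hA.mul_right_cancel (e2.trans (zero_mul _).symm))
      (hA.mul_left_cancel (e3.trans (mul_one _).symm))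
  · rintro ⟨a', b', c', d', e⟩
    rw [e, mul_sub, sub_mul, mul_one, one_mul, sub_eq_sub_iff_add_eq_add, sub_eq_sub_iff_add_eq_add]
    constructor <;> ext i j <;> fin_cases i <;> fin_cases j <;>
      simp [blkE, add_comm]

theorem sq_eq (t e : Y) (h1 : t ≠ 1) (h2 : t ^ 2 = 1) (he : e ∈ En ρ t) : e ^ 2 = 1 := by
  obtain ⟨B, hB⟩ := h.exists_std h1 h2
  obtain ⟨a, b, c, d, k⟩ := (mem_iff hB (by simp)).1 ((En_cjr B ρ t).ge he)
  refine (h.cj B).inj (Units.ext ?_)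
  simp [sq, k, blkE_eq, ut4_mul, CharTwo.add_self_eq_zero, ut4_one]

/-- `exists_std`, `eq_one`, `mem_iff` -/
theorem eq_of (t e : Y) (h1 : t ≠ 1) (h2 : t ^ 2 = 1) (he : e ∈ En ρ t) (h3 : e ≠ 1) : En ρ e = En ρ t := by
  obtain ⟨B, hB⟩ := h.exists_std h1 h2
  obtain ⟨a, b, c, d, k⟩ := (mem_iff hB (by simp)).1 ((En_cjr B ρ t).ge he)
  rw [← En_cjr B, ← En_cjr B ρ t]
  exact Subgroup.ext fun g => (mem_iff k fun n => h3 ((h.cj B).eq_one k n)).trans (mem_iff hB (by simp)).symm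

theorem mem_norm {t s : Y} (h1 : t ≠ 1) (h2 : t ^ 2 = 1) :
    s ∈ Subgroup.normalizer (En ρ t : Set Y) ↔ s * t * s⁻¹ ∈ En ρ t := by
  refine ⟨fun n => (n t).1 (En_self h2), fun n e => ?_⟩
  have k := h.eq_of t _ h1 h2 n (by simpa using h1)
  exact ⟨fun m => k.le (En_conj t e s m), fun m => by simpa [mul_assoc] using En_conj _ _ s⁻¹ (k.ge m)⟩

omit h in
theorem ll_zero {t s : Y} (ht : (ρ t).1 = blkE 1 0 0 1) (hn : s * t * s⁻¹ ∈ En ρ t) :
    (ρ s).1.submatrix i1 i0 = 0 := by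
  obtain ⟨a, b, c, d, k⟩ := (mem_iff ht (by simp)).1 hn
  have : (ρ s).1 * (ρ t).1 = (ρ (s * t * s⁻¹)).1 * (ρ s).1 := by simp
  rw [ht, k] at this
  have := congrArg (Matrix.submatrix · i1 i1) this
  simpa [sub_mul', blkE_sub, ← Matrix.one_fin_two] using this

/-- **Adapted basis.**  Start from `exists_std`.  If `s t s⁻¹ ∈ En ρ t` then the lower left `2 × 2` block of `ρ s`
vanishes.  The two diagonal blocks give homomorphisms `S → GL₂(K)` with finite 2-groups as images; `exists_ut` for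
each, and `B` = the block diagonal matrix, which preserves the shape `blkE`. -/
theorem exists_blk [Finite Y] {t : Y} (h1 : t ≠ 1) (h2 : t ^ 2 = 1) {S : Subgroup Y} (hS : IsPGroup 2 S)
    (hn : ∀ s ∈ S, s * t * s⁻¹ ∈ En ρ t) : ∃ B, (∀ s ∈ S, Ut (cjr B ρ s)) ∧
      ∀ g, g ∈ En ρ t ↔ ∃ a b c d, (cjr B ρ g).1 = blkE a b c d := by
  obtain ⟨B, hB⟩ := h.exists_std h1 h2
  have ll : ∀ s : S, (((cjr B ρ).comp S.subtype) s).1.submatrix i1 i0 = 0 := fun s =>
    ll_zero (s := s.1) hB ((En_cjr B ρ t).ge (hn s s.2))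
  obtain ⟨X, hX⟩ := ex_ut hS (upH _ ll)
  obtain ⟨Z, hZ⟩ := ex_ut hS (dnH _ ll)
  refine ⟨bdG X Z * B, fun s hs => ?_, fun g => ?_⟩
  · rw [cjr_mul]
    have := ut_bdG (hX ⟨s, hs⟩) (hZ ⟨s, hs⟩)
    rwa [MonoidHom.comp_apply, Subgroup.coe_subtype] at this
  · obtain ⟨a, b, c, d, k⟩ : ∃ a b c d, (cjr (bdG X Z * B) ρ t).1 = blkE a b c d := by
      have k := bdG_sub X Z (cjr B ρ t)
      simp only [hB, blkE_sub, mul_one, mul_zero, zero_mul, Units.mul_inv] at k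
      rw [cjr_mul]
      exact ex_blkE k.1 k.2.2.1 k.2.2.2
    rw [← En_cjr (bdG X Z * B)]
    exact mem_iff k fun n => h1 ((h.cj _).eq_one k n)

/-- `exists_blk` for `zpowers x`: the entries `(0,1)` and `(2,3)` of the square of a unitriangular matrix vanish. -/
theorem sq_mem [Finite Y] (t x : Y) (h1 : t ≠ 1) (h2 : t ^ 2 = 1) (hx : ∃ n, x ^ 2 ^ n = 1)
    (hn : x * t * x⁻¹ ∈ En ρ t) : x ^ 2 ∈ En ρ t := by
  obtain ⟨B, u, k⟩ := h.exists_blk h1 h2 (S := Subgroup.zpowers x) (oe_pg hx) fun s hs =>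
    (h.mem_norm h1 h2).1 (Subgroup.zpowers_le.2 ((h.mem_norm h1 h2).2 hn) hs)
  obtain ⟨α, β, a, b, c, d, e⟩ := (u x (Subgroup.mem_zpowers x)).ex
  rw [k, sq, map_mul, Units.val_mul, e, ut4_mul, CharTwo.add_self_eq_zero, CharTwo.add_self_eq_zero]
  exact ⟨_, _, _, _, rfl⟩

/-- `S = closure {s, u}` is a 2-group: `D = En ρ t` is an elementary abelian group normalised by `s, u` (`eq_of`,
`En_conj`), and modulo `D` the 2-elements `s, u` commute (every element is `sⁱ uʲ e`).  In the basis of `exists_blk` let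
`t = blkE a b c d` and let `α, β` be the entries `(0,1)`, `(2,3)` of a unitriangular `x`; then
`⁅x, t⁆ = blkE (α c) (α d + β a + α β c) 0 (β c)`.  For `x = u` this is `1` and `(α, β) ≠ 0` (`u ∉ D`), so `c = 0`.
For `x = s` use `eq_one`. -/
theorem c2 [Finite Y] (t u s : Y) (h1 : t ≠ 1) (h2 : t ^ 2 = 1) (hu : u ^ 2 = 1) (hu' : u ∉ En ρ t)
    (c : Commute t u) (hs : ∃ n, s ^ 2 ^ n = 1) (hn : s * t * s⁻¹ ∈ En ρ t) (hc : ⁅s, u⁆ ∈ En ρ t) :
    Commute s t := by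
  have pD : IsPGroup 2 (En ρ t) := fun e => ⟨1, Subtype.ext (h.sq_eq t e h1 h2 e.2)⟩
  have ns := Subgroup.zpowers_le.2 ((h.mem_norm h1 h2).2 hn)
  have nu : u ∈ Subgroup.normalizer (En ρ t : Set Y) :=
    (h.mem_norm h1 h2).2 (by rw [← c.eq, mul_inv_cancel_right]; exact En_self h2)
  have nH : u ∈ Subgroup.normalizer ((Subgroup.zpowers s ⊔ En ρ t : Subgroup Y) : Set Y) :=
    Subgroup.mem_normalizer_fintype fun g hg => (show Subgroup.zpowers s ⊔ En ρ t ≤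
      (Subgroup.zpowers s ⊔ En ρ t).comap (MulAut.conj u).toMonoidHom from sup_le (Subgroup.zpowers_le.2 (by
        change u * s * u⁻¹ ∈ Subgroup.zpowers s ⊔ En ρ t
        rw [show u * s * u⁻¹ = ⁅s, u⁆⁻¹ * s by group]
        exact mul_mem (Subgroup.mem_sup_right (inv_mem hc)) (Subgroup.mem_sup_left (Subgroup.mem_zpowers s))))
        fun e he => Subgroup.mem_sup_right ((nu e).1 he)) hg
  obtain ⟨B, ut, k⟩ := h.exists_blk h1 h2 ((oe_pg ⟨1, hu⟩).to_sup_of_normal_right'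
    ((oe_pg hs).to_sup_of_normal_right' pD ns) (Subgroup.zpowers_le.2 nH)) fun g hg =>
      (h.mem_norm h1 h2).1 (sup_le (Subgroup.zpowers_le.2 nu) (sup_le ns Subgroup.le_normalizer) hg)
  obtain ⟨α, β, _, _, _, _, eu⟩ := (ut u (Subgroup.mem_sup_left (Subgroup.mem_zpowers u))).ex
  obtain ⟨α', β', _, _, _, _, es⟩ :=
    (ut s (Subgroup.mem_sup_right (Subgroup.mem_sup_left (Subgroup.mem_zpowers s)))).ex
  obtain ⟨a, b, c', d, et⟩ := (k t).1 (En_self h2)
  have e := comm_val eu et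
  rw [commutatorElement_eq_one_iff_commute.2 c.symm, map_one, Units.val_one, ← ut4_one, blkE_eq, ut4_inj] at e
  have c0 : c' = 0 := by
    by_contra n
    rw [(mul_eq_zero.1 e.2.2.1.symm).resolve_right n, (mul_eq_zero.1 e.2.2.2.2.2.symm).resolve_right n] at eu
    exact hu' ((k u).2 ⟨_, _, _, _, eu⟩)
  exact commutatorElement_eq_one_iff_commute.1 ((h.cj B).eq_one (comm_val es et) (by simp [c0]))

end Nt

end Cfsg.Lib.Q4
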