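import Cfsg.Agent.Lib.Q4.OE

/-!
# Characteristic two, no transvections: two local configurations
-/

set_option autoImplicit false
set_option linter.unusedSectionVars false

namespace Cfsg.Lib.Q4

open scoped MatrixGroups Matrix commutatorElement
open Cfsg.Geo Equiv
open Cfsg.Lib.Q4R (dg sc)

variable {K Y : Type*} [Field K] [Group Y] [CharP K 2] [Finite Y] {ρ : Y →* GL (Fin 4) K}

namespace Nt

variable (h : Nt ρ)
include h

omit h in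
theorem of_comm {t x : Y} (ht : (ρ t).1 = blkE 1 0 0 1) (c : Commute x t) :
    (ρ x).1.submatrix i1 i0 = 0 ∧ (ρ x).1.submatrix i1 i1 = (ρ x).1.submatrix i0 i0 := by
  have e : (ρ x).1 * (ρ t).1 = (ρ t).1 * (ρ x).1 := by rw [← Units.val_mul, ← Units.val_mul, ← map_mul, c.eq, map_mul]
  rw [ht] at e
  have e1 := congrArg (Matrix.submatrix · i1 i1) e
  have e2 := congrArg (Matrix.submatrix · i0 i1) e
  simp only [sub_mul', blkE_sub, ← Matrix.one_fin_two, mul_one, one_mul, zero_mul, zero_add] at e1 e2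
  exact ⟨by simpa using e1, add_left_cancel (e2.symm.trans (add_comm _ _))⟩

theorem u3_aux {t g : Y} {S : Subgroup Y} (ht : (ρ t).1 = blkE 1 0 0 1) (hU : ∀ s ∈ S, Ut (ρ s))
    (hc : ∀ s ∈ S, Commute s t) (g1 : g ≠ 1) (go : ∃ n, Odd n ∧ g ^ n = 1) (gt : Commute g t)
    (gn : ∀ s ∈ S, g * s * g⁻¹ ∈ S) (ge : ∀ e ∈ S, e ∈ En ρ t → Commute g e) :
    ∀ a ∈ S, ∀ b ∈ S, Commute a b := by
  have h2 : (2 : K) = 0 := CharTwo.two_eq_zero
  have sh : ∀ s ∈ S, ∃ α a b c d, (ρ s).1 = ut4 α α a b c d := fun s hs => by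
    obtain ⟨α, β, a, b, c, d, e⟩ := (hU s hs).ex
    have := congrFun (congrFun (of_comm ht (hc s hs)).2 0) 1
    rw [e] at this
    obtain rfl : β = α := this
    exact ⟨_, _, _, _, _, e⟩
  have vm : ∀ x y : Y, (ρ (x * y)).1 = (ρ x).1 * (ρ y).1 := fun x y => by rw [map_mul, Units.val_mul]
  by_cases h0 : ∀ s ∈ S, (ρ s).1 0 1 = 0
  · intro x hx y hy
    obtain ⟨α, a, b, c, d, ex⟩ := sh x hx
    obtain ⟨α', a', b', c', d', ey⟩ := sh y hy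
    obtain rfl : α = 0 := by simpa [ex, ut4] using h0 x hx
    obtain rfl : α' = 0 := by simpa [ey, ut4] using h0 y hy
    exact h.inj (Units.ext (by simp [ex, ey, ut4_mul, add_comm]))
  push Not at h0
  obtain ⟨s, hs, n⟩ := h0
  obtain ⟨α, a₀, b₀, c₀, d₀, es⟩ := sh s hs
  replace n : α ≠ 0 := by simpa [es, ut4] using n
  obtain ⟨μ, ν, κ, μ', p, q, r, w, eg⟩ : ∃ μ ν κ μ' p q r w,
      (ρ g).1 = !![μ, ν, p, q; κ, μ', r, w; 0, 0, μ, ν; 0, 0, κ, μ'] := by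
    obtain ⟨k1, k2⟩ := of_comm ht gt
    refine ⟨(ρ g).1 0 0, (ρ g).1 0 1, (ρ g).1 1 0, (ρ g).1 1 1, (ρ g).1 0 2, (ρ g).1 0 3, (ρ g).1 1 2, (ρ g).1 1 3,
      blk_ext ?_ ?_ (k1.trans ?_) (k2.trans ?_)⟩ <;> ext i j <;> fin_cases i <;> fin_cases j <;> rfl
  obtain rfl : κ = 0 := by
    obtain ⟨_, _, _, _, _, e⟩ := sh _ (gn s hs)
    have : (ρ g).1 * (ρ s).1 = (ρ (g * s * g⁻¹)).1 * (ρ g).1 := by simp
    rw [e, es, eg] at this
    simpa [ut4, n, Matrix.mul_apply, Fin.sum_univ_four] using congrFun (congrFun this 1) 1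
  have m1 : μ * μ' = 1 := by
    have := h.det g
    rw [eg, Matrix.det_of_isUpperTriangular (by
      intro i j ij
      fin_cases i <;> fin_cases j <;> first | rfl | exact absurd ij (by decide)), Fin.prod_univ_four] at this
    refine sub_eq_zero.1 (pow_eq_zero_iff two_ne_zero |>.1 ?_)
    simp only [Matrix.of_apply, Matrix.cons_val] at this
    linear_combination this + (1 - μ * μ') * h2
  have m2 : μ - μ' ≠ 0 := fun e => by
    obtain rfl := sub_eq_zero.1 e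
    obtain rfl : μ = 1 := sub_eq_zero.1 (pow_eq_zero_iff two_ne_zero |>.1 (by linear_combination m1 + (1 - μ) * h2))
    obtain ⟨n, o, hn⟩ := go
    have e4 : g ^ 2 ^ 2 = 1 := h.inj (Units.ext (by
      rw [show g ^ 2 ^ 2 = g * g * (g * g) by simp [pow_succ, mul_assoc], vm, vm, show (ρ g).1 = ut4 ν ν p q r w from eg]
      simp [ut4_mul, CharTwo.add_self_eq_zero, ut4_one]))
    have := pow_gcd_eq_one.2 ⟨hn, e4⟩
    rw [(Nat.coprime_two_right.2 o).pow_right 2, pow_one] at this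
    exact g1 this
  have z : ∀ e ∈ S, ∀ a b c d, (ρ e).1 = blkE a b c d → a = d ∧ b = 0 := fun e he a b c d ee => by
    have k : (ρ g).1 * (ρ e).1 = (ρ e).1 * (ρ g).1 := by
      rw [← vm, ← vm, (ge e he ((mem_iff ht (by simp)).2 ⟨_, _, _, _, ee⟩)).eq]
    rw [ee, eg] at k
    have k1 := congrFun (congrFun k 1) 2
    have k2 := congrFun (congrFun k 0) 3
    simp [blkE, Matrix.mul_apply, Fin.sum_univ_four] at k1 k2
    obtain rfl : c = 0 := (mul_eq_zero.1 (show (μ - μ') * c = 0 by linear_combination -k1)).resolve_left m2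
    have k3 := comm_val es ee
    rw [h.eq_one k3 (by simp), map_one, Units.val_one, ← ut4_one, blkE_eq, ut4_inj] at k3
    obtain rfl : a = d := sub_eq_zero.1 ((mul_eq_zero.1 (show α * (a - d) = 0 by
      linear_combination -k3.2.2.2.1 - α * d * h2)).resolve_left n)
    exact ⟨rfl, (mul_eq_zero.1 (show (μ - μ') * b = 0 by linear_combination k2)).resolve_left m2⟩
  have ad : ∀ x ∈ S, ∀ α a b c d, (ρ x).1 = ut4 α α a b c d → a = d := fun x hx α a b c d ex => by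
    by_cases a0 : α = 0
    · exact (z x hx a b c d (by rw [ex, a0]; rfl)).1
    have := (z _ (mul_mem hx hx) _ _ _ _ (by rw [vm, ex, ut4_mul, CharTwo.add_self_eq_zero]; rfl)).2
    exact sub_eq_zero.1 ((mul_eq_zero.1 (show α * (a - d) = 0 by
      linear_combination this - (b + α * d) * h2)).resolve_left a0)
  intro x hx y hy
  obtain ⟨α, a, b, c, d, ex⟩ := sh x hx
  obtain ⟨α', a', b', c', d', ey⟩ := sh y hy
  have k := ad _ (mul_mem hx hy) _ _ _ _ _ (by rw [vm, ex, ey, ut4_mul])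
  obtain rfl := ad x hx _ _ _ _ _ ex
  obtain rfl := ad y hy _ _ _ _ _ ey
  refine h.inj (Units.ext ?_)
  rw [vm, vm, ex, ey, ut4_mul, ut4_mul, ut4_inj]
  exact ⟨by ring, by ring, by linear_combination k, by ring, by ring, by linear_combination -k⟩

/-- Basis of `exists_std`: `t = [[1, I], [0, 1]]`, and the elements commuting with `t` are the `[[u, A], [0, u]]`.
`exists_ut` for the image of `s ↦ u` and the change of basis `diag(B, B)` make `u = 1 + α n`, `n = e₀₁`, for `s ∈ S`;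
write `A = [[a, b], [c, d]]`.  If `α = 0` on `S` then `S ≤ En ρ t` is abelian.  Let `α₀ ≠ 0` for `s₀ ∈ S`.
`g = [[k, *], [0, k]]`, and `k u₀ k⁻¹` unitriangular forces `k = [[μ, ν], [0, μ']]`; `det g = 1` gives `μ μ' = 1`.  If
`μ = μ'` then `μ = 1`, `g ^ 4 = 1`, `g = 1`.  So `μ ≠ μ'`.  For `e ∈ S` with `α = 0`: `A` commutes with `k`, so `c = 0`
and `b (μ + μ') = ν (a + d)`; `⁅s₀, e⁆ = blkE 0 (α₀ (a + d)) 0 0 = 1` (`eq_one`), so `a = d`, `b = 0`.  For any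
`s ∈ S`, `s²` has `α = 0` and `A = α [[c, a + d], [0, c]]`; so `a = d` for all `s ∈ S`.  For a product,
`a(s s') = a + a' + α c'`, `d(s s') = d + d' + α' c`, `b(s s') = b + b' + α d' + α' a`, `c(s s') = c + c'`.  So `α c' = α' c`
and `s s' = s' s`. -/
theorem u3 (t g : Y) (S : Subgroup Y) (h1 : t ≠ 1) (h2 : t ^ 2 = 1) (hS : IsPGroup 2 S)
    (hc : ∀ s ∈ S, Commute s t) (g1 : g ≠ 1) (go : ∃ n, Odd n ∧ g ^ n = 1) (gt : Commute g t)
    (gn : ∀ s ∈ S, g * s * g⁻¹ ∈ S) (ge : ∀ e ∈ S, e ∈ En ρ t → Commute g e) :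
    ∀ a ∈ S, ∀ b ∈ S, Commute a b := by
  obtain ⟨B, hB⟩ := h.exists_std h1 h2
  have ll : ∀ s : S, (((cjr B ρ).comp S.subtype) s).1.submatrix i1 i0 = 0 := fun s =>
    (of_comm (x := s.1) hB (hc s s.2)).1
  obtain ⟨X, hX⟩ := ex_ut hS (upH _ ll)
  refine (h.cj (bdG X X * B)).u3_aux ?_ (fun s hs => ?_) hc g1 go gt gn fun e he m => ge e he ((En_cjr _ ρ t).le m)
  · have k := bdG_sub X X (cjr B ρ t)
    simp only [hB, blkE_sub, ← Matrix.one_fin_two, mul_one, mul_zero, zero_mul, Units.mul_inv] at k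
    rw [cjr_mul]
    exact blk_ext (k.1.trans (blkE_sub ..).1.symm) (k.2.1.trans (Matrix.one_fin_two.trans (blkE_sub ..).2.1.symm))
      (k.2.2.1.trans (blkE_sub ..).2.2.1.symm) (k.2.2.2.trans (blkE_sub ..).2.2.2.symm)
  · have e : dnH _ ll ⟨s, hs⟩ = upH _ ll ⟨s, hs⟩ := Units.ext (by
      rw [dnH_val, upH_val, MonoidHom.comp_apply, Subgroup.coe_subtype]
      exact (of_comm hB (hc s hs)).2)
    have := ut_bdG (hX ⟨s, hs⟩) (e ▸ hX ⟨s, hs⟩)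
    rw [cjr_mul]
    rwa [MonoidHom.comp_apply, Subgroup.coe_subtype] at this

/-- Basis of `exists_blk`.  For `s ∈ S` with entries `α = (0,1)`, `β = (2,3)` and `e = blkE a b c d`:
`⁅s, e⁆ = blkE (α c) (α d + β a + α β c) 0 (β c)`.  `z = ⁅s₁, e₁⁆ ≠ 1` gives `α₁ c₁ ≠ 0 ≠ β₁ c₁` (`eq_one`).  For all
`s ∈ S`, `⁅s, z⁆ = 1` by `eq_one`, so `β = τ α` with `τ = β₁ / α₁ ≠ 0`.  With `q = c₂ / c₁ ≠ 0`, `mᵢ = dᵢ + τ aᵢ`: the
first equation gives `α(s₁) = q α(s₂)` and `q m₁ + m₂ = τ c₁ α(s₂) q (q + 1)`, the second the same with `r₁, r₂`.  If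
`α(s₂) = α(r₂)` then `⁅s₂, e₂⁆ = ⁅r₂, e₂⁆`, which is excluded.  So `q = 1`, `e₁ e₂` has `c = 0`, and
`⁅s₁, e₁ e₂⁆ = 1` by `eq_one`. -/
theorem l3 (t : Y) (S : Subgroup Y) (e₁ e₂ s₁ s₂ r₁ r₂ : Y) (h1 : t ≠ 1) (h2 : t ^ 2 = 1) (hS : IsPGroup 2 S)
    (hn : ∀ s ∈ S, s * t * s⁻¹ ∈ En ρ t) (k1 : e₁ ∈ En ρ t) (k2 : e₂ ∈ En ρ t) (k3 : s₁ ∈ S) (k4 : s₂ ∈ S)
    (k5 : r₁ ∈ S) (k6 : r₂ ∈ S) (l1 : ⁅s₁, e₁⁆ = ⁅s₂, e₂⁆) (l2 : ⁅r₁, e₁⁆ = ⁅r₂, e₂⁆) (l3 : ⁅s₁, e₁⁆ ≠ 1)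
    (l4 : ⁅r₁, e₁⁆ ≠ 1) (l5 : ⁅s₁, e₁⁆ ≠ ⁅r₁, e₁⁆) : Commute s₁ (e₁ * e₂) := by
  have t2 : (2 : K) = 0 := CharTwo.two_eq_zero
  obtain ⟨B, ut, k⟩ := h.exists_blk h1 h2 hS hn
  have h' := h.cj B
  obtain ⟨a₁, b₁, c₁, d₁, f₁⟩ := (k e₁).1 k1
  obtain ⟨a₂, b₂, c₂, d₂, f₂⟩ := (k e₂).1 k2
  obtain ⟨x₁, β₁, _, _, _, _, g₁⟩ := (ut s₁ k3).ex
  have z := comm_val g₁ f₁
  have n : x₁ * c₁ * (β₁ * c₁) ≠ 0 := fun e => l3 (h'.eq_one z (by simp [e]))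
  have x0 : x₁ ≠ 0 := left_ne_zero_of_mul (left_ne_zero_of_mul n)
  have c0 : c₁ ≠ 0 := right_ne_zero_of_mul (left_ne_zero_of_mul n)
  obtain ⟨τ, rfl⟩ : ∃ τ, β₁ = τ * x₁ := ⟨β₁ / x₁, (div_mul_cancel₀ _ x0).symm⟩
  have τ0 : τ ≠ 0 := left_ne_zero_of_mul (left_ne_zero_of_mul (right_ne_zero_of_mul n))
  have sh : ∀ s ∈ S, ∃ α a b c d, (cjr B ρ s).1 = ut4 α (τ * α) a b c d := fun s hs => by
    obtain ⟨α, β, a, b, c, d, e⟩ := (ut s hs).ex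
    have w := comm_val e z
    rw [h'.eq_one w (by simp), map_one, Units.val_one, ← ut4_one, blkE_eq, ut4_inj] at w
    obtain rfl : β = τ * α := sub_eq_zero.1 ((mul_eq_zero.1 (show x₁ * c₁ * (β - τ * α) = 0 by
      linear_combination -w.2.2.2.1 - α * τ * x₁ * c₁ * t2)).resolve_left (left_ne_zero_of_mul n))
    exact ⟨_, _, _, _, _, e⟩
  obtain ⟨x₂, _, _, _, _, g₂⟩ := sh s₂ k4
  obtain ⟨y₁, _, _, _, _, j₁⟩ := sh r₁ k5
  obtain ⟨y₂, _, _, _, _, j₂⟩ := sh r₂ k6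
  have z' := comm_val j₁ f₁
  have y0 : y₁ ≠ 0 := fun e => l4 (h'.eq_one z' (by simp [e]))
  have u := comm_val g₂ f₂
  have u' := comm_val j₂ f₂
  have ne : x₂ - y₂ ≠ 0 := fun e => l5 (l1.trans ((h'.inj (Units.ext (by
    rw [u, u', sub_eq_zero.1 e]))).trans l2.symm))
  rw [← l1, z, blkE_eq, blkE_eq, ut4_inj] at u
  rw [← l2, z', blkE_eq, blkE_eq, ut4_inj] at u'
  obtain ⟨q, rfl⟩ : ∃ q, c₂ = q * c₁ := ⟨c₂ / c₁, (div_mul_cancel₀ _ c0).symm⟩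
  obtain rfl : x₁ = q * x₂ := mul_right_cancel₀ c0 (by linear_combination u.2.2.1)
  obtain rfl : y₁ = q * y₂ := mul_right_cancel₀ c0 (by linear_combination u'.2.2.1)
  have p1 := mul_left_cancel₀ (right_ne_zero_of_mul x0) (show x₂ * (q * (d₁ + τ * a₁) + τ * q ^ 2 * x₂ * c₁) =
    x₂ * (d₂ + τ * a₂ + τ * q * x₂ * c₁) by linear_combination u.2.2.2.1)
  have p2 := mul_left_cancel₀ (right_ne_zero_of_mul y0) (show y₂ * (q * (d₁ + τ * a₁) + τ * q ^ 2 * y₂ * c₁) =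
    y₂ * (d₂ + τ * a₂ + τ * q * y₂ * c₁) by linear_combination u'.2.2.2.1)
  obtain rfl : q = 1 := sub_eq_zero.1 ((mul_eq_zero.1 (show τ * q * c₁ * (x₂ - y₂) * (q - 1) = 0 by
    linear_combination p1 - p2)).resolve_left
      (mul_ne_zero (mul_ne_zero (mul_ne_zero τ0 (left_ne_zero_of_mul x0)) c0) ne))
  have f : (cjr B ρ (e₁ * e₂)).1 = blkE (a₁ + a₂) (b₁ + b₂) 0 (d₁ + d₂) := by
    simp [f₁, f₂, blkE_eq, ut4_mul, CharTwo.add_self_eq_zero]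
  exact commutatorElement_eq_one_iff_commute.1 (h'.eq_one (comm_val g₁ f) (by simp))

end Nt

end Cfsg.Lib.Q4
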