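import Mathlib

/-!
# Abstract obstructions for `X = P / Z`, `P ≤ SL₄` without transvections

`Ob p X`: all characteristics `p`.  `Ev E`: characteristic two, `E t` is the group of the elements
acting trivially on `W = [V, t]` and on `V / W`.
-/

set_option autoImplicit false

namespace Cfsg.Lib.Q4

open scoped commutatorElement

/-- Obstructions in characteristic `p`. -/
structure Ob (p : ℕ) (X : Type*) [Group X] : Prop where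
  prime : p.Prime
  heis : ∀ (l : ℕ) (x y : X), l.Prime → l ≠ 2 → (∃ n, x ^ l ^ n = 1) → (∃ n, y ^ l ^ n = 1) →
    Commute x ⁅x, y⁆ → Commute y ⁅x, y⁆ → ⁅x, y⁆ ≠ 1 → l = 3 ∧ p ≠ 3 ∧ ¬ IsConj ⁅x, y⁆ ⁅x, y⁆⁻¹
  wt : ∀ (A : Set X) (n : ℕ) (h : X), (∀ a ∈ A, ∀ b ∈ A, Commute a b) → Odd n → ¬ p ∣ n →
    (∀ a ∈ A, a ^ n = 1) → (∀ a ∈ A, h * a * h⁻¹ ∈ A) →
    (∀ a ∈ A, Commute (h ^ 3) a) ∨ ∀ a ∈ A, Commute (h ^ 4) a
  rk : ∀ (l : ℕ) (A : Subgroup X), l.Prime → l ≠ 2 → l ≠ p → (∀ a ∈ A, ∀ b ∈ A, Commute a b) →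
    (∀ a ∈ A, a ^ l = 1) → Nat.card A ≤ l ^ 3
  o9 : ∀ a b : X, a ^ 3 = 1 → b ^ 3 = 1 → Commute a b → a ≠ 1 → IsConj a a⁻¹ → IsConj a b →
    IsConj a (a * b) → IsConj a (a * b⁻¹) → p = 3
  e8 : p ≠ 2 → ∀ a h : X, a ≠ 1 → a ^ 2 = 1 → (∀ i : ℕ, Commute a (h ^ i * a * (h ^ i)⁻¹)) →
    h ^ 3 * a * (h ^ 3)⁻¹ ≠ a * (h * a * h⁻¹)
  e16 : p ≠ 2 → ∀ a h : X, a ≠ 1 → a ^ 2 = 1 → (∀ i : ℕ, Commute a (h ^ i * a * (h ^ i)⁻¹)) →
    h ^ 4 * a * (h ^ 4)⁻¹ ≠ a * (h * a * h⁻¹)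
  ab : p ≠ 2 → ∀ (l : ℕ) (Q : Subgroup X) (h : X), l.Prime → 5 ≤ l → IsPGroup 2 Q → h ^ l = 1 →
    (∀ a ∈ Q, h * a * h⁻¹ ∈ Q) → (∃ a ∈ Q, ¬ Commute h a) →
    ∃ A ≤ Q, (∀ a ∈ A, ∀ b ∈ A, Commute a b) ∧ (∀ a ∈ A, h * a * h⁻¹ ∈ A) ∧ ∃ a ∈ A, ¬ Commute h a

/-- Obstructions in characteristic two. -/
structure Ev {X : Type*} [Group X] (E : X → Subgroup X) : Prop where
  self : ∀ t, t ^ 2 = 1 → t ∈ E t
  sq_eq : ∀ t e, t ≠ 1 → t ^ 2 = 1 → e ∈ E t → e ^ 2 = 1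
  eq_of : ∀ t e, t ≠ 1 → t ^ 2 = 1 → e ∈ E t → e ≠ 1 → E e = E t
  conj : ∀ t e g, e ∈ E t → g * e * g⁻¹ ∈ E (g * t * g⁻¹)
  sq_mem : ∀ t x, t ≠ 1 → t ^ 2 = 1 → (∃ n, x ^ 2 ^ n = 1) → x * t * x⁻¹ ∈ E t → x ^ 2 ∈ E t
  c2 : ∀ t u s, t ≠ 1 → t ^ 2 = 1 → u ^ 2 = 1 → u ∉ E t → Commute t u → (∃ n, s ^ 2 ^ n = 1) →
    s * t * s⁻¹ ∈ E t → ⁅s, u⁆ ∈ E t → Commute s t
  u3 : ∀ t h (S : Subgroup X), t ≠ 1 → t ^ 2 = 1 → IsPGroup 2 S → (∀ s ∈ S, Commute s t) → h ≠ 1 →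
    (∃ n, Odd n ∧ h ^ n = 1) → Commute h t → (∀ s ∈ S, h * s * h⁻¹ ∈ S) →
    (∀ e ∈ S, e ∈ E t → Commute h e) → ∀ a ∈ S, ∀ b ∈ S, Commute a b
  l3 : ∀ t (S : Subgroup X) e₁ e₂ s₁ s₂ r₁ r₂, t ≠ 1 → t ^ 2 = 1 → IsPGroup 2 S →
    (∀ s ∈ S, s * t * s⁻¹ ∈ E t) → e₁ ∈ E t → e₂ ∈ E t → s₁ ∈ S → s₂ ∈ S → r₁ ∈ S → r₂ ∈ S →
    ⁅s₁, e₁⁆ = ⁅s₂, e₂⁆ → ⁅r₁, e₁⁆ = ⁅r₂, e₂⁆ → ⁅s₁, e₁⁆ ≠ 1 → ⁅r₁, e₁⁆ ≠ 1 → ⁅s₁, e₁⁆ ≠ ⁅r₁, e₁⁆ →
    Commute s₁ (e₁ * e₂)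

variable {X Y : Type*} [Group X] [Group Y] {p : ℕ}

theorem comm_of_inj {f : Y →* X} (hf : Function.Injective f) {a b : Y} :
    Commute (f a) (f b) ↔ Commute a b :=
  ⟨fun h => hf (by rw [map_mul, map_mul, h.eq]), fun h => h.map f⟩

/-- The obstructions pass to subgroups. -/
theorem Ob.of_inj (h : Ob p X) (f : Y →* X) (hf : Function.Injective f) : Ob p Y where
  prime := h.prime
  heis l x y h1 h2 := fun ⟨n, hn⟩ ⟨m, hm⟩ c1 c2 c3 => by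
    have := h.heis l (f x) (f y) h1 h2 ⟨n, by rw [← map_pow, hn, map_one]⟩
      ⟨m, by rw [← map_pow, hm, map_one]⟩ (by simpa [← map_commutatorElement] using c1.map f)
      (by simpa [← map_commutatorElement] using c2.map f)
      (by rw [← map_commutatorElement]; exact (map_ne_one_iff f hf).2 c3)
    refine ⟨this.1, this.2.1, fun k => this.2.2 ?_⟩
    rw [← map_commutatorElement, ← map_inv]
    exact f.map_isConj k
  wt A n g h1 h2 h3 h4 h5 := by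
    have := h.wt (f '' A) n (f g) (by rintro _ ⟨a, ha, rfl⟩ _ ⟨b, hb, rfl⟩; exact (h1 a ha b hb).map f) h2 h3
      (by rintro _ ⟨a, ha, rfl⟩; rw [← map_pow, h4 a ha, map_one])
      (by rintro _ ⟨a, ha, rfl⟩; exact ⟨_, h5 a ha, by simp⟩)
    exact this.imp (fun k a ha => (comm_of_inj hf).1 (map_pow f g 3 ▸ k _ ⟨a, ha, rfl⟩))
      fun k a ha => (comm_of_inj hf).1 (map_pow f g 4 ▸ k _ ⟨a, ha, rfl⟩)
  rk l A h1 h2 h3 h4 h5 := by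
    rw [Nat.card_congr (A.equivMapOfInjective f hf).toEquiv]
    exact h.rk l _ h1 h2 h3 (by rintro _ ⟨a, ha, rfl⟩ _ ⟨b, hb, rfl⟩; exact (h4 a ha b hb).map f)
      (by rintro _ ⟨a, ha, rfl⟩; rw [← map_pow, h5 a ha, map_one])
  o9 a b h1 h2 h3 h4 h5 h6 h7 h8 := h.o9 (f a) (f b) (by rw [← map_pow, h1, map_one])
    (by rw [← map_pow, h2, map_one]) (h3.map f) ((map_ne_one_iff f hf).2 h4)
    (by simpa using f.map_isConj h5) (f.map_isConj h6) (by simpa using f.map_isConj h7)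
    (by simpa using f.map_isConj h8)
  e8 h2 a g h1 h3 h4 e := h.e8 h2 (f a) (f g) ((map_ne_one_iff f hf).2 h1)
    (by rw [← map_pow, h3, map_one]) (fun i => by simpa using (h4 i).map f) (by simpa using congrArg f e)
  e16 h2 a g h1 h3 h4 e := h.e16 h2 (f a) (f g) ((map_ne_one_iff f hf).2 h1)
    (by rw [← map_pow, h3, map_one]) (fun i => by simpa using (h4 i).map f) (by simpa using congrArg f e)
  ab h2 l Q g h1 h3 h4 h5 h6 := fun ⟨a, ha, na⟩ => by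
    obtain ⟨A, l1, l2, l3, _, hb, l4⟩ := h.ab h2 l (Q.map f) (f g) h1 h3 (h4.map f)
      (by rw [← map_pow, h5, map_one]) (by rintro _ ⟨a, ha, rfl⟩; exact ⟨_, h6 a ha, by simp⟩)
      ⟨f a, ⟨a, ha, rfl⟩, fun k => na ((comm_of_inj hf).1 k)⟩
    obtain ⟨b, -, rfl⟩ := l1 hb
    refine ⟨A.comap f, fun x hx => ?_, fun x hx y hy => (comm_of_inj hf).1 (l2 _ hx _ hy),
      fun x hx => by simpa using l3 _ hx, b, hb, fun k => l4 (k.map f)⟩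
    obtain ⟨y, hy, e⟩ := l1 hx
    exact hf e ▸ hy

theorem Ob.equiv (h : Ob p X) (e : X ≃* Y) : Ob p Y := h.of_inj e.symm.toMonoidHom e.symm.injective

theorem Ob.sub (h : Ob p X) (H : Subgroup X) : Ob p H := h.of_inj H.subtype H.subtype_injective

theorem Ev.of_inj {E : X → Subgroup X} (h : Ev E) (f : Y →* X) (hf : Function.Injective f) :
    Ev fun t => (E (f t)).comap f := by
  have n : ∀ {t : Y}, t ≠ 1 → f t ≠ 1 := fun k => (map_ne_one_iff f hf).2 k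
  have s : ∀ {t : Y} {n : ℕ}, t ^ n = 1 → f t ^ n = 1 := fun k => by rw [← map_pow, k, map_one]
  refine ⟨fun t k => h.self _ (s k), fun t e a b c => hf ?_, fun t e a b c d => ?_, fun t e g a => ?_,
    fun t x a b ⟨m, c⟩ d => ?_, fun t u x a b c d e ⟨m, k⟩ g1 g2 => ?_,
    fun t g S a b c d e ⟨m, o, k⟩ g1 g2 g3 x hx y hy => ?_,
    fun t S e₁ e₂ s₁ s₂ r₁ r₂ a b c d k1 k2 k3 k4 k5 k6 l1 l2 l3 l4 l5 => ?_⟩
  · rw [map_pow, map_one]; exact h.sq_eq _ _ (n a) (s b) c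
  · simp only [h.eq_of _ _ (n a) (s b) c (n d)]
  · simpa using h.conj _ _ (f g) a
  · simpa using h.sq_mem _ (f x) (n a) (s b) ⟨m, s c⟩ (by simpa using d)
  · exact (comm_of_inj hf).1 (h.c2 _ (f u) _ (n a) (s b) (s c) d (e.map f) ⟨m, s k⟩ (by simpa using g1)
      (by rw [← map_commutatorElement]; exact g2))
  · exact (comm_of_inj hf).1 (h.u3 (f t) (f g) (S.map f) (n a) (s b) (c.map f)
      (by rintro _ ⟨z, hz, rfl⟩; exact (d z hz).map f) (n e) ⟨m, o, s k⟩ (g1.map f)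
      (by rintro _ ⟨z, hz, rfl⟩; exact ⟨_, g2 z hz, by simp⟩)
      (by rintro _ ⟨z, hz, rfl⟩ w; exact (g3 z hz w).map f) _ ⟨x, hx, rfl⟩ _ ⟨y, hy, rfl⟩)
  · refine (comm_of_inj hf).1 ?_
    rw [map_mul]
    refine h.l3 (f t) (S.map f) _ _ _ (f s₂) (f r₁) (f r₂) (n a) (s b) (c.map f)
      (by rintro _ ⟨z, hz, rfl⟩; simpa using d z hz) k1 k2 ⟨_, k3, rfl⟩ ⟨_, k4, rfl⟩ ⟨_, k5, rfl⟩
      ⟨_, k6, rfl⟩ ?_ ?_ ?_ ?_ ?_ <;> simp only [← map_commutatorElement]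
    exacts [congrArg f l1, congrArg f l2, n l3, n l4, fun e => l5 (hf e)]

/-- `X` carries a family `E` as in `Ev`. -/
def HasEv (X : Type*) [Group X] : Prop := ∃ E : X → Subgroup X, Ev E

theorem HasEv.of_inj (h : HasEv X) (f : Y →* X) (hf : Function.Injective f) : HasEv Y :=
  ⟨_, h.choose_spec.of_inj f hf⟩

theorem HasEv.equiv (h : HasEv X) (e : X ≃* Y) : HasEv Y := h.of_inj e.symm.toMonoidHom e.symm.injective

namespace Ev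

variable {E : X → Subgroup X} (h : Ev E)
include h

theorem comm {t a b : X} (h1 : t ≠ 1) (h2 : t ^ 2 = 1) (ha : a ∈ E t) (hb : b ∈ E t) : Commute a b := by
  have i : ∀ e ∈ E t, e⁻¹ = e := fun e he =>
    inv_eq_of_mul_eq_one_right (by rw [← sq, h.sq_eq t e h1 h2 he])
  have := i _ (mul_mem ha hb)
  rw [mul_inv_rev, i a ha, i b hb] at this
  exact this.symm

/-- the square of a 2-element commuting with the involution `t` is equivalent to `t` -/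
theorem eq_sq {t x : X} (h1 : t ≠ 1) (h2 : t ^ 2 = 1) (hx : x ^ 4 = 1) (hx' : x ^ 2 ≠ 1) (c : Commute x t) :
    E (x ^ 2) = E t :=
  h.eq_of t _ h1 h2 (h.sq_mem t x h1 h2 ⟨2, hx⟩ (by rw [c.eq, mul_inv_cancel_right]; exact h.self t h2)) hx'

/-- equivalent involutions commute -/
theorem comm_of_eq {t u : X} (h1 : t ≠ 1) (h2 : t ^ 2 = 1) (hu : u ^ 2 = 1) (e : E u = E t) : Commute t u :=
  h.comm h1 h2 (h.self t h2) (e ▸ h.self u hu)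

theorem mem_conj {t e g : X} : g * e * g⁻¹ ∈ E (g * t * g⁻¹) ↔ e ∈ E t :=
  ⟨fun k => by simpa [mul_assoc] using h.conj _ _ g⁻¹ k, h.conj t e g⟩

theorem eq_conj {t u : X} (e : E t = E u) (g : X) : E (g * t * g⁻¹) = E (g * u * g⁻¹) := by
  ext x
  rw [show x = g * (g⁻¹ * x * g) * g⁻¹ by group, h.mem_conj, h.mem_conj, e]

end Ev

namespace Ob

variable (h : Ob p X)
include h

/-- a real Heisenberg centre is impossible -/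
theorem not_heis {l : ℕ} (hl : l.Prime) (h2 : l ≠ 2) {x y s : X} (hx : ∃ n, x ^ l ^ n = 1)
    (hy : ∃ n, y ^ l ^ n = 1) (c1 : Commute x ⁅x, y⁆) (c2 : Commute y ⁅x, y⁆) (h1 : ⁅x, y⁆ ≠ 1)
    (hs : s * ⁅x, y⁆ * s⁻¹ = ⁅x, y⁆⁻¹) : False :=
  (h.heis l x y hl h2 hx hy c1 c2 h1).2.2 (isConj_iff.2 ⟨s, hs⟩)

/-- an element of odd prime order `l ≠ p` conjugate to its `k`-th power -/
theorem wtc {l k : ℕ} (hl : l.Prime) (h2 : l ≠ 2) (hp : l ≠ p) {a s : X} (ha : a ^ l = 1) (h1 : a ≠ 1)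
    (e : s * a * s⁻¹ = a ^ k) : k ^ 3 % l = 1 ∨ k ^ 4 % l = 1 := by
  have := Fact.mk hl
  have o := orderOf_eq_prime ha h1
  have it : ∀ m : ℕ, s ^ m * a * (s ^ m)⁻¹ = a ^ k ^ m := fun m => by
    induction m with
    | zero => simp
    | succ m ih => rw [pow_succ', mul_inv_rev, pow_succ' k, pow_mul, ← e, conj_pow, ← ih]; group
  have fin : ∀ m : ℕ, Commute (s ^ m) a → k ^ m % l = 1 := fun m c => by
    have e1 : a ^ k ^ m = a ^ 1 := by rw [← it, c.eq]; simp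
    have := pow_eq_pow_iff_modEq.1 e1
    rwa [o, Nat.ModEq, Nat.mod_eq_of_lt hl.one_lt] at this
  refine (h.wt (Subgroup.zpowers a) l s ?_ (hl.odd_of_ne_two h2)
    (fun d => hp ((Nat.prime_dvd_prime_iff_eq h.prime hl).1 d).symm) ?_ ?_).imp
    (fun c => fin 3 (c a (Subgroup.mem_zpowers a))) fun c => fin 4 (c a (Subgroup.mem_zpowers a))
  · rintro _ ⟨i, rfl⟩ _ ⟨j, rfl⟩; exact (Commute.refl a).zpow_zpow i j
  · rintro _ ⟨i, rfl⟩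
    simp only
    rw [← zpow_natCast, ← zpow_mul, mul_comm, zpow_mul, zpow_natCast, ha, one_zpow]
  · rintro _ ⟨i, rfl⟩
    simp only
    rw [← conj_zpow, e]
    exact Subgroup.zpow_mem _ (Subgroup.pow_mem _ (Subgroup.mem_zpowers a) k) i

end Ob

end Cfsg.Lib.Q4
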