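import Cfsg.Agent.Lib.Q4.Ob

/-!
# Consequences of the obstructions (pure group theory)
-/

set_option autoImplicit false

namespace Cfsg.Lib.Q4.Ob

open scoped commutatorElement

variable {X : Type*} [Group X] [Finite X] {p : ℕ} (h : Ob p X)
include h

/-- A non-abelian finite `l`-group `S` has `x ∈ Z₂(S) \ Z(S)`; pick `y ∈ S` not commuting with `x`.  Then
`⁅x, y⁆ ∈ Z(S)` and `heis` gives `l = 3 ≠ p`. -/
theorem comm {l : ℕ} (hl : l.Prime) (h5 : 5 ≤ l ∨ (l = p ∧ l ≠ 2)) {S : Subgroup X} (hS : IsPGroup l S) :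
    ∀ a ∈ S, ∀ b ∈ S, Commute a b := by
  haveI := Fact.mk hl
  by_contra hn
  push Not at hn
  obtain ⟨a, ha, b, hb, n⟩ := hn
  haveI : Nontrivial (S ⧸ Subgroup.center S) := QuotientGroup.nontrivial_iff.2 fun e => n (by
    have : (⟨b, hb⟩ : S) ∈ Subgroup.center S := e ▸ Subgroup.mem_top _
    exact congrArg Subtype.val (Subgroup.mem_center_iff.1 this ⟨a, ha⟩))
  haveI := (hS.to_quotient (Subgroup.center S)).center_nontrivial
  obtain ⟨⟨x, hx⟩, x1⟩ := exists_ne (1 : Subgroup.center (S ⧸ Subgroup.center S))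
  obtain ⟨x, rfl⟩ := QuotientGroup.mk_surjective x
  obtain ⟨y, hy⟩ : ∃ y : S, ⁅x, y⁆ ≠ 1 := by
    by_contra k
    push Not at k
    exact x1 (Subtype.ext ((QuotientGroup.eq_one_iff x).2 (Subgroup.mem_center_iff.2 fun y =>
      (commutatorElement_eq_one_iff_mul_comm.1 (k y)).symm)))
  have hz : ⁅x, y⁆ ∈ Subgroup.center S := by
    rw [← QuotientGroup.eq_one_iff, ← QuotientGroup.mk'_apply, map_commutatorElement,
      commutatorElement_eq_one_iff_mul_comm]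
    exact (Subgroup.mem_center_iff.1 hx _).symm
  have := (h.sub S).heis l x y hl (by omega) (hS x) (hS y) (Subgroup.mem_center_iff.1 hz x)
    (Subgroup.mem_center_iff.1 hz y) hy
  omega

/-- `ab`, then pass to `Ω₁(A)`: put `φ a = g a g⁻¹ a⁻¹` (an endomorphism of `A`) and take `a ∈ A` of least order with
`φ a ≠ 1`.  Then `φ (a²) = 1`, so `φ a` is an involution.  If `g` centralised it, `gᵏ a g⁻ᵏ = (φ a)ᵏ a`, and
`k = l` gives `φ a = 1`.  So `b = φ a` is the required involution. -/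
theorem ab' (h2 : p ≠ 2) {l : ℕ} (hl : l.Prime) (h5 : 5 ≤ l) {Q : Subgroup X} (hQ : IsPGroup 2 Q) {g : X}
    (hg : g ^ l = 1) (hn : ∀ a ∈ Q, g * a * g⁻¹ ∈ Q) (hc : ∃ a ∈ Q, ¬ Commute g a) :
    ∃ A ≤ Q, (∀ a ∈ A, ∀ b ∈ A, Commute a b) ∧ (∀ a ∈ A, g * a * g⁻¹ ∈ A) ∧
      ∃ b ∈ A, b ^ 2 = 1 ∧ ¬ Commute g b := by
  obtain ⟨A, l1, l2, l3, a, ha, na⟩ := h.ab h2 l Q g hl h5 hQ hg hn hc
  refine ⟨A, l1, l2, l3, ?_⟩
  obtain ⟨n, e⟩ : ∃ n, a ^ 2 ^ n = 1 := by
    obtain ⟨n, e⟩ := hQ ⟨a, l1 ha⟩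
    exact ⟨n, congrArg Subtype.val e⟩
  induction n generalizing a with
  | zero => exact absurd (by rw [show a = 1 by simpa using e]; exact Commute.one_right g) na
  | succ n ih =>
    by_cases c : Commute g (a ^ 2)
    swap
    · exact ih _ (pow_mem ha 2) c (by rwa [← pow_mul, ← pow_succ'])
    have b2 : (g * a * g⁻¹ * a⁻¹) ^ 2 = 1 := by
      rw [(l2 _ (l3 a ha) _ (inv_mem ha)).mul_pow, conj_pow, c.eq, mul_inv_cancel_right, inv_pow,
        mul_inv_cancel]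
    refine ⟨_, mul_mem (l3 a ha) (inv_mem ha), b2, fun k => na ?_⟩
    generalize hb : g * a * g⁻¹ * a⁻¹ = b at k b2
    have it : ∀ m : ℕ, g ^ m * a * (g ^ m)⁻¹ = b ^ m * a := fun m => by
      induction m with
      | zero => simp
      | succ m ih =>
        rw [show g ^ (m + 1) * a * (g ^ (m + 1))⁻¹ = g * (g ^ m * a * (g ^ m)⁻¹) * g⁻¹ by group, ih,
          ← mul_assoc, (k.pow_right m).eq, pow_succ, ← hb]
        group
    have t := it l
    rw [hg, one_mul, inv_one, mul_one, eq_comm, mul_eq_right] at t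
    have := pow_gcd_eq_one.2 ⟨t, b2⟩
    rw [(Nat.coprime_primes hl Nat.prime_two).2 (by omega), pow_one, ← hb] at this
    exact mul_inv_eq_iff_eq_mul.1 (mul_inv_eq_one.1 this)

/-- **An element of order seven normalising a 2-subgroup centralises it.**  Take `b` from `ab'`, write `A` additively
with `T` = conjugation by `g`; over `𝔽₂`, `T⁷ + 1 = (T + 1)(T³ + T + 1)(T³ + T² + 1)`.  Put `c = (T + 1) b ≠ 0` and
`d = (T³ + T² + 1) c`.  If `d ≠ 0`, `e8` for `(d, g)` fails; if `d = 0`, `e8` for `(c, g⁻¹)` fails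
(`g⁻¹ = g⁶`). -/
theorem o7 (h2 : p ≠ 2) {Q : Subgroup X} (hQ : IsPGroup 2 Q) {g : X} (hg : g ^ 7 = 1)
    (hn : ∀ a ∈ Q, g * a * g⁻¹ ∈ Q) : ∀ a ∈ Q, Commute g a := by
  by_contra hc
  push Not at hc
  obtain ⟨A, -, l2, l3, b, hb, b2, nb⟩ := h.ab' h2 (by decide) (by decide) hQ hg hn hc
  have mem : ∀ i : ℕ, ∀ a ∈ A, g ^ i * a * (g ^ i)⁻¹ ∈ A := fun i a ha => by
    induction i with
    | zero => simpa using ha
    | succ i ih =>
      rw [show g ^ (i + 1) * a * (g ^ (i + 1))⁻¹ = g * (g ^ i * a * (g ^ i)⁻¹) * g⁻¹ by group]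
      exact l3 _ ih
  letI : CommGroup A := { (inferInstance : Group A) with mul_comm := fun a b => Subtype.ext (l2 a a.2 b b.2) }
  let x : ℕ → A := fun i => ⟨_, mem i b hb⟩
  have cx : ∀ j i, g ^ j * (x i).1 * (g ^ j)⁻¹ = x (j + i) := fun j i => by simp only [x]; group
  have sq : ∀ i, x i * x i = 1 := fun i => Subtype.ext (by
    show _ * b * _ * (_ * b * _) = 1
    rw [conj_mul, ← pow_two, b2, mul_one, mul_inv_cancel])
  have per : ∀ i, x (7 + i) = x i := fun i => Subtype.ext (by rw [← cx, hg]; simp)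
  have sq' : ∀ a b : A, a * a = 1 → b * b = 1 → a * b * (a * b) = 1 := fun a b e e' => by
    rw [mul_mul_mul_comm, e, e', one_mul]
  by_cases d : x 4 * x 2 * x 1 * x 0 = 1
  · refine h.e8 h2 (x 1 * x 0 : A) (g ^ 6) (fun e => nb ?_)
      ((pow_two _).trans (congrArg Subtype.val (sq' _ _ (sq 1) (sq 0))))
      (fun i => l2 _ (Subtype.prop _) _ (by rw [← pow_mul]; exact mem _ _ (Subtype.prop _))) ?_
    · have : (x 1).1 = x 0 := congrArg Subtype.val (mul_right_cancel ((Subtype.ext e).trans (sq 0).symm))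
      exact mul_inv_eq_iff_eq_mul.1 (by simpa [x] using this)
    · have d4 : x 8 * x 6 * x 5 * x 4 = 1 := Subtype.ext (by
        have := congrArg (fun a : A => g ^ 4 * a.1 * (g ^ 4)⁻¹) d
        simpa only [Subgroup.coe_mul, ← conj_mul, cx, OneMemClass.coe_one, mul_one, mul_inv_cancel] using this)
      rw [← pow_mul]
      simp only [Subgroup.coe_mul, ← conj_mul, cx]
      refine congrArg Subtype.val (show x 19 * x 18 = x 1 * x 0 * (x 7 * x 6) from ?_)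
      rw [per 12, per 11, per 5, per 4, per 0]
      rw [per 1] at d4
      calc x 5 * x 4 = x 5 * x 4 * (x 1 * x 1) * (x 6 * x 6) * (x 0 * x 0) := by simp only [sq, mul_one]
        _ = x 1 * x 6 * x 5 * x 4 * (x 1 * x 0 * (x 0 * x 6)) := by ac_rfl
        _ = _ := by rw [d4, one_mul]
  · refine h.e8 h2 (x 4 * x 2 * x 1 * x 0 : A) g (fun e => d (Subtype.ext e))
      ((pow_two _).trans (congrArg Subtype.val (sq' _ _ (sq' _ _ (sq' _ _ (sq 4) (sq 2)) (sq 1)) (sq 0))))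
      (fun i => l2 _ (Subtype.prop _) _ (mem _ _ (Subtype.prop _))) ?_
    have c1 := cx 1
    rw [pow_one] at c1
    simp only [Subgroup.coe_mul, ← conj_mul, cx, c1]
    refine congrArg Subtype.val
      (show x 7 * x 5 * x 4 * x 3 = x 4 * x 2 * x 1 * x 0 * (x 5 * x 3 * x 2 * x 1) from ?_)
    rw [per 0]
    calc x 0 * x 5 * x 4 * x 3 = x 0 * x 5 * x 4 * x 3 * (x 1 * x 1) * (x 2 * x 2) := by simp only [sq, mul_one]
      _ = _ := by ac_rfl

/-- immediate from `ab'` -/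
theorem o5a (h2 : p ≠ 2) {Q : Subgroup X} (hQ : IsPGroup 2 Q) {g : X} (hg : g ^ 5 = 1)
    (hn : ∀ a ∈ Q, g * a * g⁻¹ ∈ Q) (hc : ∀ a ∈ Q, a ^ 2 = 1 → Commute g a) : ∀ a ∈ Q, Commute g a := by
  by_contra k
  push Not at k
  obtain ⟨A, l1, -, -, b, hb, b2, nb⟩ := h.ab' h2 (by decide) le_rfl hQ hg hn k
  exact nb (hc b (l1 hb) b2)

/-- `ab` gives `A`; `|A| ≡ |C_A(g)| mod 5` (`IsPGroup.card_modEq_card_fixedPoints` for `zpowers g`), and `1, 2, 4, 8`
are distinct modulo `5`. -/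
theorem o5b (h2 : p ≠ 2) {Q : Subgroup X} (hQ : IsPGroup 2 Q) {g : X} (hg : g ^ 5 = 1)
    (hn : ∀ a ∈ Q, g * a * g⁻¹ ∈ Q)
    (hc : ∀ A ≤ Q, (∀ a ∈ A, ∀ b ∈ A, Commute a b) → Nat.card A ≤ 8) : ∀ a ∈ Q, Commute g a := by
  by_contra k
  push Not at k
  obtain ⟨A, l1, l2, l3, a, ha, na⟩ := h.ab h2 5 Q g (by decide) le_rfl hQ hg hn k
  haveI : Fact (Nat.Prime 5) := ⟨by decide⟩
  let t : Subgroup.normalizer (A : Set X) := ⟨g, Subgroup.mem_normalizer_fintype l3⟩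
  have ht : IsPGroup 5 (Subgroup.zpowers t) := IsPGroup.of_card_dvd_pow (n := 1) (by
    rw [Nat.card_zpowers, pow_one]
    exact orderOf_dvd_of_pow_eq_one (Subtype.ext hg))
  have e : Nat.card A ≡ Nat.card (FixedPoints.subgroup (Subgroup.zpowers t) A) [MOD 5] :=
    ht.card_modEq_card_fixedPoints A
  have d := (FixedPoints.subgroup (Subgroup.zpowers t) A).card_subgroup_dvd_card
  obtain ⟨n, hn⟩ := IsPGroup.iff_card.1 (hQ.to_le l1)
  have h8 := hc A l1 l2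
  have top : FixedPoints.subgroup (Subgroup.zpowers t) A = ⊤ := Subgroup.eq_top_of_card_eq _ (by
    rw [hn] at e d h8 ⊢
    obtain ⟨m, hm, em⟩ := (Nat.dvd_prime_pow Nat.prime_two).1 d
    rw [em] at e ⊢
    have : n ≤ 3 := (Nat.pow_le_pow_iff_right (by decide : 1 < 2)).1 h8
    interval_cases n <;> interval_cases m <;> first | rfl | exact absurd e (by decide))
  have : (⟨a, ha⟩ : A) ∈ FixedPoints.subgroup (Subgroup.zpowers t) A := top ▸ Subgroup.mem_top _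
  exact na (mul_inv_eq_iff_eq_mul.1 (congrArg Subtype.val (this ⟨t, Subgroup.mem_zpowers t⟩)))

end Cfsg.Lib.Q4.Ob
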