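import Cfsg.Agent.Lib.Q4.Ob
import Cfsg.Agent.Lib.Q4.OA
import Cfsg.Agent.Lib.Q4.OB
import Cfsg.Agent.Lib.Q4.OC
import Cfsg.Agent.Lib.Q4.OF

/-!
# The obstructions hold
-/

set_option autoImplicit false
set_option linter.unusedSectionVars false

namespace Cfsg.Lib.Q4

open scoped MatrixGroups Matrix commutatorElement
open Cfsg.Geo Equiv
open Cfsg.Lib.Q4R (dg sc)

variable {K Y X : Type*} [Field K] [Group Y] [Finite Y] [Group X] {π : Y →* X} {ρ : Y →* GL (Fin 4) K}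

theorem two_ne (K : Type*) [Field K] (p : ℕ) [hp : Fact p.Prime] [CharP K p] (h : p ≠ 2) : (2 : K) ≠ 0 := fun e =>
  h ((Nat.prime_dvd_prime_iff_eq hp.out Nat.prime_two).1 ((CharP.cast_eq_zero_iff K p 2).1 (by exact_mod_cast e)))

theorem PR.ob (p : ℕ) [hp : Fact p.Prime] [CharP K p] (h : PR π ρ) (nt : NT ρ) : Ob p X := by
  have k := h.map (algebraMap K (AlgebraicClosure K))
  exact ⟨hp.out, h.heis p nt, k.wt p, k.rk p, k.o9 p, k.e8 p, k.e16 p, fun h2 => k.ab (two_ne _ p h2)⟩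

theorem PR.bij [CharP K 2] (h : PR π ρ) : Function.Bijective π := by
  refine ⟨(injective_iff_map_eq_one π).2 fun z hz => h.inj ?_, h.surj⟩
  obtain ⟨c, hc⟩ := mem_scalars_iff'.1 ((h.ker z).1 hz)
  have h4 := pow_card_of_det (h.det z) hc
  have : (c - 1) ^ 2 ^ 2 = 0 := by rw [sub_pow_char_pow, one_pow]; exact sub_eq_zero.2 h4
  rw [map_one]
  exact Units.ext (by rw [hc, sub_eq_zero.1 (pow_eq_zero_iff (by norm_num) |>.1 this), one_smul, Units.val_one])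

theorem PR.hasEv [CharP K 2] (h : PR π ρ) (nt : NT ρ) : HasEv X :=
  have k : Nt ρ := ⟨h.inj, h.det, nt⟩
  HasEv.equiv ⟨En ρ, fun _ => En_self, k.sq_eq, k.eq_of, En_conj, k.sq_mem, k.c2, k.u3, k.l3⟩
    (MulEquiv.ofBijective π h.bij)

end Cfsg.Lib.Q4
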