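import Cfsg.Agent.Lib.Q4.Ob2
import Cfsg.Prelude.Def_Classical
import Cfsg.Agent.Lib.Linear.Simple
import Cfsg.Agent.Lib.Q5A.U3

/-!
# Exclusions: classical groups in odd characteristic

Transport with `Ob.equiv` and work inside the model group.  Any further import is welcome.
-/

set_option autoImplicit false

namespace Cfsg.Lib.Q4

open scoped MatrixGroups Matrix commutatorElement

namespace X1

open Matrix Matrix.SpecialLinearGroup Subgroup

/-- A Heisenberg triple with real centre. -/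
def RH (l : ℕ) {Y : Type*} [Group Y] (u : Y) : Prop := ∃ x y s : Y, (∃ n, x ^ l ^ n = 1) ∧ (∃ n, y ^ l ^ n = 1) ∧
  ⁅x, y⁆ = u ∧ Commute x u ∧ Commute y u ∧ s * u * s⁻¹ = u⁻¹

theorem RH.not {X Y : Type*} [Group X] [Group Y] {p l : ℕ} (h : Ob p X) (hl : l.Prime) (h2 : l ≠ 2) {u : Y}
    (r : RH l u) (f : Y →* X) (h1 : f u ≠ 1) : False := by
  obtain ⟨x, y, s, ⟨n, hn⟩, ⟨m, hm⟩, rfl, c1, c2, hs⟩ := r
  rw [map_commutatorElement] at h1
  exact h.not_heis hl h2 (s := f s) ⟨n, by rw [← map_pow, hn, map_one]⟩ ⟨m, by rw [← map_pow, hm, map_one]⟩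
    (map_commutatorElement f x y ▸ c1.map f) (map_commutatorElement f x y ▸ c2.map f) h1
    (by simpa [map_commutatorElement] using congrArg f hs)

theorem RH.mk_ne {Y Z : Type*} [Group Y] [Group Z] {l : ℕ} {u : Y} (r : RH l u) (h : u⁻¹ ≠ u) (φ : Y →* Z)
    (hφ : Function.Injective φ) : ((QuotientGroup.mk' (center Z)).comp φ) u ≠ 1 := fun e => by
  obtain ⟨-, -, s, -, -, -, -, -, hs⟩ := r
  have := mem_center_iff.1 ((QuotientGroup.eq_one_iff (φ u)).1 e) (φ s)
  rw [← map_mul, ← map_mul] at this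
  exact h (by rw [← hs, hφ this, mul_inv_cancel_right])

theorem odd_char {K : Type*} [Field K] [Fintype K] (ho : Odd (Fintype.card K)) :
    ∃ l : ℕ, l.Prime ∧ l ≠ 2 ∧ CharP K l ∧ (2 : K) ≠ 0 := by
  obtain ⟨l, hc, n, hl, e⟩ := FiniteField.card' K
  have h2 : l ≠ 2 := by
    rintro rfl
    exact Nat.not_even_iff_odd.2 ho (e ▸ even_two.pow_of_ne_zero n.ne_zero)
  exact ⟨l, hl, h2, hc, fun z => h2 ((Nat.prime_dvd_prime_iff_eq hl Nat.prime_two).1
    ((CharP.cast_eq_zero_iff K l 2).1 (by simpa using z)))⟩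

variable {K : Type*} [Field K]

theorem rh_sl {ι : Type*} [Fintype ι] [DecidableEq ι] (l : ℕ) [CharP K l] {i j k : ι} (hij : i ≠ j) (hjk : j ≠ k)
    (hik : i ≠ k) : RH l (transvection hik (1 : K)) := by
  have pw : ∀ {a b : ι} (h : a ≠ b) (n : ℕ), transvection h (1 : K) ^ n = transvection h (n : K) := fun h n => by
    induction n with
    | zero => simp
    | succ n ih => rw [pow_succ, ih, ← transvection_add, Nat.cast_succ]
  refine ⟨transvection hij 1, transvection hjk 1, diag2n hij (-1) (by simp), ⟨1, by simp [pw]⟩, ⟨1, by simp [pw]⟩,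
    by rw [Linear.commutator_transvection hij hjk hik, mul_one],
    Linear.commute_transvection _ _ hij.symm hik _ _, Linear.commute_transvection _ _ hik.symm hjk _ _, ?_⟩
  rw [mul_inv_eq_iff_eq_mul, transvection_inv]
  apply Subtype.ext
  change diagonal _ * (1 + single i k 1) = (1 + single i k (-1)) * diagonal _
  simp only [mul_add, add_mul, mul_one, one_mul,
    Linear.diagonal_mul_single, Linear.single_mul_diagonal]
  simp [hik.symm, hjk.symm]

theorem rh_u3 {σ : K →+* K} {q : ℕ} {G : Type*} [Group G] [Fact (Function.Involutive σ)] (M : U3.Model σ q G)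
    (l : ℕ) [CharP K l] (t0 : (2 : K) ≠ 0) : ∃ u : G, RH l u ∧ u⁻¹ ≠ u := by
  obtain ⟨d, d0, hd⟩ := M.bar.exists_skew
  have e : σ (-2 * d) = -(-2 * d) := by simp [hd, map_ofNat]
  obtain ⟨a, -, -, ha⟩ := Q5A.exists_h_u0 M e (c := -1) (by simp) (by simp)
  refine ⟨M.u 0 (-2 * d), ⟨M.u 1 (1 * σ 1 / 2), M.u d (d * σ d / 2), M.h a,
    ⟨1, by simp only [pow_one, Q5A.half_pow M t0]; simp [M.u_zero]⟩,
    ⟨1, by simp only [pow_one, Q5A.half_pow M t0]; simp [M.u_zero]⟩, ?_, Q5A.u0_comm M e (Q5A.hs_half t0 _),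
    Q5A.u0_comm M e (Q5A.hs_half t0 _), by rw [ha, Q5A.u0_inv M e, neg_one_mul]⟩, fun c => ?_⟩
  · rw [Q5A.u_commutator M (Q5A.hs_half t0 _) (Q5A.hs_half t0 _), hd, map_one]
    congr 1
    ring
  · rw [Q5A.u0_inv M e, M.u_inj (Q5A.hs0 (by rw [map_neg, e])) (Q5A.hs0 e)] at c
    exact mul_ne_zero t0 (mul_ne_zero t0 d0) (by linear_combination c.2)

/-- The block embedding. -/
def blk (K : Type*) [Field K] (m : ℕ) : SL(3, K) →* SL(3 + m, K) :=
  .mk' (fun A => ⟨reindex finSumFinEquiv finSumFinEquiv (fromBlocks A.1 0 0 (1 : Matrix (Fin m) (Fin m) K)), by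
    rw [det_reindex_self, det_fromBlocks_zero₂₁, det_one, mul_one, A.2]⟩) fun A B => Subtype.ext (by
      change _ = reindex _ _ _ * reindex _ _ _
      simp [fromBlocks_multiply])

theorem blk_inj (m : ℕ) : Function.Injective (blk K m) := fun _ _ e => Subtype.ext
  (fromBlocks_inj.1 ((reindex finSumFinEquiv finSumFinEquiv).injective (congrArg Subtype.val e))).1

/-- The Siegel unipotent radical. -/
def sH (K : Type*) [Field K] : Multiplicative (K × K × K) →* symplecticGroup (Fin 2) K :=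
  .mk' (fun v => ⟨fromBlocks 1 !![v.toAdd.1, v.toAdd.2.1; v.toAdd.2.1, v.toAdd.2.2] 0 1, by
    rw [SymplecticGroup.mem_iff, J, fromBlocks_transpose]
    simp only [fromBlocks_multiply]
    congr 1 <;> ext i j <;> fin_cases i <;> fin_cases j <;> simp⟩) fun v w => Subtype.ext (by
      change _ = fromBlocks _ _ _ _ * fromBlocks _ _ _ _
      simp [fromBlocks_multiply, add_comm])

/-- A short root subgroup. -/
def lH (K : Type*) [Field K] : Multiplicative K →* symplecticGroup (Fin 2) K :=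
  .mk' (fun v => ⟨fromBlocks !![1, v.toAdd; 0, 1] 0 0 !![1, 0; -v.toAdd, 1], by
    rw [SymplecticGroup.mem_iff, J, fromBlocks_transpose]
    simp only [fromBlocks_multiply]
    congr 1 <;> ext i j <;> fin_cases i <;> fin_cases j <;> simp [vecMul, dotProduct]⟩) fun v w => Subtype.ext (by
      change _ = fromBlocks _ _ _ _ * fromBlocks _ _ _ _
      simp [fromBlocks_multiply, add_comm])

theorem lH_sH (a b : K) : lH K (.ofAdd 1) * sH K (.ofAdd (a, b, 0)) =
    sH K (.ofAdd (a + 2 * b, b, 0)) * lH K (.ofAdd 1) := Subtype.ext (by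
  change fromBlocks _ _ _ _ * fromBlocks _ _ _ _ = fromBlocks _ _ _ _ * fromBlocks _ _ _ _
  simp only [fromBlocks_multiply]
  congr 1 <;> ext i j <;> fin_cases i <;> fin_cases j <;> simp [mul_apply] <;> ring)

theorem sH_inj : Function.Injective ((QuotientGroup.mk' (center _)).comp (sH K)) :=
  (injective_iff_map_eq_one _).2 fun v e => by
    have := congrArg Subtype.val (mem_center_iff.1 ((QuotientGroup.eq_one_iff (sH K v)).1 e)
      ⟨J _ _, SymplecticGroup.J_mem _ _⟩)
    change fromBlocks _ _ _ _ * fromBlocks _ _ _ _ = fromBlocks _ _ _ _ * fromBlocks _ _ _ _ at this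
    simp only [fromBlocks_multiply, fromBlocks_inj] at this
    have h := this.1
    exact Multiplicative.toAdd.injective (Prod.ext (by simpa using congrFun₂ h.symm 0 0)
      (Prod.ext (by simpa using congrFun₂ h.symm 0 1) (by simpa using congrFun₂ h.symm 1 1)))

end X1

open X1

namespace Ob

variable {X : Type*} [Group X] [Finite X] {p : ℕ} (h : Ob p X) {K : Type} [Field K] [Fintype K]
include h

/-- `not_heis` with the images of `x = x₀₁(1)`, `y = x₁₂(1)`, `⁅x, y⁆ = x₀₂(1)`, `s = diag(1, -1, -1, 1, …)`. -/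
theorem not_psl (ho : Odd (Fintype.card K)) {n : ℕ} (hn : 3 ≤ n) (e : X ≃* PSL(n, K)) : False := by
  obtain ⟨l, hl, h2, _, -⟩ := odd_char ho
  obtain ⟨m, rfl⟩ := Nat.exists_eq_add_of_le' hn
  refine (rh_sl (K := K) l (i := (⟨0, by omega⟩ : Fin (m + 3))) (j := ⟨1, by omega⟩) (k := ⟨2, by omega⟩) (by simp)
    (by simp) (by simp)).not (h.equiv e) hl h2 (QuotientGroup.mk' _) fun c => ?_
  exact one_ne_zero ((Matrix.SpecialLinearGroup.transvection_mem_center_iff _ _).1 ((QuotientGroup.eq_one_iff _).1 c))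

/-- `not_heis` in the unipotent radical of the stabiliser of an isotropic point (`n = 3`: `U3.Model`, see
`Dim3.loc3_psu`): `x, y` with `⁅x, y⁆ ≠ 1` a unitary transvection `1 + c v v*`; an element with `v ↦ λ v`,
`λ ^ (q + 1) = -1`, inverts it.  For `n ≥ 4` embed `SU₃` (block matrices; its elements of odd order are not scalar), or
use any description of the root elements in the library. -/
theorem not_psu {q : ℕ} (hq : Fintype.card K = q ^ 2) (ho : Odd q) {n : ℕ} (hn : 3 ≤ n) (e : X ≃* PSU n K q) :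
    False := by
  obtain ⟨l, hl, h2, _, t0⟩ := odd_char (K := K) (hq ▸ ho.pow)
  obtain ⟨m, rfl⟩ := Nat.exists_eq_add_of_le hn
  obtain ⟨σ, b⟩ := Unitary.exists_isBar hq
  have : Fact (Function.Involutive σ) := ⟨b.invol⟩
  obtain ⟨M, -⟩ := U3.exists_model_SU b
  obtain ⟨u, r, hu⟩ := rh_u3 M l t0
  let φ : SU 3 K q →* SU (3 + m) K q := ((blk K m).comp (SU 3 K q).subtype).codRestrict _ fun A => by
    have := b.mem_SU_iff.1 A.2
    rw [b.mem_SU_iff]
    change ((Matrix.reindex _ _ _).map σ)ᵀ * Matrix.reindex _ _ _ = 1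
    simp [Matrix.fromBlocks_map, Matrix.fromBlocks_transpose, Matrix.fromBlocks_multiply, this, ← Matrix.submatrix_map]
  exact r.not (h.equiv e) hl h2 _ (r.mk_ne hu φ fun A B c => Subtype.ext (blk_inj m (congrArg Subtype.val c)))

/-- `heis` for a short root element `x` and the short root element `y` with `⁅x, y⁆` a long root element gives
`char K = 3 ≠ p`.  The unipotent radical `{[[1, S], [0, 1]] | Sᵀ = S}` of the Siegel parabolic is elementary abelian of order
`|K| ^ 3` and meets the centre trivially; `rk` gives `|K| ^ 3 ≤ 27`. -/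
theorem psp (ho : Odd (Fintype.card K)) (e : X ≃* PSp 2 K) : Fintype.card K = 3 ∧ p ≠ 3 := by
  obtain ⟨l, hl, h2, _, t0⟩ := odd_char ho
  let π : _ →* PSp 2 K := QuotientGroup.mk' _
  have s0 : ∀ v, sH K v ^ l = 1 := fun v => by
    rw [← map_pow, ← ofAdd_toAdd v, ← ofAdd_nsmul, ← Nat.cast_smul_eq_nsmul K, CharP.cast_eq_zero, zero_smul,
      ofAdd_zero, map_one]
  have c0 : ⁅lH K (.ofAdd 1), sH K (.ofAdd (0, 1, 0))⁆ = sH K (.ofAdd (2, 0, 0)) := by
    rw [commutatorElement_def, lH_sH, mul_inv_cancel_right, ← map_inv, ← map_mul, ← ofAdd_neg, ← ofAdd_add]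
    simp
  obtain ⟨rfl, h3, -⟩ := (h.equiv e).heis l (π (lH K (.ofAdd 1))) (π (sH K (.ofAdd (0, 1, 0)))) hl h2
    ⟨1, by rw [pow_one, ← map_pow, ← map_pow, ← ofAdd_nsmul]; simp⟩ ⟨1, by rw [pow_one, ← map_pow, s0, map_one]⟩
    (by rw [← map_commutatorElement, c0]; exact Commute.map (by simpa [commute_iff_eq] using lH_sH (2 : K) 0) π)
    (by rw [← map_commutatorElement, c0]; exact ((Commute.all _ _).map _).map π)
    (by
      rw [← map_commutatorElement, c0]
      exact fun c => t0 (congrArg (·.toAdd.1) ((injective_iff_map_eq_one _).1 sH_inj _ c)))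
  have h4 := (h.equiv e).rk 3 (π.comp (sH K)).range hl h2 h3.symm
    (by rintro _ ⟨a, rfl⟩ _ ⟨b, rfl⟩; exact (Commute.all a b).map _)
    (by rintro _ ⟨a, rfl⟩; rw [MonoidHom.comp_apply, ← map_pow, s0, map_one])
  rw [← Nat.card_congr (MonoidHom.ofInjective sH_inj).toEquiv, Nat.card_congr Multiplicative.toAdd, Nat.card_prod,
    Nat.card_prod, Nat.card_eq_fintype_card, ← pow_two, ← pow_succ'] at h4
  have h5 := (Nat.pow_le_pow_iff_left three_ne_zero).1 h4
  have h6 := Fintype.one_lt_card (α := K)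
  obtain ⟨c, hc⟩ := ho
  exact ⟨by omega, h3⟩

end Ob

end Cfsg.Lib.Q4
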