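import Cfsg.Agent.Lib.Q4.Ob2
import Cfsg.Prelude.Def_Classical
import Cfsg.Prelude.Def_Sz
import Cfsg.Agent.Lib.Linear.Simple
import Cfsg.Agent.Lib.Sz.Instances
import Cfsg.Agent.Lib.U3.Model

/-!
# Exclusions: small groups of characteristic two and alternating groups
-/

set_option autoImplicit false

namespace Cfsg.Lib.Q4

open scoped MatrixGroups Matrix commutatorElement

namespace X3

open Matrix Matrix.SpecialLinearGroup Subgroup

variable {X Y : Type*} [Group X] [Group Y] {p : ℕ} {K : Type*} [Field K]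

theorem fam (h : Ob p X) (h2 : p ≠ 2) (x : K → X) (xa : ∀ a b, x (a + b) = x a * x b) (two : (2 : K) = 0)
    (x1 : x 1 ≠ 1) {g : X} {u : K} (hg : ∀ b, g * x b * g⁻¹ = x (u * b)) : u ^ 3 ≠ 1 + u ∧ u ^ 4 ≠ 1 + u := by
  have x0 : x 0 = 1 := by simpa using xa 0 0
  have it : ∀ i : ℕ, g ^ i * x 1 * (g ^ i)⁻¹ = x (u ^ i) := fun i => by
    induction i with
    | zero => simp
    | succ i ih => rw [pow_succ' u, ← hg, ← ih, pow_succ']; group
  have sq : x 1 ^ 2 = 1 := by rw [sq, ← xa, one_add_one_eq_two, two, x0]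
  have cm : ∀ i : ℕ, Commute (x 1) (g ^ i * x 1 * (g ^ i)⁻¹) := fun i => by
    rw [it, commute_iff_eq, ← xa, ← xa, add_comm]
  exact ⟨fun e => h.e8 h2 _ g x1 sq cm (by rw [it, hg, ← xa, e, mul_one]),
    fun e => h.e16 h2 _ g x1 sq cm (by rw [it, hg, ← xa, e, mul_one])⟩

theorem e8_map (h : Ob p X) (h2 : p ≠ 2) (f : Y →* X) {a b c g : Y} (h1 : f a ≠ 1) (a2 : a * a = 1)
    (ab : a * b = b * a) (ac : a * c = c * a) (e1 : g * a = b * g) (e2 : g * b = c * g) (e3 : g * c = a * b * g) :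
    False := by
  rw [← mul_inv_eq_iff_eq_mul] at e1 e2 e3
  have k : closure {a, b, c} ≤ (closure {a, b, c}).comap (MulAut.conj g).toMonoidHom := (closure_le _).2 (by
    have m : ∀ x ∈ ({a, b, c} : Set Y), x ∈ closure {a, b, c} := fun x hx => subset_closure hx
    simp only [Set.insert_subset_iff, Set.singleton_subset_iff, SetLike.mem_coe, mem_comap, MulEquiv.coe_toMonoidHom,
      MulAut.conj_apply, e1, e2, e3]
    exact ⟨m _ (by simp), m _ (by simp), mul_mem (m _ (by simp)) (m _ (by simp))⟩)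
  have c1 : closure {a, b, c} ≤ centralizer {a} := (closure_le _).2 (by
    rintro _ (rfl | rfl | rfl) <;> simp [mem_centralizer_singleton_iff, ab, ac])
  have it : ∀ i : ℕ, g ^ i * a * (g ^ i)⁻¹ ∈ closure {a, b, c} := fun i => by
    induction i with
    | zero => exact subset_closure (by simp)
    | succ i ih => simpa [pow_succ', mul_assoc] using k ih
  refine h.e8 h2 (f a) (f g) h1 (by rw [sq, ← map_mul, a2, map_one]) (fun i => ?_) ?_
  · simpa using Commute.map (mem_centralizer_singleton_iff.1 (c1 (it i))).symm f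
  · have : g ^ 3 * a * (g ^ 3)⁻¹ = a * (g * a * g⁻¹) := by
      rw [e1, ← e3, ← e2, ← e1]
      simp only [pow_three, _root_.mul_inv_rev, mul_assoc]
    simpa using congrArg f this

variable [Fintype K]

theorem two_eq {n : ℕ} (hK : Fintype.card K = 2 ^ n) : (2 : K) = 0 :=
  have := Sz.charP_of_card hK
  CharP.cast_eq_zero K 2

theorem gen (n : ℕ) (hK : Fintype.card K = n + 1) : ∃ z : K, z ^ n = 1 ∧ ∀ m, 0 < m → m < n → z ^ m ≠ 1 := by
  classical
  obtain ⟨z, hz⟩ := IsCyclic.exists_ofOrder_eq_natCard (α := Kˣ)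
  rw [Nat.card_eq_fintype_card, Fintype.card_units, hK, Nat.add_sub_cancel, ← orderOf_units] at hz
  exact ⟨z, hz ▸ pow_orderOf_eq_one _, fun m h1 h2 => pow_ne_one_of_lt_orderOf h1.ne' (hz ▸ h2)⟩

theorem root8 (hK : Fintype.card K = 8) : ∃ u : K, u ≠ 0 ∧ u ^ 3 = 1 + u := by
  have t := two_eq (n := 3) hK
  obtain ⟨z, h1, h2⟩ := gen 7 hK
  have := h2 1 one_pos (by decide)
  by_cases e : z ^ 3 = 1 + z
  · exact ⟨z, by grind, e⟩
  · exact ⟨z + 1, by grind, by grind⟩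

theorem root16 (hK : Fintype.card K = 16) : ∃ u : K, u ≠ 0 ∧ u ^ 4 = 1 + u := by
  have t := two_eq (n := 4) hK
  obtain ⟨z, h1, h2⟩ := gen 15 hK
  have h3 := h2 3 (by decide) (by decide)
  have h5 := h2 5 (by decide) (by decide)
  by_cases e : z ^ 4 = 1 + z
  · exact ⟨z, by grind, e⟩
  · have : (z ^ 3 - 1) * ((z ^ 5 - 1) * ((z ^ 4 - (1 + z)) * (z ^ 4 + z ^ 3 - 1))) = 0 := by
      linear_combination (z - 1) * h1 + (0 + z ^ 1 - z ^ 3 - 2 * z ^ 4 - z ^ 5 + 2 * z ^ 7 + 2 * z ^ 8 + 2 * z ^ 9 - z ^ 11 - 2 * z ^ 12 - z ^ 13 + z ^ 15) * t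
    simp only [mul_eq_zero, sub_eq_zero, h3, h5, e, false_or] at this
    exact ⟨z ^ 3 + z ^ 2, by grind, by grind⟩

/-- A matrix over `𝔽₂` of determinant one. -/
def m4 (A : Matrix (Fin 4) (Fin 4) (ZMod 2)) (h : A.det = 1 := by decide +kernel) : SL(4, ZMod 2) := ⟨A, h⟩

/-- An even permutation. -/
def a8 (σ : Equiv.Perm (Fin 8)) (h : Equiv.Perm.sign σ = 1 := by decide +kernel) : alternatingGroup (Fin 8) :=
  ⟨σ, h⟩

theorem exists_alt {m n : ℕ} (hm : m ≤ n) :
    ∃ θ : alternatingGroup (Fin m) →* alternatingGroup (Fin n), Function.Injective θ :=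
  ⟨((Equiv.Perm.viaEmbeddingHom (Fin.castLEEmb hm)).comp (Subgroup.subtype _)).codRestrict _ fun σ => by
      classical
      refine Equiv.Perm.mem_alternatingGroup.2 (Eq.trans ?_ σ.2)
      exact @Equiv.Perm.sign_extendDomain _ _ _ _ _ _ σ.1 _ (fun _ => Classical.propDecidable _)
        (Equiv.ofInjective _ (Fin.castLEEmb hm).2),
    fun _ _ h => Subtype.ext (Equiv.Perm.viaEmbeddingHom_injective _ (congrArg Subtype.val h))⟩

end X3

open X3

namespace Ob

variable {X : Type*} [Group X] [Finite X] {p : ℕ} (h : Ob p X) {K : Type} [Field K] [Fintype K]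
include h

/-- `a = [[1, 1], [0, 1]]`, `h = diag(t, t⁻¹)` with `u = t²`, `u³ = u + 1` (`e8`), resp. `u⁴ = u + 1` (`e16`): the
polynomial divides `X ^ |K| - X`, so it has a root, and every element is a square. -/
theorem not_l2 (h2 : p ≠ 2) (hK : Fintype.card K = 8 ∨ Fintype.card K = 16) (e : X ≃* PSL(2, K)) : False := by
  have key : (2 : K) = 0 → ∀ u : K, u ≠ 0 → u ^ 3 ≠ 1 + u ∧ u ^ 4 ≠ 1 + u := fun t u u0 => by
    obtain ⟨s, rfl⟩ := FiniteField.isSquare_of_char_two (ringChar.eq_iff.2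
      ((CharP.charP_iff_prime_eq_zero Nat.prime_two).2 t)) u
    let π : SL(2, K) →* PSL(2, K) := QuotientGroup.mk' _
    refine fam (h.equiv e) h2 (fun b => π (.transvection zero_ne_one b))
      (fun a b => by rw [Matrix.SpecialLinearGroup.transvection_add, map_mul]) t (fun c => one_ne_zero
        ((Matrix.SpecialLinearGroup.transvection_mem_center_iff _ _).1 ((QuotientGroup.eq_one_iff _).1 c)))
      (g := π (Matrix.SpecialLinearGroup.diag2n zero_ne_one s (left_ne_zero_of_mul u0))) fun b => ?_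
    rw [← map_inv, ← map_mul, ← map_mul, Linear.diag2n_mul_transvection_mul_inv, sq]
  rcases hK with hK | hK
  · obtain ⟨u, u0, hu⟩ := root8 hK
    exact (key (two_eq (n := 3) hK) u u0).1 hu
  · obtain ⟨u, u0, hu⟩ := root16 hK
    exact (key (two_eq (n := 4) hK) u u0).2 hu

/-- `e8` (or `o7`) for `Z(U)` and the torus of order seven (`Sz.lieModel`, `Sz.Model`). -/
theorem not_sz (h2 : p ≠ 2) (hK : Fintype.card K = 2 ^ (2 * 1 + 1)) (e : X ≃* Lie.Sz K (2 ^ (1 + 1))) : False := by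
  let M := Sz.lieModel hK
  obtain ⟨u, u0, hu⟩ := root8 hK
  obtain ⟨μ, hμ⟩ := Finite.injective_iff_surjective.1 (fun _ _ => M.σ_mul_sq_inj : Function.Injective
    fun x => M.σ x * x ^ 2) u
  have μ0 : μ ≠ 0 := fun c => u0 (by simp [← hμ, c])
  exact (fam (h.equiv e) h2 (M.u 0) (fun a b => by simp [M.u_mul_u]) (two_eq hK) (by simp [M.u_eq_one])
    (g := M.h (.mk0 μ μ0)) fun b => by rw [M.h_conj_u, mul_zero, ← hμ]; rfl).1 hu

/-- `e8` with `a = x₀₃(1)` and `h = diag(C, 1)`, `C` the companion matrix of `X³ + X + 1`. -/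
theorem not_l42 (h2 : p ≠ 2) (hK : Fintype.card K = 2) (e : X ≃* PSL(4, K)) : False := by
  let ι := (FiniteField.ringEquivOfCardEq (K := ZMod 2) (K' := K) (by rw [hK, ZMod.card])).toRingHom
  let φ := Matrix.SpecialLinearGroup.map (n := Fin 4) ι
  refine e8_map (h.equiv e) h2 ((QuotientGroup.mk' _).comp φ) (a := m4 !![1, 0, 0, 1; 0, 1, 0, 0; 0, 0, 1, 0; 0, 0, 0, 1])
    (b := m4 !![1, 0, 0, 0; 0, 1, 0, 1; 0, 0, 1, 0; 0, 0, 0, 1]) (c := m4 !![1, 0, 0, 0; 0, 1, 0, 0; 0, 0, 1, 1; 0, 0, 0, 1])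
    (g := m4 !![0, 0, 1, 0; 1, 0, 1, 0; 0, 1, 0, 0; 0, 0, 0, 1]) (fun c => ?_) (by decide +kernel) (by decide +kernel)
    (by decide +kernel) (by decide +kernel) (by decide +kernel) (by decide +kernel)
  obtain ⟨r, -, hr⟩ := Matrix.SpecialLinearGroup.mem_center_iff.1 ((QuotientGroup.eq_one_iff _).1 c)
  have k : (Matrix.scalar (Fin 4) r) 0 3 = ι 1 := congrFun₂ hr 0 3
  simp at k

/-- `o5a`: `Q = U` the Sylow 2-subgroup, its involutions lie in `Z(U)`; the element of order five of the torus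
centralises `Z(U)` but not `U` (`U3.Model`, see `Dim3.not_four_comm_psu`). -/
theorem not_u34 (h2 : p ≠ 2) (hK : Fintype.card K = 16) (e : X ≃* PSU 3 K 4) : False := by
  obtain ⟨σ, b⟩ := Unitary.exists_isBar (q := 4) hK
  have : Fact (Function.Involutive σ) := ⟨b.invol⟩
  obtain ⟨M, -⟩ := U3.exists_model_PSU b
  obtain ⟨a, a1, a2⟩ := b.exists_norm_one_ne_one
  have a0 : a ≠ 0 := left_ne_zero_of_mul_eq_one a1
  have a5 : a ^ 5 = 1 := (b.norm_eq a).symm.trans a1
  have t := two_eq (n := 4) hK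
  have : Finite (PSU 3 K 4) := .of_equiv _ e.toEquiv
  obtain ⟨y, hy⟩ := U3.exists_hs' b 1
  have := (h.equiv e).o5a h2 (Q := M.U) (.of_card (n := 6) M.card_U) (g := M.h a) (by
    rw [show M.h a = M.hHom (.mk0 a a0) from rfl, ← map_pow, show Units.mk0 a a0 ^ 5 = 1 from Units.ext a5, map_one])
    (fun _ => M.conj_mem_U (M.T_le_B (M.h_mem_T a0))) (fun v hv c => by
      obtain ⟨x, y, hs, rfl⟩ := M.mem_U.1 hv
      rw [sq, M.u_mul hs hs, M.u_eq_one (hs.mul hs), ← two_mul, t, zero_mul, zero_add, mul_eq_zero, map_eq_zero,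
        or_self] at c
      rw [commute_iff_eq, M.h_mul_u a0 hs, a1, c, mul_zero, one_mul]) _ (M.u_mem_U hy)
  rw [commute_iff_eq, M.h_mul_u a0 hy, mul_left_inj, M.u_inj (hy.tor a0) hy, mul_one,
    div_eq_one_iff_eq (right_ne_zero_of_mul_eq_one a1)] at this
  have := this.1
  grind

/-- `o9`: all elements of order three of `L₃(4)` are conjugate; e.g. `a = diag(1, ω, ω²)`, `b` the cyclic permutation
matrix, with explicit conjugating elements of `SL₃(4)` (modulo scalars). -/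
theorem l34 (hK : Fintype.card K = 4) (e : X ≃* PSL(3, K)) : p = 3 := by
  have t := two_eq (n := 2) hK
  obtain ⟨ω, h1, h3⟩ := gen 3 hK
  have := h3 1 one_pos (by decide)
  have w : ω ^ 2 + ω + 1 = 0 := by grind
  let π : SL(3, K) →* PSL(3, K) := QuotientGroup.mk' _
  let a : SL(3, K) := ⟨!![1, 0, 0; 0, ω, 0; 0, 0, ω ^ 2], by simp [Matrix.det_fin_three]; grind⟩
  let b : SL(3, K) := ⟨!![0, 0, 1; 1, 0, 0; 0, 1, 0], by simp [Matrix.det_fin_three]⟩
  let z : SL(3, K) := ⟨!![ω, 0, 0; 0, ω, 0; 0, 0, ω], by simp [Matrix.det_fin_three]; grind⟩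
  have ex : ∀ {x y : SL(3, K)}, x.1 = y.1 → x = y := Subtype.ext
  have cm : ∀ x y : SL(3, K), (x * y).1 = x.1 * y.1 := fun _ _ => rfl
  have cj : ∀ (P : Matrix (Fin 3) (Fin 3) K) (c : SL(3, K)), P.det = 1 → P * a.1 = c.1 * P → IsConj (π a) (π c) :=
    fun P c hP k => π.map_isConj (isConj_iff.2 ⟨⟨P, hP⟩, mul_inv_eq_iff_eq_mul.2 (ex k)⟩)
  have a3 : a * a * a = 1 := ex (by simp only [cm]; simp [a, Matrix.one_fin_three]; grind)
  have b3 : b * b * b = 1 := ex (by simp only [cm]; simp [b, Matrix.one_fin_three])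
  have z1 : π z = 1 := (QuotientGroup.eq_one_iff _).2 (Matrix.SpecialLinearGroup.mem_center_iff.2
    ⟨ω, by simpa using h1, by ext i j; fin_cases i <;> fin_cases j <;> simp [z]⟩)
  refine (h.equiv e).o9 (π a) (π b) (by rw [pow_three', ← map_mul, ← map_mul, a3, map_one])
    (by rw [pow_three', ← map_mul, ← map_mul, b3, map_one]) ?_ (fun c => ?_) ?_ ?_ ?_ ?_
  · rw [commute_iff_eq, ← map_mul, show a * b = z * (b * a) from ex (by simp only [cm]; simp [a, b, z]; grind), map_mul,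
      z1, one_mul, map_mul]
  · obtain ⟨r, -, hr⟩ := Matrix.SpecialLinearGroup.mem_center_iff.1 ((QuotientGroup.eq_one_iff _).1 c)
    have h4 := congrFun₂ hr 0 0
    have h5 := congrFun₂ hr 1 1
    simp [a] at h4 h5
    grind
  · rw [← map_inv, ← eq_inv_of_mul_eq_one_left a3]
    exact cj !![1, 0, 0; 0, 0, 1; 0, 1, 0] _ (by simp [Matrix.det_fin_three]; grind)
      (by simp only [cm]; simp [a]; grind)
  · exact cj !![1, 1, 1; 1, ω ^ 2, ω; 1, ω, ω ^ 2] _ (by simp [Matrix.det_fin_three]; grind) (by simp [a, b]; grind)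
  · rw [← map_mul]
    exact cj !![ω ^ 2, 1, 1; 1, 1, ω ^ 2; ω ^ 2, ω, ω ^ 2] _ (by simp [Matrix.det_fin_three]; grind)
      (by simp only [cm]; simp [a, b]; grind)
  · rw [← map_inv, ← eq_inv_of_mul_eq_one_left b3, ← map_mul]
    exact cj !![ω, 1, 1; ω, ω, ω ^ 2; 1, ω, 1] _ (by simp [Matrix.det_fin_three]; grind)
      (by simp only [cm]; simp [a, b]; grind)

/-- `e8` inside `A₈ ≤ A_n` (`of_inj`): `a` a translation and `h` a Singer cycle of the affine group of `𝔽₈`;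
`decide`. -/
theorem not_alt (h2 : p ≠ 2) {n : ℕ} (hn : 8 ≤ n) (e : X ≃* alternatingGroup (Fin n)) : False := by
  obtain ⟨θ, hθ⟩ := exists_alt hn
  exact e8_map (h.equiv e) h2 θ (a := a8 (c[0, 1] * c[2, 3] * c[4, 5] * c[6, 7]))
    (b := a8 (c[0, 2] * c[1, 3] * c[4, 6] * c[5, 7])) (c := a8 (c[0, 4] * c[1, 5] * c[2, 6] * c[3, 7]))
    (g := a8 c[1, 2, 4, 3, 6, 7, 5]) ((map_ne_one_iff θ hθ).2 (by decide +kernel)) (by decide +kernel)
    (by decide +kernel) (by decide +kernel) (by decide +kernel) (by decide +kernel) (by decide +kernel)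

end Ob

end Cfsg.Lib.Q4
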