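import Cfsg.Agent.Lib.Q4.Ob2
import Cfsg.Prelude.Def_Spor_Mathieu
import Cfsg.Prelude.Def_Spor_J1
import Cfsg.Agent.Lib.Mathieu.Cx
import Cfsg.Agent.Lib.J1.Basic

/-!
# Exclusions in all characteristics: Mathieu groups, `J₁`

`wtc` for an element of order eleven conjugate to its third power (`3 ^ 3 % 11 = 5`, `3 ^ 4 % 11 = 4`) gives `p = 11`.
-/

set_option autoImplicit false

namespace Cfsg.Lib.Q4

open scoped MatrixGroups Matrix commutatorElement

namespace X4

open Cfsg.Lib.Calc Cfsg.Lib.F2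

variable {X : Type*} [Group X] {p : ℕ}

theorem p_of (h : Ob p X) {l : ℕ} (hl : l = 7 ∨ l = 11) {a s : X} (ha : a ^ l = 1) (h1 : a ≠ 1)
    (e : s * a = a ^ 3 * s) : p = l := by
  by_contra n
  have := h.wtc (k := 3) (by rcases hl with rfl | rfl <;> decide) (by omega) (Ne.symm n) ha h1
    (mul_inv_eq_iff_eq_mul.2 e)
  rcases hl with rfl | rfl <;> omega

/-- `e8` with finitely many conditions -/
theorem e8 (h : Ob p X) (h2 : p ≠ 2) {a b c g : X} (h1 : a ≠ 1) (ha : a * a = 1) (e1 : g * a = b * g)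
    (e2 : g * b = c * g) (e3 : g * c = a * b * g) (c1 : a * b = b * a) (c2 : a * c = c * a) : False := by
  obtain rfl : g * a * g⁻¹ = b := mul_inv_eq_iff_eq_mul.2 e1
  obtain rfl : g * (g * a * g⁻¹) * g⁻¹ = c := mul_inv_eq_iff_eq_mul.2 e2
  have e : g ^ 3 * a * (g ^ 3)⁻¹ = a * (g * a * g⁻¹) := by
    rw [← mul_inv_eq_iff_eq_mul.2 e3]; simp only [pow_succ, pow_zero, one_mul, mul_inv_rev, mul_assoc]
  have all : ∀ i : ℕ, Commute a (g ^ i * a * (g ^ i)⁻¹) ∧ Commute a (g ^ (i + 1) * a * (g ^ (i + 1))⁻¹) ∧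
      Commute a (g ^ (i + 2) * a * (g ^ (i + 2))⁻¹) := fun i => by
    induction i with
    | zero => exact ⟨by simp, by simpa [Commute, SemiconjBy] using c1, by simpa [pow_succ, mul_assoc, Commute, SemiconjBy] using c2⟩
    | succ i ih =>
      refine ⟨ih.2.1, ih.2.2, ?_⟩
      rw [show g ^ (i + 1 + 2) * a * (g ^ (i + 1 + 2))⁻¹ = g ^ i * (g ^ 3 * a * (g ^ 3)⁻¹) * (g ^ i)⁻¹ by group, e,
        show g ^ i * (a * (g * a * g⁻¹)) * (g ^ i)⁻¹ = g ^ i * a * (g ^ i)⁻¹ * (g ^ (i + 1) * a * (g ^ (i + 1))⁻¹)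
          by group]
      exact ih.1.mul_right ih.2.1
  exact h.e8 h2 a g h1 (by rwa [pow_two]) (fun i => (all i).1) e

/-- the binary matrix of a word in the generators of `J₁` -/
noncomputable def jw (w : List Bool) : ℕ :=
  List.rec (idM 20) (fun b _ ih => forceN ih fun Y => mmul 20 (Bool.rec J1.xM J1.yM b) Y) w

theorem jw_ex (w : List Bool) : ∃ g : Spor.J1, LRep 20 J1.cv g (jw w) := by
  induction w with
  | nil => exact ⟨1, LRep.one J1.cv_lt⟩
  | cons b w ih =>
    obtain ⟨g, hg⟩ := ih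
    rw [show jw (b :: w) = mmul 20 (Bool.rec J1.xM J1.yM b) (jw w) from forceN_eq _ _]
    cases b
    exacts [⟨_, J1.lrep_x.mul hg⟩, ⟨_, J1.lrep_y.mul hg⟩]

theorem j1_p (h : Ob p Spor.J1) {l : ℕ} (hl : l = 7 ∨ l = 11) (u w : List Bool)
    (e : band (band (Nat.beq (mpow 20 (jw u) l) (idM 20)) (mne 20 20 (idM 20) (jw u) (idM 20)))
      (Nat.beq (mmul 20 (jw w) (jw u)) (mmul 20 (mpow 20 (jw u) 3) (jw w))) = true) : p = l := by
  obtain ⟨a, ha⟩ := jw_ex u
  obtain ⟨s, hs⟩ := jw_ex w
  simp only [band_eq_true, beq_iff] at e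
  exact p_of h hl (J1.coded.eq_one J1.ker_eq (e.1.1 ▸ ha.pow J1.cv_lt l))
    (ha.ne' (J1.sur _ _) (LRep.one J1.cv_lt) e.1.2)
    ((hs.mul ha).eq_of_ker J1.coded J1.ker_eq (e.2 ▸ (ha.pow J1.cv_lt 3).mul hs))

end X4

open Cfsg.Lib.Grp

namespace Ob

variable {X : Type*} [Group X] [Finite X] {p : ℕ} (h : Ob p X)
include h

/-- `11:5` gives `p = 11`; `o9` (`3²:Q₈`, all elements of order three are conjugate) gives `p = 3`. -/
theorem not_m11 (e : Spor.IsoM11 X) : False := by
  replace h := h.equiv e.some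
  obtain ⟨γ, C⟩ := Mathieu.cx11 (D := [650637096153066191528378510017177152, 487006566180667501609709218912579616,
    984534996141977609297800625156032544, 928718206277989008510816407558424608, 970499966350631336865513127433832480,
    715872302521680643580706198532491296, 232652365823391711183829569059784736,
    608405391266436187982588441666881568]) (by decide +kernel) []
  have k := C.weqs (l := [(List.replicate 11 0, []), ([1, 0], [0, 0, 0, 1]), ([2, 2, 2], []), ([3, 3, 3], []),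
    ([2, 3], [3, 2]), ([2, 4, 2], [4]), ([5, 2], [3, 5]), ([6, 2], [2, 3, 6]), ([3, 7, 2], [2, 7])])
    (by decide +kernel)
  have n1 := C.wne (is := [0]) (js := []) (by decide +kernel)
  have n2 := C.wne (is := [2]) (js := []) (by decide +kernel)
  simp only [List.forall_mem_cons, List.replicate, wd_cons, wd_nil, mul_one, ← mul_assoc] at k n1 n2
  obtain ⟨k1, k2, k3, k4, k5, k6, k7, k8, k9, -⟩ := k
  have p1 := X4.p_of h (.inr rfl) (by simpa only [pow_succ, pow_zero, one_mul] using k1) n1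
    (by simpa only [pow_succ, pow_zero, one_mul] using k2)
  have c : Commute (γ 2) (γ 3) := k5
  have p2 := h.o9 (γ 2) (γ 3) (by simpa only [pow_succ, pow_zero, one_mul] using k3)
    (by simpa only [pow_succ, pow_zero, one_mul] using k4) c n2
    (isConj_iff.2 ⟨γ 4, by rw [mul_inv_eq_iff_eq_mul, eq_inv_mul_iff_mul_eq, ← mul_assoc, k6]⟩)
    (isConj_iff.2 ⟨γ 5, mul_inv_eq_iff_eq_mul.2 k7⟩) (isConj_iff.2 ⟨γ 6, mul_inv_eq_iff_eq_mul.2 k8⟩)
    (isConj_iff.2 ⟨γ 7, by rw [mul_inv_eq_iff_eq_mul, c.inv_right.eq, mul_assoc, eq_inv_mul_iff_mul_eq,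
      ← mul_assoc, k9]⟩)
  omega

/-- `M₁₁ ≤ M₁₂` (`of_inj (Subgroup.inclusion _)`). -/
theorem not_m12 (e : Spor.IsoM12 X) : False := by
  exact ((h.equiv e.some).of_inj (Subgroup.inclusion (show Spor.M11 ≤ Spor.M12 from inf_le_left))
    (Subgroup.inclusion_injective _)).not_m11 ⟨.refl _⟩

/-- `11:5` and `o9` (one class of elements of order three), or `11:5` and `e8` (`2³:7`). -/
theorem not_m22 (e : Spor.IsoM22 X) : False := by
  replace h := h.equiv e.some
  obtain ⟨γ, C⟩ := Mathieu.cx22 (D := [982928001378377821389870559472818752, 971089270110516620903876575378264096,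
    967732770601138460095365148658898336, 962376950550772938823352844849614880, 984814239915903183383358498871350528,
    984606106881346576496464273681713600]) (by decide +kernel) []
  have k := C.weqs (l := [(List.replicate 11 0, []), ([1, 0], [0, 0, 0, 1]), ([2, 2], []), ([3, 2], [4, 3]),
    ([3, 4], [5, 3]), ([3, 5], [2, 4, 3]), ([2, 4], [4, 2]), ([2, 5], [5, 2])]) (by decide +kernel)
  have n1 := C.wne (is := [0]) (js := []) (by decide +kernel)
  have n2 := C.wne (is := [2]) (js := []) (by decide +kernel)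
  simp only [List.forall_mem_cons, List.replicate, wd_cons, wd_nil, mul_one, ← mul_assoc] at k n1 n2
  obtain ⟨k1, k2, k3, k4, k5, k6, k7, k8, -⟩ := k
  have p1 := X4.p_of h (.inr rfl) (by simpa only [pow_succ, pow_zero, one_mul] using k1) n1
    (by simpa only [pow_succ, pow_zero, one_mul] using k2)
  exact X4.e8 h (by omega) n2 k3 k4 k5 k6 k7 k8

/-- `M₂₂ ≤ M₂₃` -/
theorem not_m23 (e : Spor.IsoM23 X) : False := by
  exact ((h.equiv e.some).of_inj (Subgroup.inclusion (show Spor.M22 ≤ Spor.M23 from inf_le_left))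
    (Subgroup.inclusion_injective _)).not_m22 ⟨.refl _⟩

/-- `M₂₂ ≤ M₂₄` -/
theorem not_m24 (e : Spor.IsoM24 X) : False := by
  exact ((h.equiv e.some).of_inj (Subgroup.inclusion (show Spor.M23 ≤ M24 from inf_le_left))
    (Subgroup.inclusion_injective _)).not_m23 ⟨.refl _⟩

/-- `wtc` for two of `7:6` (`k = 3`), `11:5`, `19:6` (`k = 8`); or `11:5` and `e8` / `o7` (`2³:7`). -/
theorem not_j1 (e : Spor.IsoJ1 X) : False := by
  have p1 := X4.j1_p (h.equiv e.some) (.inl rfl) [false] [true, false, true, false, true, false, false, true, false,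
    false, false, false, true, false, true, false, false, true, true] (by decide +kernel)
  have p2 := X4.j1_p (h.equiv e.some) (.inr rfl) [false, true, true] [false, false, true, false, true, false, true,
    true, true, false, false] (by decide +kernel)
  omega

end Ob

end Cfsg.Lib.Q4
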