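import Cfsg.Agent.Lib.Q4.Ob
import Cfsg.Prelude.Def_Classical
import Cfsg.Agent.Lib.Q4.X1
import Cfsg.Agent.Lib.Q4.X3

/-!
# Exclusions in characteristic two

Write `t ≈ u` for `E t = E u`.  Tools: `Ev.eq_sq`, `Ev.eq_conj`, `Ev.comm_of_eq`, `HasEv.equiv`, `HasEv.of_inj`.
-/

set_option autoImplicit false
set_option linter.unusedSectionVars false

namespace Cfsg.Lib.Q4

open scoped MatrixGroups Matrix commutatorElement

namespace X6

open Matrix Matrix.SpecialLinearGroup Subgroup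

variable {Y : Type*} [Group Y] {E : Y → Subgroup Y} {K : Type*} [Field K]

theorem sq_comm {a b : Y} (ha : a ^ 2 = 1) (hb : b ^ 2 = 1) : (a * b) ^ 2 = ⁅a, b⁆ := by
  rw [sq] at ha hb
  rw [commutatorElement_def, inv_eq_of_mul_eq_one_right ha, inv_eq_of_mul_eq_one_right hb, sq, ← mul_assoc]

/-- the commutator of two involutions commuting with `t` is equivalent to `t` -/
theorem eq_comm' (h : Ev E) {t a b c : Y} (h1 : t ≠ 1) (h2 : t ^ 2 = 1) (ha : a ^ 2 = 1) (hb : b ^ 2 = 1)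
    (e : ⁅a, b⁆ = c) (c1 : c ≠ 1) (c2 : c ^ 2 = 1) (k1 : Commute a t) (k2 : Commute b t) : E c = E t := by
  rw [← sq_comm ha hb] at e
  rw [← e] at c1 c2 ⊢
  exact h.eq_sq h1 h2 (by rw [← c2, ← pow_mul]) c1 (k1.mul_left k2)

/-- A Heisenberg group in characteristic two inside `Y`. -/
structure Hb (x : K → K → K → Y) : Prop where
  mul : ∀ a b c a' b' c', x a b c * x a' b' c' = x (a + a') (b + b' + a * c') (c + c')
  inj : ∀ a b c, x a b c = 1 ↔ a = 0 ∧ b = 0 ∧ c = 0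

namespace Hb

variable [CharP K 2] {x : K → K → K → Y} (H : Hb x)
include H

theorem dual : Hb fun a b c => x c (b + a * c) a where
  mul a b c a' b' c' := by
    rw [H.mul]
    congr 1
    linear_combination (-(a * c')) * CharTwo.two_eq_zero (R := K)
  inj a b c := by
    rw [H.inj]
    exact ⟨fun ⟨p, q, r⟩ => ⟨r, by simpa [p] using q, p⟩, fun ⟨p, q, r⟩ => ⟨r, by simp [p, q], p⟩⟩

theorem sq (a b c : K) : x a b c ^ 2 = x 0 (a * c) 0 := by simp [pow_two, H.mul, CharTwo.add_self_eq_zero]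

theorem sq0 (b : K) : x 0 b 0 ^ 2 = 1 := by simp [H.sq, H.inj]

theorem four (a b c : K) : x a b c ^ 2 ^ 2 = 1 := by rw [pow_two 2, pow_mul, H.sq, H.sq0]

omit [CharP K 2] in
theorem cz (a b c d : K) : Commute (x a b c) (x 0 d 0) := by simp [commute_iff_eq, H.mul, add_comm]

theorem cm (a c : K) : ⁅x 0 0 c, x a 0 0⁆ = x 0 (a * c) 0 := by
  rw [← sq_comm (by simp [H.sq, H.inj]) (by simp [H.sq, H.inj]), H.mul, H.sq]
  simp

/-- The Heisenberg subgroup. -/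
def S : Subgroup Y where
  carrier := {g | ∃ a b c, g = x a b c}
  mul_mem' := by rintro _ _ ⟨a, b, c, rfl⟩ ⟨a', b', c', rfl⟩; exact ⟨_, _, _, H.mul ..⟩
  one_mem' := ⟨0, 0, 0, ((H.inj ..).2 ⟨rfl, rfl, rfl⟩).symm⟩
  inv_mem' := by
    rintro _ ⟨a, b, c, rfl⟩
    exact ⟨a, b + a * c, c, inv_eq_of_mul_eq_one_right (by
      rw [H.mul, H.inj]
      exact ⟨CharTwo.add_self_eq_zero _, by linear_combination (b + a * c) * CharTwo.two_eq_zero (R := K),
        CharTwo.add_self_eq_zero _⟩)⟩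

theorem pg : IsPGroup 2 H.S := by
  rintro ⟨_, a, b, c, rfl⟩
  exact ⟨2, Subtype.ext (H.four a b c)⟩

theorem core (h : Ev E) {p : Y} (hp : ∀ a, p * x 0 a 0 * p⁻¹ = x a 0 0) {w : K} (w0 : w ≠ 0) (w1 : w ≠ 1) {a b : K}
    (a0 : a ≠ 0) (he : x a b 0 ∈ E (x 0 1 0)) : False := by
  have n : ∀ {d : K}, d ≠ 0 → x 0 d 0 ≠ 1 := fun k => by simp [H.inj, k]
  have t1 := n one_ne_zero
  have s : ∀ a b c, x a b c * x 0 1 0 * (x a b c)⁻¹ ∈ E (x 0 1 0) := fun a b c => by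
    rw [(H.cz ..).eq, mul_inv_cancel_right]; exact h.self _ (H.sq0 1)
  have z : ∀ c, x 0 c 0 ∈ E (x 0 1 0) := fun c => by
    simpa [H.sq] using h.sq_mem _ (x 1 0 c) t1 (H.sq0 1) ⟨2, H.four ..⟩ (s ..)
  have a1 : x a 0 0 ∈ E (x 0 1 0) := by simpa [H.mul, CharTwo.add_self_eq_zero] using mul_mem he (z b)
  have y : ∀ d, x d 0 0 ∈ E (x 0 1 0) := fun d => by
    have := h.conj _ _ p (h.eq_of _ _ t1 (H.sq0 1) (z a) (n a0) ▸ z d)
    rwa [hp, hp, h.eq_of _ _ t1 (H.sq0 1) a1 (by simp [H.inj, a0])] at this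
  have := h.l3 _ H.S (x 1 0 0) (x w 0 0) (x 0 0 w) (x 0 0 1) (x 0 0 (w * w)) (x 0 0 w) t1 (H.sq0 1) H.pg
    (by rintro _ ⟨a, b, c, rfl⟩; exact s ..) (y 1) (y w) ⟨_, _, _, rfl⟩ ⟨_, _, _, rfl⟩ ⟨_, _, _, rfl⟩ ⟨_, _, _, rfl⟩
    (by simp [H.cm]) (by simp [H.cm]) (by simp [H.cm, H.inj, w0]) (by simp [H.cm, H.inj, w0]) (fun e => by
      have := H.sq0 w
      rw [H.cm, H.cm, one_mul, one_mul] at e
      rw [pow_two] at this
      nth_rewrite 1 [e] at this
      rw [H.mul, H.inj] at this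
      exact mul_ne_zero w0 (sub_ne_zero.2 w1) (by linear_combination this.2.1 - w * CharTwo.two_eq_zero (R := K)))
  simp only [H.mul, ← commutatorElement_eq_one_iff_commute, add_zero, mul_zero, H.cm, H.inj] at this
  exact mul_ne_zero w0 (sub_ne_zero.2 w1) (by linear_combination this.2.1 - w * CharTwo.two_eq_zero (R := K))

theorem fin (h : Ev E) {p p' g : Y} (hp : ∀ a, p * x 0 a 0 * p⁻¹ = x a 0 0) (hp' : ∀ a, p' * x 0 a 0 * p'⁻¹ = x 0 0 a)
    {u v : K} (u0 : u ≠ 0) (u1 : u ≠ 1) (cj : ∀ a b c, g * x a b c * g⁻¹ = x (u * a) b (v * c))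
    (o : ∃ n, Odd n ∧ g ^ n = 1) : False := by
  have c0 : ∀ b, Commute g (x 0 b 0) := fun b => by simpa [mul_inv_eq_iff_eq_mul, commute_iff_eq] using cj 0 b 0
  have t1 : x 0 1 0 ≠ 1 := by simp [H.inj]
  have := h.u3 (x 0 1 0) g H.S t1 (H.sq0 1) H.pg (by rintro _ ⟨a, b, c, rfl⟩; exact H.cz ..) (fun k => ?_) o (c0 1)
    (by rintro _ ⟨a, b, c, rfl⟩; exact ⟨_, _, _, cj ..⟩) ?_ _ ⟨0, 0, 1, rfl⟩ _ ⟨1, 0, 0, rfl⟩
  · simp [← commutatorElement_eq_one_iff_commute, H.cm, H.inj] at this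
  · have := cj 1 0 0
    have e := H.mul 1 0 0 (u * 1) 0 (v * 0)
    rw [k, one_mul, inv_one, mul_one] at this
    rw [← this, ← pow_two, H.sq, eq_comm] at e
    exact u1 (by linear_combination ((H.inj ..).1 (e.trans (by simp [H.inj]))).1 - CharTwo.two_eq_zero (R := K))
  · rintro _ ⟨a, b, c, rfl⟩ he
    have := h.sq_eq _ _ t1 (H.sq0 1) he
    rw [H.sq, H.inj] at this
    by_cases a0 : a = 0
    · by_cases c1 : c = 0
      · rw [a0, c1]; exact c0 b
      exact (H.dual.core h (p := p') (by simpa using hp') u0 u1 c1 (b := b) (by simpa [a0] using he)).elim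
    · exact (H.core h hp u0 u1 a0 (b := b) ((mul_eq_zero.1 this.2.1).resolve_left a0 ▸ he)).elim

end Hb

/-- The projection. -/
def pr (K : Type*) [Field K] : SL(3, K) →* PSL(3, K) := QuotientGroup.mk' _

theorem pr_cj {p a b : SL(3, K)} (h : p.1 * a.1 = b.1 * p.1) : pr K p * pr K a * (pr K p)⁻¹ = pr K b := by
  rw [← map_mul, show p * a = b * p from Subtype.ext h, map_mul, mul_inv_cancel_right]

/-- A unitriangular matrix. -/
def ut (a b c : K) : SL(3, K) := ⟨!![1, a, b; 0, 1, c; 0, 0, 1], by simp [det_fin_three]⟩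

/-- A diagonal matrix. -/
def dg (a : K) (h : a ≠ 0) : SL(3, K) :=
  ⟨diagonal ![a, a⁻¹ ^ 2, a], by simp [Fin.prod_univ_three]; field_simp⟩

theorem hb_ut : Hb fun a b c : K => pr K (ut a b c) where
  mul a b c a' b' c' := by
    rw [← map_mul]
    congr 1
    apply Subtype.ext
    change (ut a b c).1 * (ut a' b' c').1 = _
    ext i j
    fin_cases i <;> fin_cases j <;> simp [ut, mul_apply, Fin.sum_univ_three] <;> ring
  inj a b c := by
    refine ⟨fun e => ?_, fun ⟨p, q, r⟩ => ?_⟩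
    · obtain ⟨r, -, hr⟩ := Matrix.SpecialLinearGroup.mem_center_iff.1 ((QuotientGroup.eq_one_iff _).1 e)
      exact ⟨by simpa [ut] using (congrFun₂ hr 0 1).symm, by simpa [ut] using (congrFun₂ hr 0 2).symm,
        by simpa [ut] using (congrFun₂ hr 1 2).symm⟩
    · rw [p, q, r, ← map_one (pr K)]
      congr 1
      ext i j
      fin_cases i <;> fin_cases j <;> simp [ut]

theorem odd_card [Fintype K] [CharP K 2] : Odd (Fintype.card K - 1) :=
  Nat.Even.sub_odd Fintype.card_pos (Nat.even_iff.2 (FiniteField.even_card_of_char_two (ringChar.eq K 2))) odd_one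

/-- The reflection in the short root. -/
def na (K : Type*) [Field K] : symplecticGroup (Fin 2) K :=
  ⟨fromBlocks !![0, 1; 1, 0] 0 0 !![0, 1; 1, 0], by
    rw [SymplecticGroup.mem_iff, J, fromBlocks_transpose]
    simp only [fromBlocks_multiply]
    congr 1 <;> ext i j <;> fin_cases i <;> fin_cases j <;> simp [vecMul, dotProduct]⟩

/-- The reflection in the long root. -/
def nb (K : Type*) [Field K] : symplecticGroup (Fin 2) K :=
  ⟨fromBlocks !![1, 0; 0, 0] !![0, 0; 0, 1] !![0, 0; 0, -1] !![1, 0; 0, 0], by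
    rw [SymplecticGroup.mem_iff, J, fromBlocks_transpose]
    simp only [fromBlocks_multiply]
    congr 1 <;> ext i j <;> fin_cases i <;> fin_cases j <;> simp [vecMul, dotProduct]⟩

open X1

theorem na_sH (a b c : K) : na K * sH K (.ofAdd (a, b, c)) = sH K (.ofAdd (c, b, a)) * na K := Subtype.ext (by
  change fromBlocks _ _ _ _ * fromBlocks _ _ _ _ = fromBlocks _ _ _ _ * fromBlocks _ _ _ _
  simp only [fromBlocks_multiply]
  congr 1 <;> ext i j <;> fin_cases i <;> fin_cases j <;> simp [mul_apply])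

theorem nb_sH : nb K * sH K (.ofAdd (1, 0, 0)) = sH K (.ofAdd (1, 0, 0)) * nb K := Subtype.ext (by
  change fromBlocks _ _ _ _ * fromBlocks _ _ _ _ = fromBlocks _ _ _ _ * fromBlocks _ _ _ _
  simp only [fromBlocks_multiply]
  congr 1 <;> ext i j <;> fin_cases i <;> fin_cases j <;> simp [mul_apply])

theorem nb_lH : nb K * sH K (.ofAdd (0, 1, 0)) = lH K (.ofAdd 1) * nb K := Subtype.ext (by
  change fromBlocks _ _ _ _ * fromBlocks _ _ _ _ = fromBlocks _ _ _ _ * fromBlocks _ _ _ _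
  simp only [fromBlocks_multiply]
  congr 1 <;> ext i j <;> fin_cases i <;> fin_cases j <;> simp [mul_apply])

theorem lH_sH' : lH K (.ofAdd 1) * sH K (.ofAdd (0, 0, 1)) = sH K (.ofAdd (1, 1, 1)) * lH K (.ofAdd 1) :=
  Subtype.ext (by
    change fromBlocks _ _ _ _ * fromBlocks _ _ _ _ = fromBlocks _ _ _ _ * fromBlocks _ _ _ _
    simp only [fromBlocks_multiply]
    congr 1 <;> ext i j <;> fin_cases i <;> fin_cases j <;> simp [mul_apply])

end X6

open X6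

namespace HasEv

variable {X : Type*} [Group X] [Finite X] (h : HasEv X) {K : Type} [Field K] [Fintype K] [CharP K 2]
include h

/-- `x = x₀₁ x₁₂` has `x² = x₀₂` and commutes with `x₀₃` and with `x₃₂`: `x₀₃ ≈ x₀₂ ≈ x₃₂`, but `x₀₃` and `x₃₂` do not
commute. -/
theorem not_psl {n : ℕ} (hn : 4 ≤ n) (e : X ≃* PSL(n, K)) : False := by
  obtain ⟨E, h⟩ := h.equiv e
  obtain ⟨m, rfl⟩ := Nat.exists_eq_add_of_le' hn
  let π : SL(m + 4, K) →* PSL(m + 4, K) := QuotientGroup.mk' _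
  let x : ∀ {i j : Fin (m + 4)}, i ≠ j → PSL(m + 4, K) := fun k => π (.transvection k 1)
  have x1 : ∀ {i j} (k : i ≠ j), x k ≠ 1 := fun k c => one_ne_zero
    ((Matrix.SpecialLinearGroup.transvection_mem_center_iff _ _).1 ((QuotientGroup.eq_one_iff _).1 c))
  have x2 : ∀ {i j} (k : i ≠ j), x k ^ 2 = 1 := fun k => by
    rw [sq, ← map_mul, ← Matrix.SpecialLinearGroup.transvection_add, CharTwo.add_self_eq_zero]; simp
  have xc : ∀ {i j l} (k : i ≠ j) (k' : j ≠ l) (k'' : i ≠ l), ⁅x k, x k'⁆ = x k'' := fun k k' k'' => by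
    rw [← map_commutatorElement, Linear.commutator_transvection k k' k'', mul_one]
  have xm : ∀ {i j l r} (k : i ≠ j) (k' : l ≠ r), j ≠ l → i ≠ r → Commute (x k) (x k') := fun k k' a b =>
    (Linear.commute_transvection k k' a b 1 1).map π
  obtain ⟨a, b, c, d, ab, ac, ad, bc, bd, cd⟩ : ∃ a b c d : Fin (m + 4), a ≠ b ∧ a ≠ c ∧ a ≠ d ∧ b ≠ c ∧ b ≠ d ∧ c ≠ d :=
    ⟨⟨0, by omega⟩, ⟨1, by omega⟩, ⟨2, by omega⟩, ⟨3, by omega⟩, by simp⟩
  have e1 := eq_comm' h (x1 ad) (x2 ad) (x2 ab) (x2 bc) (xc ab bc ac) (x1 ac) (x2 ac) (xm _ _ ab.symm ad)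
    (xm _ _ ac.symm bd)
  have e2 := eq_comm' h (x1 cd.symm) (x2 cd.symm) (x2 ab) (x2 bc) (xc ab bc ac) (x1 ac) (x2 ac) (xm _ _ bd ac)
    (xm _ _ cd bc)
  exact x1 ac (xc ad cd.symm ac ▸ (h.comm_of_eq (x1 ad) (x2 ad) (x2 cd.symm) (e2.symm.trans e1)).commutator_eq)

/-- `S` = the unitriangular group, `t = x₀₂(1)`.  If `S ⊓ E t ≤ X₀₂`: `h = diag(a, a⁻², a)` with `a³ ≠ 1` has odd order,
normalises `S`, centralises `X₀₂`, and `u3` makes `S` abelian.  Otherwise `E t` contains an involution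
`e = x₀₁(a) x₀₂(b)` or `x₁₂(a) x₀₂(b)`, `a ≠ 0` (an involution of `S` has this form).  `X₀₂ ≤ E t` as
`(x₀₁(1) x₁₂(c))² = x₀₂(c)` (`sq_mem`).  So `x₀₁(a) ∈ E t`, and conjugating `X₀₂ ≤ E (x₀₂(a))` by a permutation matrix,
`X₀₁ ≤ E (x₀₁(a)) = E t`.  `l3` with `e₁ = x₀₁(1)`, `e₂ = x₀₁(w)`, `w ∉ {0, 1}`, `s₁ = x₁₂(w)`, `s₂ = x₁₂(1)`,
`r₁ = x₁₂(w²)`, `r₂ = x₁₂(w)` says that `x₁₂(w)` commutes with `x₀₁(1 + w)`, which is false.  The other case is dual. -/
theorem not_l3 (hK : 8 ≤ Fintype.card K) (e : X ≃* PSL(3, K)) : False := by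
  obtain ⟨E, h⟩ := h.equiv e
  obtain ⟨m, hm⟩ := Nat.exists_eq_add_of_le' (show 1 ≤ Fintype.card K by omega)
  obtain ⟨w, w1, w2⟩ := X3.gen m hm
  have w0 : w ≠ 0 := fun c => by simp [c, show m ≠ 0 by omega] at w1
  have m1 : (-1 : K) = 1 := CharTwo.neg_eq 1
  refine hb_ut.fin h (p := pr K ⟨!![1, 0, 0; 0, 0, 1; 0, 1, 0], by simp [Matrix.det_fin_three, m1]⟩)
    (p' := pr K ⟨!![0, 1, 0; 1, 0, 0; 0, 0, 1], by simp [Matrix.det_fin_three, m1]⟩) (g := pr K (dg w w0))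
    (fun a => pr_cj ?_) (fun a => pr_cj ?_) (pow_ne_zero 3 w0) (w2 3 (by decide) (by omega)) (v := w⁻¹ ^ 3)
    (fun a b c => pr_cj ?_) ⟨m, by simpa [hm] using odd_card (K := K), ?_⟩
  iterate 3
    ext i j
    fin_cases i <;> fin_cases j <;> simp [ut, dg, Matrix.mul_apply, Fin.sum_univ_three] <;> field_simp
  rw [← map_pow, ← map_one (pr K)]
  congr 1
  apply Subtype.ext
  change Matrix.diagonal _ ^ m = 1
  rw [Matrix.diagonal_pow, ← Matrix.diagonal_one]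
  congr 1
  ext i
  fin_cases i <;> simp [w1, pow_right_comm w 2]

/-- `u3`: `S = U`, `t ∈ Z(U)`; the involutions of `U` lie in `Z(U)`.  The torus element with parameter `λ`,
`λ ^ (q + 1) = 1`, `λ ^ 3 ≠ 1` (`q ≥ 4`) is not central, has odd order and centralises `Z(U)`; `U` is not abelian
(`U3.Model`). -/
theorem not_u3 {q : ℕ} (hq : Fintype.card K = q ^ 2) (h4 : 4 ≤ q) (e : X ≃* PSU 3 K q) : False := by
  obtain ⟨E, h⟩ := h.equiv e
  obtain ⟨σ, b⟩ := Unitary.exists_isBar hq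
  have : Fact (Function.Involutive σ) := ⟨b.invol⟩
  obtain ⟨M, -⟩ := U3.exists_model_PSU b
  obtain ⟨r, rfl⟩ := Nat.exists_eq_add_of_le' h4
  obtain ⟨z, z1, z2⟩ := X3.gen (K := K) ((r + 3) * (r + 5)) (by rw [hq]; ring)
  have z0 : z ≠ 0 := fun c => by simp [c] at z1
  have l0 := pow_ne_zero (r + 3) z0
  have l1 : z ^ (r + 3) * σ (z ^ (r + 3)) = 1 := by rw [b.norm_eq, ← pow_mul, z1]
  have l3 : (z ^ (r + 3)) ^ 3 ≠ 1 := pow_mul z _ _ ▸ z2 _ (by omega) (by nlinarith)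
  generalize z ^ (r + 3) = l at l0 l1 l3
  have cj : ∀ {x y}, U3.Hs σ x y → M.h l * M.u x y * (M.h l)⁻¹ = M.u (l ^ 3 * x) y := fun k => by
    rw [M.h_conj_u l0 k, l1, one_mul, eq_inv_of_mul_eq_one_right l1, div_inv_eq_mul, ← pow_succ]
  have f0 : ∀ {d}, σ d = d → U3.Hs σ 0 d := fun k => Q5A.hs0 (by rw [k, CharTwo.neg_eq])
  have s0 : ∀ {d}, U3.Hs σ 0 d → M.u 0 d ^ 2 = 1 := fun k => by
    simp [sq, M.u_mul k k, CharTwo.add_self_eq_zero, M.u_zero]
  have n0 : ∀ x, U3.Hs σ 0 (x * σ x) := fun x => f0 (by rw [map_mul, b.invol, mul_comm])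
  have s1 : ∀ {x y}, U3.Hs σ x y → M.u x y ^ 2 = M.u 0 (x * σ x) := fun k => by
    simp [sq, M.u_mul k k, CharTwo.add_self_eq_zero]
  have c0 : ∀ {d}, U3.Hs σ 0 d → Commute (M.h l) (M.u 0 d) := fun k => by
    simpa [mul_inv_eq_iff_eq_mul, commute_iff_eq] using cj k
  have o := f0 (map_one σ)
  have t1 : M.u 0 1 ≠ 1 := by simp [M.u_eq_one o]
  obtain ⟨y, hy⟩ := U3.exists_hs' b 1
  obtain ⟨c, hc⟩ := b.exists_ne
  obtain ⟨d, hd⟩ := U3.exists_hs' b c
  have := h.u3 (M.u 0 1) (M.h l) M.U t1 (s0 o) (fun ⟨g, hg⟩ => ⟨2, Subtype.ext ?_⟩) (fun g hg => ?_) (fun k => ?_)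
    ⟨_, odd_card (K := K), ?_⟩ (c0 o) (fun g hg => M.conj_mem_U (M.h_smul_inf l) hg) (fun g hg he => ?_)
    _ (M.u_mem_U hy) _ (M.u_mem_U hd)
  · rw [← commutatorElement_eq_one_iff_commute, Q5A.u_commutator M hy hd,
      M.u_eq_one (Q5A.hs0 (by simp [b.invol]))] at this
    exact hc (by linear_combination this + c * map_one σ)
  · obtain ⟨x, y, k, rfl⟩ := M.mem_U.1 hg
    change M.u x y ^ (2 * 2) = 1
    rw [pow_mul, s1 k, s0 (n0 x)]
  · obtain ⟨x, y, k, rfl⟩ := M.mem_U.1 hg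
    exact Q5A.u0_comm M (by simp [CharTwo.neg_eq]) k
  · have e1 := cj hy
    have e2 := hy.tor l0
    rw [l1, one_mul, eq_inv_of_mul_eq_one_right l1, div_inv_eq_mul, ← pow_succ] at e2
    rw [k, one_mul, inv_one, mul_one, M.u_inj hy e2] at e1
    exact l3 (by simpa using e1.1.symm)
  · classical
    change M.hHom (.mk0 l l0) ^ _ = 1
    rw [← map_pow, ← Fintype.card_units, pow_card_eq_one, map_one]
  · obtain ⟨x, y, k, rfl⟩ := M.mem_U.1 hg
    have := h.sq_eq _ _ t1 (s0 o) he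
    rw [s1 k, M.u_eq_one (n0 x), mul_eq_zero, map_eq_zero, or_self] at this
    subst this
    exact c0 k

/-- Roots `a` (short), `b` (long).  `Z(U) = X_{a+b} X_{2a+b}`, `(x_a(s) x_b(u))² = x_{a+b}(s u) x_{2a+b}(s² u)`.  For
`t = x_{a+b}(1)`, `sq_mem` puts these squares in `E t`; with `(s, u) = (1, 1 + w)`, `(w, 1)`, `w ∉ {0, 1}`, and
`t`, the product is `x_{2a+b}(c)`, `c = 1 + w + w²` (if `c = 0` use `(1, w)`, `(w, w)`, `t`, with product
`x_{2a+b}(w + 1)`).  So `x_{a+b}(1) ≈ x_{2a+b}(c)`.  The reflection `n_a` fixes `x_{a+b}(1)` and sends `x_{2a+b}(c)` to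
`x_b(c)`; `n_b` fixes `x_{2a+b}(c)` and sends `x_{a+b}(1)` to `x_a(1)`.  So `x_a(1) ≈ x_b(c)`, which do not commute.
Use explicit `4 × 4` matrices. -/
theorem not_psp (hK : 4 ≤ Fintype.card K) (e : X ≃* PSp 2 K) : False := by
  obtain ⟨E, h⟩ := h.equiv e
  let π : _ →* PSp 2 K := QuotientGroup.mk' _
  let s : K → K → K → PSp 2 K := fun a b c => π (X1.sH K (.ofAdd (a, b, c)))
  let l := π (X1.lH K (.ofAdd 1))
  have sm : ∀ a b c a' b' c', s a b c * s a' b' c' = s (a + a') (b + b') (c + c') := fun a b c a' b' c' => by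
    rw [← map_mul, ← map_mul]; rfl
  have s1 : ∀ a b c, s a b c = 1 ↔ a = 0 ∧ b = 0 ∧ c = 0 := fun a b c =>
    (map_eq_one_iff _ X1.sH_inj).trans (by simp)
  have s2 : ∀ a b c, s a b c ^ 2 = 1 := fun a b c => by simp [sq, sm, s1, CharTwo.add_self_eq_zero]
  have l2 : l ^ 2 = 1 := by rw [sq, ← map_mul, ← map_mul, ← ofAdd_add, CharTwo.add_self_eq_zero]; simp
  have cm : ⁅l, s 0 0 1⁆ = s 1 1 0 := by
    rw [commutatorElement_def, ← map_mul, lH_sH', map_mul, mul_inv_cancel_right, mul_inv_eq_iff_eq_mul, sm]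
    simp [s]
  have t1 : s 0 1 0 ≠ 1 := by simp [s1]
  have e1 : E (s 1 1 0) = E (s 0 1 0) := eq_comm' h t1 (s2 ..) l2 (s2 ..) cm (by simp [s1]) (s2 ..)
    (Commute.map (by simpa [commute_iff_eq, CharTwo.two_eq_zero] using X1.lH_sH (0 : K) 1) π)
    (by simp [commute_iff_eq, sm])
  have e2 : E (s 1 0 0) = E (s 0 1 0) := h.eq_of _ _ t1 (s2 ..) (by
    have := mul_mem (e1 ▸ h.self _ (s2 1 1 0)) (h.self _ (s2 0 1 0))
    rwa [sm, CharTwo.add_self_eq_zero, add_zero, add_zero] at this)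
    (by simp [s1])
  have e3 := h.eq_conj e2 (π (na K))
  have e4 := h.eq_conj e2 (π (nb K))
  simp only [s, ← map_mul, na_sH, nb_sH, nb_lH, ← map_inv, mul_inv_cancel_right] at e3 e4
  have := h.comm_of_eq (t := s 0 0 1) (by simp [s1]) (s2 ..) l2 (e4.symm.trans (e2.trans e3.symm))
  exact (by simp [s1] : s 1 1 0 ≠ 1) (cm ▸ this.symm.commutator_eq)

omit [Field K] [Fintype K] [CharP K 2] in
/-- In `A₈` (`of_inj`): `x = (0 2 1 3)(4 5)` has `x² = (0 1)(2 3)` and commutes with `(4 5)(6 7)`; in this way every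
double transposition on `{0,1,2,3}` is equivalent to every one on `{4,5,6,7}`, and to the product
`t = (0 1)(2 3)(4 5)(6 7)` (`eq_of`).  So `(0 2)(1 3) ≈ t`, and likewise `(0 4)(1 5) ≈ t`; they do not commute. -/
theorem not_alt {n : ℕ} (hn : 8 ≤ n) (e : X ≃* alternatingGroup (Fin n)) : False := by
  obtain ⟨θ, hθ⟩ := X3.exists_alt hn
  obtain ⟨E, h⟩ := (h.equiv e).of_inj θ hθ
  let b := X3.a8 (c[4, 5] * c[6, 7])
  let x := X3.a8 (c[0, 2, 1, 3] * c[4, 5])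
  let y := X3.a8 (c[0, 1, 2, 3] * c[4, 5])
  let g := X3.a8 (c[2, 4] * c[3, 5])
  have b1 : b ≠ 1 := by decide +kernel
  have b2 : b ^ 2 = 1 := by decide +kernel
  have e1 := h.eq_sq (x := x) b1 b2 (by decide +kernel) (by decide +kernel) (show _ = _ by decide +kernel)
  have e2 := h.eq_sq (x := y) b1 b2 (by decide +kernel) (by decide +kernel) (show _ = _ by decide +kernel)
  have e3 := h.eq_of _ _ b1 b2 (mul_mem (e1 ▸ h.self (x ^ 2) (by decide +kernel)) (h.self _ b2)) (by decide +kernel)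
  have e4 := h.eq_conj (e2.trans e3.symm) g
  rw [show g * (x ^ 2 * b) * g⁻¹ = x ^ 2 * b by decide +kernel, e3, ← e2] at e4
  exact absurd (h.comm_of_eq (by decide +kernel) (by decide +kernel) (by decide +kernel) e4).eq (by decide +kernel)

end HasEv

end Cfsg.Lib.Q4
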